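/-
Project C3X: the model group inside the first Conway group.
-/
import Cfsg.Agent.C3X.CoM
import Cfsg.Agent.S0399

set_option autoImplicit false

namespace Cfsg.Agent.C3X

open Subgroup

theorem exists_co : ∃ ι : SS →* Cfsg.Spor.Co1, Re ι ∧ IsConj (ι (jv zv)) (ι (jv ![0, 0, 0, 1, 0, 1])) := by
  obtain ⟨j, x, y, t, g1, g2, h, h0, h1, h2, -⟩ := co_data
  have v1 : (1 : F).val = 1 := rfl
  have e0 : h.hom (jv zv) = j 0 := by
    rw [h.hom_jv, ← ph_single j 0]; congr 1; decide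
  have e2 : h.hom (jv ![0, 0, 1, 0, 0, 0]) = j 2 := by
    rw [h.hom_jv, ← ph_single j 2]; congr 1; decide
  have e3 : h.hom (jv ![0, 0, 0, 1, 0, 1]) = j 3 * j 5 := by
    rw [h.hom_jv, ← ph_single j 3, ← ph_single j 5, ← h.add]; congr 1; decide
  have e4 : h.hom (pv 0 0 1) = t := by rw [h.hom_pv]; simp [v1]
  let π := QuotientGroup.mk' (center Co0)
  have c1 : IsConj ((π.comp h.hom) (jv zv)) ((π.comp h.hom) (jv ![0, 0, 0, 1, 0, 1])) :=
    π.map_isConj (by rw [e0, e3]; exact isConj_iff.2 ⟨g1, mul_inv_eq_iff_eq_mul.2 h1⟩)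
  have cd : Nat.card Cfsg.Spor.Co1 = 4157776806543360000 := H15.card_Co1
  refine ⟨π.comp h.hom, ⟨inj_of_z fun e => h0 ?_, by rw [cd]; norm_num,
    Nat.finite_of_card_ne_zero (by rw [cd]; norm_num), ⟨_, by decide, c1⟩,
    π.map_isConj (by rw [e2, e4]; exact isConj_iff.2 ⟨g2, mul_inv_eq_iff_eq_mul.2 h2⟩)⟩, c1⟩
  have hc : j 0 ∈ center Co0 := e0 ▸ (QuotientGroup.eq_one_iff _).1 e
  have h3 := h.j3 0
  have h4 : j 0 ^ 2 = 1 := by
    have := pow_card_eq_one' (x := (⟨j 0, hc⟩ : center Co0))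
    rw [H15.card_center] at this
    exact congrArg Subtype.val this
  rwa [pow_succ, h4, one_mul] at h3

end Cfsg.Agent.C3X
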