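import Cfsg.Agent.C3X.Bas

set_option autoImplicit false

namespace Cfsg.Agent.C3X

open Subgroup

variable {X : Subgroup GV}

theorem rank_le {ι : Type} [Fintype ι] (v : ι → V) (φ : ι → V →ₗ[F] F) (h0 : ∀ i, φ i (v i) = 0)
    (h1 : ∀ i j, i ≠ j → φ i (v j) ≠ 0) : Fintype.card ι ≤ 22 := by
  classical
  let f : Option {p : Fin 6 × Fin 6 // p.1 ≤ p.2} → (ι → F) := fun o =>
    o.elim (fun _ => 1) fun p j => v j p.1.1 * v j p.1.2
  have hm : ∀ a b : Fin 6, (fun j => v j a * v j b) ∈ Submodule.span F (Set.range f) := fun a b => by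
    rcases le_total a b with c | c
    · exact Submodule.subset_span ⟨some ⟨(a, b), c⟩, rfl⟩
    · exact Submodule.subset_span ⟨some ⟨(b, a), c⟩, funext fun j => mul_comm _ _⟩
  have hq : ∀ i, (fun j => φ i (v j) * φ i (v j)) ∈ Submodule.span F (Set.range f) := fun i => by
    have : (fun j => φ i (v j) * φ i (v j)) = ∑ a : Fin 6, ∑ b : Fin 6,
        (φ i (fun k => if a = k then 1 else 0) * φ i (fun k => if b = k then 1 else 0)) •
          fun j => v j a * v j b := by
      funext j
      rw [LinearMap.pi_apply_eq_sum_univ (φ i) (v j), Finset.sum_mul_sum]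
      simp only [Finset.sum_apply, Pi.smul_apply, smul_eq_mul]
      exact Finset.sum_congr rfl fun a _ => Finset.sum_congr rfl fun b _ => by ring
    rw [this]
    exact Submodule.sum_mem _ fun a _ => Submodule.sum_mem _ fun b _ => Submodule.smul_mem _ _ (hm a b)
  have sq1 : ∀ k : F, k ≠ 0 → k * k = 1 := by decide
  have he : ∀ i, (Pi.single i 1 : ι → F) ∈ Submodule.span F (Set.range f) := fun i => by
    have : (Pi.single i 1 : ι → F) = f none - fun j => φ i (v j) * φ i (v j) := by
      funext j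
      by_cases c : i = j
      · subst c; simp [f, h0]
      · simp [f, sq1 _ (h1 i j c), Ne.symm c]
    rw [this]
    exact sub_mem (Submodule.subset_span ⟨none, rfl⟩) (hq i)
  have top : Submodule.span F (Set.range f) = ⊤ := by
    rw [eq_top_iff, ← (Pi.basisFun F ι).span_eq, Submodule.span_le]
    rintro _ ⟨i, rfl⟩
    rw [Pi.basisFun_apply]
    exact he i
  have := finrank_le_of_span_eq_top top
  rwa [Module.finrank_fintype_fun_eq_card, show Fintype.card (Option {p : Fin 6 × Fin 6 // p.1 ≤ p.2}) = 22 by decide]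
    at this

theorem Rank.card_GV : Nat.card GV = 84129611558952960 := by
  rw [← Nat.card_congr ((Matrix.GeneralLinearGroup.toLin (n := Fin 6) (R := ZMod 3)).trans
    (LinearMap.GeneralLinearGroup.generalLinearEquiv (ZMod 3) V)).toEquiv, Matrix.card_GL_field, ZMod.card]
  decide

theorem nd (X : Subgroup GV) : ¬ 19 ∣ Nat.card X ∧ ¬ 23 ∣ Nat.card X ∧ ¬ 25 ∣ Nat.card X ∧ ¬ 73 ∣ Nat.card X := by
  have h := X.card_subgroup_dvd_card
  rw [Rank.card_GV] at h
  refine ⟨fun k => ?_, fun k => ?_, fun k => ?_, fun k => ?_⟩ <;> exact absurd (k.trans h) (by norm_num)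

namespace Rank

theorem eq_of_fz {p q : X ⧸ (KZ X).subgroupOf X} (h : FZ ((p.out : GV)⁻¹ * (q.out : GV))) : p = q := by
  rw [← p.out_eq, ← q.out_eq]
  exact QuotientGroup.eq.2 ⟨(p.out⁻¹ * q.out).2, h⟩

theorem card_om (X : Subgroup GV) : (Om X).ncard = 2 * Nat.card (X ⧸ (KZ X).subgroupOf X) := by
  let f : Bool × (X ⧸ (KZ X).subgroupOf X) → V := fun p => sg p.1 • (p.2.out : GV) zv
  have inj : Function.Injective f := by
    rintro ⟨e, p⟩ ⟨e', q⟩ h
    have h2 : sg e • zv = sg e' • ((p.out : GV)⁻¹ * (q.out : GV)) zv := by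
      have := congrArg (fun v => (p.out : GV)⁻¹ v) h
      simpa only [f, map_smul, ginv, gmul] using this
    have : p = q := eq_of_fz (by
      unfold FZ
      generalize ((p.out : GV)⁻¹ * (q.out : GV)) zv = w at h2
      cases e <;> cases e' <;> simp only [sg, if_true, Bool.false_eq_true, if_false, one_smul, neg_smul] at h2
      · exact .inl h2.symm
      · exact .inr (neg_eq_iff_eq_neg.1 h2.symm)
      · exact .inr h2.symm
      · exact .inl (neg_inj.1 h2).symm)
    subst this
    rw [inv_mul_cancel, gone] at h2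
    have : e = e' := (by decide : ∀ e e' : Bool, sg e • zv = sg e' • zv → e = e') e e' h2
    rw [this]
  have rg : Set.range f = Om X := by
    ext v
    constructor
    · rintro ⟨⟨e, p⟩, rfl⟩
      have := Om.act p.out.2 (Om.z X)
      cases e
      · simpa [f, sg] using this
      · simpa [f, sg] using Om.neg this
    · rintro ⟨x, hx, e⟩
      obtain ⟨k, hk⟩ := QuotientGroup.mk_out_eq_mul ((KZ X).subgroupOf X) ⟨x, hx⟩
      have e2 : (((⟨x, hx⟩ : X) : X ⧸ (KZ X).subgroupOf X).out : GV) zv = x (((k : X) : GV) zv) := by rw [hk]; rfl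
      have fz : FZ ((k : X) : GV) := k.2.2
      rcases fz with c | c <;> rw [c] at e2 <;> rcases e with e | e
      · exact ⟨(false, (⟨x, hx⟩ : X)), by simp [f, sg, e2, e]⟩
      · exact ⟨(true, (⟨x, hx⟩ : X)), by simp [f, sg, e2, e]⟩
      · exact ⟨(true, (⟨x, hx⟩ : X)), by simp [f, sg, e2, e]⟩
      · exact ⟨(false, (⟨x, hx⟩ : X)), by simp [f, sg, e2, e]⟩
  rw [← rg, Set.ncard_range_of_injective inj, Nat.card_prod, Nat.card_eq_fintype_card, Fintype.card_bool]

end Rank

theorem om_card (X : Subgroup GV) : ∃ n, (Om X).ncard = 2 * n ∧ n ∣ Nat.card X :=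
  ⟨_, Rank.card_om X, ((KZ X).subgroupOf X).index_dvd_card⟩

theorem om_le (k : ∀ v ∈ Om X, v 5 = 0 → v = zv ∨ v = -zv) : (Om X).ncard ≤ 44 := by
  have := Fintype.ofFinite (X ⧸ (KZ X).subgroupOf X)
  have := rank_le (ι := X ⧸ (KZ X).subgroupOf X) (fun p => (p.out : GV) zv)
    (fun p => (LinearMap.proj 5 : V →ₗ[F] F) ∘ₗ ((p.out : GV)⁻¹ : GV).toLinearMap)
    (fun p => by simp only [LinearMap.comp_apply, LinearEquiv.coe_coe, ginv]; rfl)
    (fun p q ne c => ne (Rank.eq_of_fz (k _ (Om.act (p.out⁻¹ * q.out).2 (Om.z X)) c)))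
  rw [Rank.card_om, Nat.card_eq_fintype_card]
  omega

end Cfsg.Agent.C3X
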