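import Cfsg.Agent.C3X.NA2
import Cfsg.Agent.C3X.Cnt
import Cfsg.Agent.C3X.Rank

set_option autoImplicit false

namespace Cfsg.Agent.C3X

open Subgroup

variable {X : Subgroup GV}

theorem na_aux : ∀ k k' w : F, w ≠ 0 → (k = 1 ∨ k = -1) → (k' = 1 ∨ k' = -1) → k * w = k' * w → k = k' := by
  decide

theorem na (h : Hyp X) (hn : ∀ x ∈ X, x ∈ normalizer (A2 : Set GV) → FZ x) (hs : ss ∈ X) : ∀ x ∈ X, FZ x := by
  obtain ⟨n, hn1, hn2⟩ := om_card X
  obtain ⟨d1, d2, d3, d4⟩ := nd X
  rcases cnt (Om.z X) (fun a b c v hv => Om.act (h.le (pe_mem a b c)) hv) (fun v hv => Om.act hs hv)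
    (fun v hv => Om.neg hv) (fun v hv a b c => fix1 h hn hv) (fun M hM y => bad h hn hs hM) with k | k | k | k | k
  rotate_left
  · exact absurd ((show 19 ∣ n by omega).trans hn2) d1
  · exact absurd ((show 23 ∣ n by omega).trans hn2) d2
  · exact absurd ((show 73 ∣ n by omega).trans hn2) d4
  · exact absurd ((show 25 ∣ n by omega).trans hn2) d3
  intro x hx
  by_contra hz
  have hv : x zv ∈ Om X := ⟨x, hx, .inl rfl⟩
  have h5 : x zv 5 ≠ 0 := fun e => hz (k _ hv e)
  change ¬ (x zv = zv ∨ x zv = -zv) at hz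
  generalize x zv = v at hv h5 hz
  have inj : ∀ a b c a' b' c' : F, pe a b c v = pe a' b' c' v → a = a' ∧ b = b' ∧ c = c' := by
    intro a b c a' b' c' e
    have hb : b = b' := by
      have := congrFun e 4
      rw [pe4, pe4, add_right_inj] at this
      exact mul_right_cancel₀ h5 this
    subst hb
    have e1 : ((pe a' b c')⁻¹ * pe a b c) v = v := by rw [gmul, e, ginv]
    rw [pe_inv, pe_mul] at e1
    by_contra hne
    refine hz (fix1 h hn hv (.inr (neg_add_cancel b)) ?_ e1)
    by_contra! k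
    refine hne ⟨by linear_combination k.1, rfl, by linear_combination k.2.2⟩
  have sgn : ∀ e : Bool, sg e = 1 ∨ sg e = -1 := by decide
  have le := Nat.card_le_card_of_injective (β := Om X) (fun p : Bool × F × F × F =>
    ⟨sg p.1 • pe p.2.1 p.2.2.1 p.2.2.2 v, by
      have := Om.act (h.le (pe_mem p.2.1 p.2.2.1 p.2.2.2)) hv
      rcases sgn p.1 with e | e <;> rw [e]
      · rwa [one_smul]
      · rw [neg_one_smul]; exact Om.neg this⟩) (by
    rintro ⟨e, a, b, c⟩ ⟨e', a', b', c'⟩ k
    have k : sg e • pe a b c v = sg e' • pe a' b' c' v := congrArg Subtype.val k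
    have k5 : sg e = sg e' := na_aux _ _ _ h5 (sgn e) (sgn e') (congrFun k 5)
    have ee : e = e' := (by decide : ∀ e e' : Bool, sg e = sg e' → e = e') e e' k5
    subst ee
    obtain ⟨rfl, rfl, rfl⟩ := inj _ _ _ _ _ _ (smul_right_injective V ((by decide : ∀ e : Bool, sg e ≠ 0) e) k)
    rfl)
  rw [Nat.card_coe_set_eq] at le
  have := le.trans (om_le k)
  simp at this

end Cfsg.Agent.C3X
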