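import Cfsg.Agent.C3X.KB1

set_option autoImplicit false

namespace Cfsg.Agent.C3X

open Subgroup

variable {X : Subgroup GV}

theorem kb_two {k : F} (h : 2 * k = 0) : k = 0 := by revert k; decide

theorem kb_zsq {b c : F} (hb : b ≠ 0) {w : V} (h : w = zv ∨ w = -zv) : ¬ (w = sq b c ∨ w = -sq b c) := by
  rcases h with rfl | rfl <;> revert b c <;> decide

theorem kb_ker {c : F} (hc : c ≠ 0) {v : V} : nn (pe 0 0 c) v = 0 ↔ InA v := by
  refine ⟨fun h => ?_, fun ⟨h2, h4, h5⟩ => ?_⟩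
  · have h0 := congrFun h 0
    have h1 := congrFun h 1
    have h2 := congrFun h 2
    simp [nn, hc] at h0 h1 h2
    refine ⟨?_, h1, h2⟩
    have : c * (2 * v 2) = 0 := by rw [h2] at h0; linear_combination h0
    exact kb_two ((mul_eq_zero.1 this).resolve_left hc)
  · refine v_ext ?_ ?_ ?_ ?_ ?_ ?_ <;> simp [nn, h2, h4, h5]

theorem kb_ker2 {b c : F} (h : b ≠ 0 ∨ c ≠ 0) {v : V} (e : nn (pe 0 b c) (nn (pe 0 b c) v) = 0) : v 5 = 0 := by
  rw [nn2_A2] at e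
  exact kb_two ((smul_eq_zero.1 e).resolve_right (cu_A2 h).1)

theorem kb_fz {x : GV} {a c a' c' : F} (h : a ≠ 0 ∨ c ≠ 0) (e : x * pe a 0 c * x⁻¹ = pe a' 0 c') : FZ x := by
  rcases (e ▸ (cu_A1 h).conj x).pe with ⟨-, -, k⟩ | ⟨-, k, -⟩
  exacts [k, absurd rfl k]

theorem kb_pres {x : GV} {c : F} (hc : c ≠ 0) (e : x * pe 0 0 1 * x⁻¹ = pe 0 0 c) (k : ℕ) (v : V)
    (hv : v ∈ kbfl k) : x v ∈ kbfl k := by
  have n : ∀ u, nn (pe 0 0 c) (x u) = x (nn (pe 0 0 1) u) := fun u => by rw [← e, nn_conj]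
  have hW : ∀ u, InW u → InW (x u) := fun u hu => by
    obtain ⟨y, rfl⟩ := kb_onto (a := 0) (c := 1) (.inr one_ne_zero) hu
    rw [← n]; exact kb_W _ _ _
  have hA : ∀ u, InA u → InA (x u) := fun u hu => by
    rw [← kb_ker hc, n, (kb_ker one_ne_zero).2 hu, map_zero]
  have h5 : ∀ u : V, u 5 = 0 → x u 5 = 0 := fun u hu => kb_ker2 (b := 0) (.inr hc) (by
    rw [n, n, nn2_A2, hu, mul_zero, zero_smul, map_zero])
  rcases (show k = 0 ∨ k = 1 ∨ k = 2 ∨ k = 3 ∨ k = 4 ∨ k = 5 ∨ 6 ≤ k by omega) with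
    rfl | rfl | rfl | rfl | rfl | rfl | k6
  · rw [show v = 0 from funext fun i => hv i (Nat.zero_le _), map_zero]; exact zero_mem _
  · exact (kb_fz (.inr one_ne_zero) e).kb_fl1 hv
  · have a := hA v ⟨hv 2 (by decide), hv 4 (by decide), hv 5 (by decide)⟩
    have w := hW v (mem_kbfl3.1 (kbfl_mono (by decide) hv))
    intro i hi
    fin_cases i
    · exact absurd hi (by decide)
    · exact absurd hi (by decide)
    exacts [a.1, w.1, w.2.1, w.2.2]
  · exact mem_kbfl3.2 (hW v (mem_kbfl3.1 hv))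
  · have a := hA ![0, 0, 0, v 3, 0, 0] ⟨rfl, rfl, rfl⟩
    have w := hW ![v 0, v 1, v 2, 0, 0, 0] ⟨rfl, rfl, rfl⟩
    have s : v = ![0, 0, 0, v 3, 0, 0] + ![v 0, v 1, v 2, 0, 0, 0] :=
      v_ext (by simp) (by simp) (by simp) (by simp) (by simp [hv 4 (by decide)]) (by simp [hv 5 (by decide)])
    rw [s, map_add]
    intro i hi
    fin_cases i
    · exact absurd hi (by decide)
    · exact absurd hi (by decide)
    · exact absurd hi (by decide)
    · exact absurd hi (by decide)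
    · exact (congrArg₂ (· + ·) a.2.1 w.2.1).trans (add_zero 0)
    · exact (congrArg₂ (· + ·) a.2.2 w.2.2).trans (add_zero 0)
  · intro i hi
    obtain rfl : i = 5 := Fin.ext (by omega)
    exact h5 v (hv 5 (by decide))
  · exact fun i hi => absurd i.2 (by omega)

theorem nZ (h : Hyp X) {x : GV} (hx : x ∈ X)
    (e : x * pe 0 0 1 * x⁻¹ = pe 0 0 1 ∨ x * pe 0 0 1 * x⁻¹ = pe 0 0 (-1)) : x ∈ normalizer (PP : Set GV) := by
  have p : ∀ k, ∀ v ∈ kbfl k, x v ∈ kbfl k := by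
    rcases e with e | e
    exacts [kb_pres one_ne_zero e, kb_pres (by decide) e]
  refine mem_normalizer_fintype ?_
  rintro _ ⟨a, b, c, rfl⟩
  refine h.kb_flag (mul_mem (mul_mem hx (h.le (pe_mem _ _ _))) (inv_mem hx)) fun k v hv => ?_
  rw [nn_conj']
  exact p _ _ (kbfl_pe a b c k _ (kb_inv (P := (· ∈ kbfl (k + 1))) (p _) v hv))

theorem fz_of_nA1 {x : GV} (hx : x ∈ normalizer (A1 : Set GV)) : FZ x := by
  obtain ⟨a, c, e⟩ := (hx (pe 0 0 1)).1 ⟨0, 1, rfl⟩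
  exact kb_fz (.inr one_ne_zero) e

theorem fa_of_nA2 {x : GV} (hx : x ∈ normalizer (A2 : Set GV)) : FA x ∧ FH x := by
  obtain ⟨b, c, e⟩ := (inv_mem hx (pe 0 1 0)).1 ⟨1, 0, rfl⟩
  have n : ∀ u, nn (pe 0 1 0) (x u) = x (nn (pe 0 b c) u) := fun u => by
    rw [← nn_conj, ← e]; congr 1; group
  refine ⟨fun v ⟨h2, h4, h5⟩ => ?_, fun v hv => kb_ker2 (b := 1) (c := 0) (.inl one_ne_zero) (by
    rw [n, n, nn2_A2, hv, mul_zero, zero_smul, map_zero])⟩
  have k := n v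
  rw [show nn (pe 0 b c) v = 0 by refine v_ext ?_ ?_ ?_ ?_ ?_ ?_ <;> simp [nn, h2, h4, h5], map_zero] at k
  generalize x v = w at k ⊢
  have h1 := congrFun k 1
  have h3 := congrFun k 3
  have h4 := congrFun k 4
  simp [nn] at h1 h3 h4
  exact ⟨h1, kb_two (by rw [h4] at h3; linear_combination h3), h4⟩

theorem kb_cen {x : GV} (hx : x ∈ normalizer (PP : Set GV)) (c : F) : ∃ d, x * pe 0 0 c * x⁻¹ = pe 0 0 d := by
  obtain ⟨a, b, d, e⟩ := (hx (pe 0 0 c)).1 (pe_mem _ _ _)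
  have k : ∀ a' b', pe a b d * pe a' b' 0 = pe a' b' 0 * pe a b d := fun a' b' => by
    obtain ⟨p, q, r, e'⟩ := (inv_mem hx (pe a' b' 0)).1 (pe_mem _ _ _)
    have e2 : pe a' b' 0 = x * pe p q r * x⁻¹ := by rw [← e']; group
    have c0 : pe 0 0 c * pe p q r = pe p q r * pe 0 0 c := by
      rw [pe_mul, pe_mul]; congr 1 <;> ring
    rw [e2, ← e, conj_mul, conj_mul, c0]
  have k1 := k 1 0
  have k2 := k 0 1
  rw [pe_mul, pe_mul] at k1 k2
  obtain rfl : b = 0 := by linear_combination -(pe_inj k1).2.2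
  obtain rfl : a = 0 := by linear_combination (pe_inj k2).2.2
  exact ⟨d, e⟩

theorem nP1 {x : GV} (hx : x ∈ normalizer (PP : Set GV)) :
    x ∈ normalizer (A1 : Set GV) ∧ x ∈ normalizer (A2 : Set GV) ∧ FZ x ∧ FH x := by
  obtain ⟨d, e⟩ := kb_cen hx 1
  have hz : FZ x := kb_fz (.inr one_ne_zero) e
  have h2 : x ∈ normalizer (A2 : Set GV) := by
    refine mem_normalizer_fintype ?_
    rintro _ ⟨b, c, rfl⟩
    by_cases hb : b = 0
    · obtain ⟨d, e⟩ := kb_cen hx c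
      exact ⟨0, d, hb ▸ e⟩
    obtain ⟨a', b', c', e'⟩ := (hx (pe 0 b c)).1 (pe_mem _ _ _)
    rcases (e' ▸ (cu_A2 (c := c) (.inl hb)).conj x).pe with ⟨-, -, k⟩ | ⟨rfl, -, -⟩
    · refine absurd (.inl rfl) (kb_zsq (c := c) hb (w := sq b c) ?_)
      rcases hz with z | z <;> rcases k with k | k
      · exact .inl (x.injective (k.trans z.symm))
      · exact .inr (x.injective (by rw [k, map_neg, z]))
      · exact .inr (x.injective (by rw [k, map_neg, z, neg_neg]))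
      · exact .inl (x.injective (k.trans z.symm))
    · exact ⟨b', c', e'⟩
  refine ⟨mem_normalizer_fintype ?_, h2, hz, (fa_of_nA2 h2).2⟩
  rintro _ ⟨a, c, rfl⟩
  by_cases h0 : a ≠ 0 ∨ c ≠ 0
  · obtain ⟨a', b', c', e'⟩ := (hx (pe a 0 c)).1 (pe_mem _ _ _)
    rcases (e' ▸ (cu_A1 h0).conj x).pe with ⟨rfl, -, -⟩ | ⟨-, hb, k⟩
    · exact ⟨a', c', e'⟩
    · exact absurd k (kb_zsq hb hz)
  · push Not at h0
    rw [h0.1, h0.2, pe_zero, mul_one, mul_inv_cancel]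
    exact one_mem _

theorem nP2 {x : GV} (h1 : x ∈ normalizer (A1 : Set GV)) (h2 : x ∈ normalizer (A2 : Set GV)) :
    x ∈ normalizer (PP : Set GV) := by
  refine mem_normalizer_fintype ?_
  rintro _ ⟨a, b, c, rfl⟩
  rw [show pe a b c = pe 0 b c * pe a 0 0 by rw [pe_mul]; congr 1 <;> ring, ← conj_mul]
  exact mul_mem (A2_le ((h2 _).1 ⟨b, c, rfl⟩)) (A1_le ((h1 _).1 ⟨a, 0, rfl⟩))

end Cfsg.Agent.C3X
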