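import Cfsg.Agent.C3X.XA1
import Cfsg.Agent.C3X.KB2

set_option autoImplicit false

namespace Cfsg.Agent.C3X

open Subgroup

variable {X : Subgroup GV}

/-- `x` acts on `A2` as the matrix with rows `p q` and `r s` -/
def XAc (x : GV) (p q r s : F) : Prop :=
  ∀ b c : F, x * pe 0 b c * x⁻¹ = pe 0 (p * b + q * c) (r * b + s * c)

theorem XAc.mul {x y : GV} {p q r s p' q' r' s' : F} (h : XAc x p q r s) (k : XAc y p' q' r' s') :
    XAc (x * y) (p * p' + q * r') (p * q' + q * s') (r * p' + s * r') (r * q' + s * s') := fun b c => by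
  rw [show x * y * pe 0 b c * (x * y)⁻¹ = x * (y * pe 0 b c * y⁻¹) * x⁻¹ by group, k, h]
  congr 1 <;> ring

theorem XAc.cg {x : GV} {p q r s p' q' r' s' : F} (h : XAc x p q r s)
    (e : p = p' ∧ q = q' ∧ r = r' ∧ s = s') : XAc x p' q' r' s' := by
  obtain ⟨rfl, rfl, rfl, rfl⟩ := e
  exact h

theorem XAc.uniq {x : GV} {p q r s p' q' r' s' : F} (h : XAc x p q r s) (k : XAc x p' q' r' s') :
    p = p' ∧ q = q' ∧ r = r' ∧ s = s' := by
  have a := pe_inj ((h 1 0).symm.trans (k 1 0))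
  have b := pe_inj ((h 0 1).symm.trans (k 0 1))
  simp only [mul_one, mul_zero, add_zero, zero_add, true_and] at a b
  exact ⟨a.1, b.1, a.2, b.2⟩

theorem XAc.inv {x : GV} {p q r s : F} (h : XAc x p q r s) (p' q' r' s' : F)
    (e : p * p' + q * r' = 1 ∧ p * q' + q * s' = 0 ∧ r * p' + s * r' = 0 ∧ r * q' + s * s' = 1) :
    XAc x⁻¹ p' q' r' s' := fun b c => by
  have := h (p' * b + q' * c) (r' * b + s' * c)
  rw [show p * (p' * b + q' * c) + q * (r' * b + s' * c) = b by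
      linear_combination b * e.1 + c * e.2.1,
    show r * (p' * b + q' * c) + s * (r' * b + s' * c) = c by
      linear_combination b * e.2.2.1 + c * e.2.2.2] at this
  rw [← this]
  group

theorem xac_pe (a b c : F) : XAc (pe a b c) 1 0 a 1 := fun b' c' => by
  rw [pe_inv, pe_mul, pe_mul]
  congr 1 <;> ring

theorem xac_tor (α β σ : Bool) : XAc (tor α β σ) (sg β) 0 0 (sg α * sg β) := fun b c => by
  rw [tor_pe]
  congr 1 <;> ring

theorem xac_of_norm {g : GV} (h : g ∈ normalizer (A2 : Set GV)) : ∃ p q r s, XAc g p q r s := by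
  obtain ⟨p, r, e1⟩ := (mem_normalizer_iff.1 h _).1 (⟨1, 0, rfl⟩ : pe 0 1 0 ∈ A2)
  obtain ⟨q, s, e2⟩ := (mem_normalizer_iff.1 h _).1 (⟨0, 1, rfl⟩ : pe 0 0 1 ∈ A2)
  have key : ∀ b c b' c' : F, g * pe 0 b c * g⁻¹ = pe 0 b' c' →
      ∀ k : F, g * pe 0 (k * b) (k * c) * g⁻¹ = pe 0 (k * b') (k * c') := fun b c b' c' e k => by
    rcases f3 k with rfl | rfl | rfl
    · simp only [zero_mul, pe_zero, mul_one, mul_inv_cancel]
    · simpa only [one_mul] using e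
    · have := congrArg (·⁻¹) e
      simp only [mul_inv_rev, inv_inv, ← mul_assoc] at this
      simpa only [pe_inv, neg_zero, zero_mul, zero_sub, neg_one_mul] using this
  refine ⟨p, q, r, s, fun b c => ?_⟩
  have : pe 0 b c = pe 0 (b * 1) (b * 0) * pe 0 (c * 0) (c * 1) := by
    rw [pe_mul]; congr 1 <;> ring
  rw [this, show ∀ u v : GV, g * (u * v) * g⁻¹ = g * u * g⁻¹ * (g * v * g⁻¹) from fun u v => by group,
    key _ _ _ _ e1, key _ _ _ _ e2, pe_mul]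
  congr 1 <;> ring

theorem xa_scal (h : Hyp X) (hb : HB X) {x : GV} (hx : x ∈ X) {β : Bool}
    (k : XAc x (sg β) 0 0 (sg β)) : ∃ b c σ, x = pe 0 b c * tor false β σ := by
  have e := k 0 1
  obtain ⟨a, b, c, α, β', σ, rfl⟩ := hb x hx (nZ h hx (by
    cases β
    · exact .inl (by simpa [sg] using e)
    · exact .inr (by simpa [sg] using e)))
  have t : ∀ (a : F) (α β β' : Bool), sg β = 1 * sg β' + 0 * 0 → 0 = a * sg β' + 1 * 0 →
      sg β = a * 0 + 1 * (sg α * sg β') → a = 0 ∧ α = false ∧ β' = β := by decide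
  obtain ⟨h1, -, h3, h4⟩ := k.uniq ((xac_pe a b c).mul (xac_tor α β' σ))
  obtain ⟨rfl, rfl, rfl⟩ := t a α β β' h1 h3 h4
  exact ⟨b, c, σ, rfl⟩

theorem xa_cen (σ : Bool) (x : GV) : tor false false σ * x = x * tor false false σ := by
  cases σ
  · rw [tor_one, one_mul, mul_one]
  · refine LinearEquiv.ext fun v => ?_
    change tau (x v) = x (tau v)
    rw [tau_apply, tau_apply, map_neg]

theorem xa_norm {y : GV} (h3 : y ^ 3 = 1) (k : XAc y 1 1 0 1) (b c : F) :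
    (pe 0 b c * y) ^ 3 = 1 := by
  have : (pe 0 b c * y) ^ 3 = pe 0 b c * (y * pe 0 b c * y⁻¹) *
      (y * (y * pe 0 b c * y⁻¹) * y⁻¹) * y ^ 3 := by
    simp only [pow_succ, pow_zero]; group
  rw [this, h3, k, k, pe_mul, pe_mul, mul_one, ← pe_zero]
  clear this
  congr 1 <;> revert b c <;> decide

theorem xa_w {y : GV} (k : XAc y 1 1 0 1) :
    XAc ((pe 1 0 0 * y⁻¹ * pe 1 0 0) ^ 2) (sg true) 0 0 (sg true) := by
  have := ((xac_pe 1 0 0).mul (k.inv 1 (-1) 0 1 (by decide))).mul (xac_pe 1 0 0)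
  rw [pow_two]
  exact (this.mul this).cg (by decide)

theorem xa_fin (h : Hyp X) (hb : HB X) {y : GV} (hy : y ∈ X) (h3 : y ^ 3 = 1) (k : XAc y 1 1 0 1) :
    ∃ l, ya l ∈ X := by
  have mp : ∀ a b c, pe a b c ∈ X := fun a b c => h.le (pe_mem a b c)
  have mw : ∀ y ∈ X, pe 1 0 0 * y⁻¹ * pe 1 0 0 ∈ X := fun y hy =>
    mul_mem (mul_mem (mp ..) (inv_mem hy)) (mp ..)
  obtain ⟨b0, c0, σ, e0⟩ := xa_scal h hb (pow_mem (mw y hy) 2) (xa_w k)
  have mρ : tor false true σ ∈ X := by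
    rw [← inv_mul_eq_iff_eq_mul] at e0
    exact e0 ▸ mul_mem (inv_mem (mp ..)) (pow_mem (mw y hy) 2)
  have kρ := xac_tor false true σ
  have hρ := tor_pe false true σ
  set ρ := tor false true σ with dρ
  obtain ⟨b, c, τ, e1⟩ := xa_scal h hb (β := false)
    (mul_mem (mul_mem (mul_mem mρ hy) (inv_mem mρ)) (inv_mem hy))
    ((((kρ.mul k).mul (kρ.inv (-1) 0 0 (-1) (by decide))).mul
      (k.inv 1 (-1) 0 1 (by decide))).cg (by decide))
  rw [mul_inv_eq_iff_eq_mul, mul_assoc (pe 0 b c), xa_cen τ y, ← mul_assoc] at e1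
  have e2 : tor false false τ = 1 := by
    have := congrArg (· ^ 3) e1
    simp only [conj_pow, h3, mul_one, mul_inv_cancel] at this
    rw [(show Commute (pe 0 b c * y) (tor false false τ) from (xa_cen τ _).symm).mul_pow,
      xa_norm h3 k, one_mul, pow_succ, pow_two, tor_mul, Bool.xor_self, Bool.xor_self, tor_one,
      one_mul] at this
    exact this.symm
  rw [e2, mul_one] at e1
  set y1 := pe 0 (-b) (-c) * y with dy
  have k1 : XAc y1 1 1 0 1 := ((xac_pe 0 (-b) (-c)).mul k).cg (by decide)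
  have m1 : y1 ∈ X := mul_mem (mp ..) hy
  have c1 : ρ * y1 * ρ⁻¹ = y1 := by
    rw [dy, show ρ * (pe 0 (-b) (-c) * y) * ρ⁻¹ = ρ * pe 0 (-b) (-c) * ρ⁻¹ * (ρ * y * ρ⁻¹) by group,
      e1, hρ, ← mul_assoc, pe_mul]
    have t : ∀ b c : F, sg true * -b + b = -b ∧
      sg false * sg true * -c + c + sg false * 0 * b = -c := by decide
    rw [(t b c).1, (t b c).2, mul_zero, add_zero]
  have c2 : ρ * pe 1 0 0 * ρ⁻¹ = pe 1 0 0 := by
    rw [hρ]; congr 1
  have k2 := xa_w k1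
  obtain ⟨b', c', τ', e3⟩ := xa_scal h hb (β := false) (pow_mem (mw y1 m1) 4)
    (by rw [show 4 = 2 + 2 from rfl, pow_add]; exact (k2.mul k2).cg (by decide))
  have c3 : ρ * (pe 1 0 0 * y1⁻¹ * pe 1 0 0) ^ 4 * ρ⁻¹ = (pe 1 0 0 * y1⁻¹ * pe 1 0 0) ^ 4 := by
    rw [← conj_pow, show ρ * (pe 1 0 0 * y1⁻¹ * pe 1 0 0) * ρ⁻¹ =
      ρ * pe 1 0 0 * ρ⁻¹ * (ρ * y1 * ρ⁻¹)⁻¹ * (ρ * pe 1 0 0 * ρ⁻¹) by group, c1, c2]
  rw [e3, mul_assoc, mul_assoc, xa_cen τ' ρ⁻¹, ← mul_assoc, ← mul_assoc, hρ, mul_left_inj] at c3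
  obtain ⟨-, a1, a2⟩ := pe_inj c3
  have t : ∀ b c : F, sg true * b = b → sg false * sg true * c = c → b = 0 ∧ c = 0 := by decide
  obtain ⟨rfl, rfl⟩ := t b' c' a1 a2
  rw [pe_zero, one_mul] at e3
  obtain ⟨l, e⟩ := xa1 (y := y1) (σ := σ) (xa_norm h3 k _ _) (mul_inv_eq_iff_eq_mul.1 c1).symm
    (fun b c => by simpa using k1 b c) (by
      cases τ'
      · exact .inl (e3.trans tor_one)
      · exact .inr e3)
  exact ⟨l, e ▸ m1⟩

theorem xa_mat : ∀ p q r s p' q' r' s' : F, p * p' + q * r' = 1 → p * q' + q * s' = 0 →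
    r * p' + s * r' = 0 → r * q' + s * s' = 1 → q ≠ 0 → ∃ k e : F,
    (p + q * e) * (p' - q' * k) + q * (r' - s' * k) = 1 ∧ (p + q * e) * q' + q * s' = 1 ∧
    (k * p + r + (k * q + s) * e) * (p' - q' * k) + (k * q + s) * (r' - s' * k) = 0 ∧
    (k * p + r + (k * q + s) * e) * q' + (k * q + s) * s' = 1 := by
  decide +kernel

theorem xa (h : Hyp X) (hb : HB X) {g : GV} (hg : g ∈ X) (h2 : g ∈ normalizer (A2 : Set GV)) (hz : ¬ FZ g) :
    ∃ l, ya l ∈ X := by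
  have mp : ∀ a b c, pe a b c ∈ X := fun a b c => h.le (pe_mem a b c)
  obtain ⟨p, q, r, s, k1⟩ := xac_of_norm h2
  obtain ⟨p', q', r', s', k2⟩ := xac_of_norm (inv_mem h2)
  have k3 := k1.mul k2
  rw [mul_inv_cancel, ← pe_zero] at k3
  obtain ⟨a1, a2, a3, a4⟩ := k3.uniq (xac_pe 0 0 0)
  have hq : q ≠ 0 := by
    have := (cu_A1 (a := 0) (c := 1) (.inr one_ne_zero)).conj g
    rw [k1] at this
    rcases this.pe with ⟨-, -, e⟩ | ⟨-, e, -⟩
    · exact absurd e hz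
    · simpa using e
  obtain ⟨k, e, b1, b2, b3, b4⟩ := xa_mat p q r s p' q' r' s' a1 a2 a3 a4 hq
  refine xa_fin h hb (y := pe k 0 0 * g * pe e 0 0 * (pe k 0 0 * g)⁻¹)
    (mul_mem (mul_mem (mul_mem (mp ..) hg) (mp ..)) (inv_mem (mul_mem (mp ..) hg)))
    (by rw [conj_pow, pe_cube, mul_one, mul_inv_cancel]) ?_
  rw [mul_inv_rev, pe_inv]
  refine ((((xac_pe k 0 0).mul k1).mul (xac_pe e 0 0)).mul (k2.mul (xac_pe _ _ _))).cg
    ⟨?_, ?_, ?_, ?_⟩
  · linear_combination b1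
  · linear_combination b2
  · linear_combination b3
  · linear_combination b4

end Cfsg.Agent.C3X
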