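import Cfsg.Agent.C3X.KA
import Cfsg.Agent.C3X.NA
import Cfsg.Agent.C3X.XA

set_option autoImplicit false

namespace Cfsg.Agent.C3X

open Subgroup

variable {X : Subgroup GV}

namespace Dua

/-- the invariant form -/
def be (u v : V) : F := u 0 * v 5 + u 5 * v 0 + u 3 * v 3 + 2 * (u 1 * v 4 + u 4 * v 1 + u 2 * v 2)

theorem be_comm (u v : V) : be u v = be v u := by unfold be; ring

theorem be_add (u v w : V) : be u (v + w) = be u v + be u w := by simp only [be, Pi.add_apply]; ring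

theorem be_smul (u : V) (k : F) (v : V) : be u (k • v) = k * be u v := by
  simp only [be, Pi.smul_apply, smul_eq_mul]; ring

theorem two_inj {a b : F} (h : 2 * a = 2 * b) : a = b := by revert a b; decide

theorem be_inj {u u' : V} (h : ∀ v, be u v = be u' v) : u = u' := by
  refine v_ext ?_ ?_ ?_ ?_ ?_ ?_
  · simpa [be] using h ![0, 0, 0, 0, 0, 1]
  · exact two_inj (by simpa [be] using h ![0, 0, 0, 0, 1, 0])
  · exact two_inj (by simpa [be] using h ![0, 0, 1, 0, 0, 0])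
  · simpa [be] using h ![0, 0, 0, 1, 0, 0]
  · exact two_inj (by simpa [be] using h ![0, 1, 0, 0, 0, 0])
  · simpa [be] using h ![1, 0, 0, 0, 0, 0]

/-- the adjoint of the inverse -/
def adj (x : GV) (u : V) : V :=
  ![be u (x⁻¹ ![0, 0, 0, 0, 0, 1]), 2 * be u (x⁻¹ ![0, 0, 0, 0, 1, 0]), 2 * be u (x⁻¹ ![0, 0, 1, 0, 0, 0]),
    be u (x⁻¹ ![0, 0, 0, 1, 0, 0]), 2 * be u (x⁻¹ ![0, 1, 0, 0, 0, 0]), be u (x⁻¹ ![1, 0, 0, 0, 0, 0])]

theorem basis (w : V) : w = w 0 • ![1, 0, 0, 0, 0, 0] + w 1 • ![0, 1, 0, 0, 0, 0] + w 2 • ![0, 0, 1, 0, 0, 0] +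
    w 3 • ![0, 0, 0, 1, 0, 0] + w 4 • ![0, 0, 0, 0, 1, 0] + w 5 • ![0, 0, 0, 0, 0, 1] := by
  refine v_ext ?_ ?_ ?_ ?_ ?_ ?_ <;> simp

theorem be_adj (x : GV) (u w : V) : be (adj x u) w = be u (x⁻¹ w) := by
  conv_rhs => rw [basis w]
  simp only [map_add, map_smul, be_add, be_smul]
  rw [be]
  simp only [adj, Matrix.cons_val_zero, Matrix.cons_val_one, Matrix.cons_val]
  linear_combination (w 1 * be u (x⁻¹ ![0, 1, 0, 0, 0, 0]) + w 2 * be u (x⁻¹ ![0, 0, 1, 0, 0, 0]) +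
    w 4 * be u (x⁻¹ ![0, 0, 0, 0, 1, 0])) * three

theorem adj_adj (x : GV) (u : V) : adj x⁻¹ (adj x u) = u :=
  be_inj fun v => by rw [be_adj, be_adj, inv_inv, ginv]

/-- the dual of an automorphism -/
def th0 (x : GV) : GV := mk (adj x) (adj x⁻¹)
  (fun v w => be_inj fun u => by
    rw [be_adj, be_comm (_ + _), be_comm (_ + _), be_add, be_add, be_comm u, be_comm u, be_adj, be_adj,
      be_comm v, be_comm w])
  (fun c v => be_inj fun u => by
    rw [be_adj, be_comm (_ • _), be_comm (_ • _), be_smul, be_smul, be_comm u, be_adj, be_comm v])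
  (adj_adj x) (fun v => by simpa using adj_adj x⁻¹ v)

theorem be_th0 (x : GV) (u v : V) : be (th0 x u) (x v) = be u v := by
  rw [show th0 x u = adj x u from rfl, be_adj, ginv]

theorem th0_eq {x y : GV} (h : ∀ u v, be (y u) (x v) = be u v) : th0 x = y :=
  LinearEquiv.ext fun u => be_inj fun v => by rw [← ginv' x v, be_th0, h]

/-- the duality automorphism -/
def th : GV →* GV := MonoidHom.mk' th0 fun x y => th0_eq fun u v => by rw [gmul, gmul, be_th0, be_th0]

theorem be_th (x : GV) (u v : V) : be (th x u) (x v) = be u v := be_th0 x u v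

theorem th_eq {x y : GV} (h : ∀ u v, be (y u) (x v) = be u v) : th x = y := th0_eq h

theorem th_th (x : GV) : th (th x) = x := th_eq fun u v => by rw [be_comm, be_th, be_comm]

theorem th_inv : Function.Involutive th := th_th

theorem th_a (a : F) : th (pe a 0 0) = pe 0 (-a) 0 := th_eq fun u v => by
  simp only [be, pe0, pe1, pe2, pe3, pe4, pe5]
  ring

theorem th_c (c : F) : th (pe 0 0 c) = pe 0 0 (-c) := th_eq fun u v => by
  simp only [be, pe0, pe1, pe2, pe3, pe4, pe5]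
  ring

theorem th_b (b : F) : th (pe 0 b 0) = pe (-b) 0 0 := by
  rw [← th_th (pe (-b) 0 0), th_a, neg_neg]

theorem th_pe (a b c : F) : th (pe a b c) = pe (-b) (-a) (a * b - c) := by
  have : pe a b c = pe 0 0 c * pe 0 b 0 * pe a 0 0 := by simp [pe_mul]
  rw [this, map_mul, map_mul, th_a, th_b, th_c, pe_mul, pe_mul]
  congr 1 <;> ring

theorem th_tor (α β σ : Bool) : th (tor α β σ) = tor β α σ := th_eq fun u v => by
  cases α <;> cases β <;> cases σ <;> simp [be, sg]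

theorem th_ze (l : F) : th (ze l) = ze (-l) := th_eq fun u v => by
  simp only [be, ze0, ze1, ze2, ze3, ze4, ze5]
  ring

theorem th_ya0 : th ya0 = yb0⁻¹ := th_eq fun u v => by
  rw [show yb0⁻¹ u = ybf (-1) u from rfl, ya0_apply]
  simp [be, yaf, ybf]
  ring

theorem th_ya (l : F) : th (ya l) = (yb (-l))⁻¹ := by
  rw [ya, yb, map_mul, map_mul, map_inv, th_ze, th_ya0]
  group

theorem comap_of {S T : Subgroup GV} (h1 : ∀ x ∈ S, th x ∈ T) (h2 : ∀ x ∈ T, th x ∈ S) {x : GV} :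
    th x ∈ normalizer (T : Set GV) ↔ x ∈ normalizer (S : Set GV) := by
  have : T.comap th = S := le_antisymm (fun x hx => th_th x ▸ h2 _ hx) h1
  rw [← this, ← comap_normalizer_eq_of_surjective T th_inv.surjective]
  rfl

theorem th_A1 : ∀ x ∈ A1, th x ∈ A2 := by
  rintro _ ⟨a, c, rfl⟩
  exact ⟨_, _, by rw [th_pe, neg_zero]⟩

theorem th_A2 : ∀ x ∈ A2, th x ∈ A1 := by
  rintro _ ⟨a, c, rfl⟩
  exact ⟨_, _, by rw [th_pe, neg_zero]⟩

theorem th_PP : ∀ x ∈ PP, th x ∈ PP := by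
  rintro _ ⟨a, b, c, rfl⟩
  exact ⟨_, _, _, th_pe ..⟩

theorem be_zv (v : V) : be zv v = v 5 := by simp [be, zv]

theorem be_neg (u v : V) : be (-u) v = -be u v := by simp only [be, Pi.neg_apply]; ring

theorem fz_th {x : GV} : FZ (th x) ↔ FH x := by
  constructor
  · intro h v hv
    have := be_th x zv v
    rw [be_zv, hv] at this
    rcases h with h | h <;> rw [h] at this
    · rwa [be_zv] at this
    · rwa [be_neg, be_zv, neg_eq_zero] at this
  · intro h
    have k : ∀ v : V, x v 5 = x ![0, 0, 0, 0, 0, 1] 5 * v 5 := fun v => by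
      have := h (v - v 5 • ![0, 0, 0, 0, 0, 1]) (by simp)
      rw [map_sub, map_smul, Pi.sub_apply, Pi.smul_apply, smul_eq_mul, sub_eq_zero] at this
      rw [this, mul_comm]
    have e : zv = x ![0, 0, 0, 0, 0, 1] 5 • th x zv := be_inj fun v => by
      rw [← ginv' x v, be_zv, k, be_comm, be_smul, be_comm, be_th, be_zv]
    rcases f3 (x ![0, 0, 0, 0, 0, 1] 5) with c | c | c <;> rw [c] at e
    · exact absurd (e.trans (zero_smul _ _)) zv_ne
    · exact .inl (by rw [one_smul] at e; exact e.symm)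
    · exact .inr (by rw [neg_smul, one_smul] at e; exact neg_eq_iff_eq_neg.1 e.symm)

theorem hyp (h : Hyp X) : Hyp (X.comap th) :=
  ⟨fun x hx => h.le (th_PP x hx), fun k => h.syl (k.trans (card_comap_dvd_of_injective X th th_inv.injective))⟩

theorem mem {x : GV} (hx : x ∈ X) : th x ∈ X.comap th := by rwa [mem_comap, th_th]

end Dua

open Dua

theorem kA2 (h : Hyp X) {x : GV} (hx : x ∈ X) (hz : FH x) : x ∈ normalizer (A2 : Set GV) :=
  (comap_of th_A2 th_A1).1 (kA1 (hyp h) (mem hx) (fz_th.2 hz))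

theorem na' (h : Hyp X) (hn : ∀ x ∈ X, x ∈ normalizer (A1 : Set GV) → FH x) (hr : rr ∈ X) :
    ∀ x ∈ X, FA x := fun x hx =>
  (fa_of_nA2 (kA2 h hx (fz_th.1 (na (hyp h)
    (fun y hy ny => th_th y ▸ fz_th.2 (hn _ hy ((comap_of th_A2 th_A1).2 ny)))
    (by rwa [mem_comap, ss, th_tor]) _ (mem hx))))).1

theorem xb (h : Hyp X) (hb : HB X) {g : GV} (hg : g ∈ X) (h1 : g ∈ normalizer (A1 : Set GV)) (hz : ¬ FH g) :
    ∃ m, yb m ∈ X := by
  obtain ⟨l, hl⟩ := xa (hyp h) (fun y hy ny => by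
    obtain ⟨a, b, c, α, β, σ, e⟩ := hb _ hy ((comap_of th_PP th_PP).2 ny)
    exact ⟨_, _, _, _, _, _, by rw [← th_th y, e, map_mul, th_pe, th_tor]⟩) (mem hg)
    ((comap_of th_A1 th_A2).2 h1) (fun c => hz (fz_th.1 c))
  rw [mem_comap, th_ya, inv_mem_iff] at hl
  exact ⟨_, hl⟩

end Cfsg.Agent.C3X
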