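import Cfsg.Agent.C3X.KA1

set_option autoImplicit false

namespace Cfsg.Agent.C3X

open Subgroup

variable {X : Subgroup GV}

theorem ka_sing : ∀ m3 m4 m5 : F, m3 * m5 = m4 * m4 →
    ∃ a c : F, (a ≠ 0 ∨ c ≠ 0) ∧ a * m3 + c * m4 = 0 ∧ a * m4 + c * m5 = 0 := by decide +kernel

theorem ka_onto : ∀ m3 m4 m5 : F, m3 * m5 ≠ m4 * m4 →
    ∀ w1 w2 : F, ∃ a c : F, a * m3 + c * m4 = w1 ∧ a * m4 + c * m5 = w2 := by decide +kernel

theorem ka_plane : ∀ p3 p4 p5 q3 q4 q5 : F,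
    (∀ i j : F, (i ≠ 0 ∨ j ≠ 0) →
      (i * p3 + j * q3) * (i * p5 + j * q5) ≠ (i * p4 + j * q4) * (i * p4 + j * q4)) →
    (∃ i j : F, (i ≠ 0 ∨ j ≠ 0) ∧ ∃ i' j' : F, (i' ≠ 0 ∨ j' ≠ 0) ∧
      i * p5 + j * q5 = i' * p5 + j' * q5 ∧
      i * p4 + j * q4 = i' * p4 + j' * q4 + (i' * p5 + j' * q5) ∧
      i * p3 + j * q3 = i' * p3 + j' * q3 + 2 * (i' * p4 + j' * q4) + (i' * p5 + j' * q5)) ∧
    ¬ ((∃ i j : F, p3 + 2 * p4 + p5 = i * p3 + j * q3 ∧ p4 + p5 = i * p4 + j * q4 ∧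
        p5 = i * p5 + j * q5) ∧
      ∃ i j : F, q3 + 2 * q4 + q5 = i * p3 + j * q3 ∧ q4 + q5 = i * p4 + j * q4 ∧
        q5 = i * p5 + j * q5) := by decide +kernel

theorem kw (h : Hyp X) {x : GV} (hx : x ∈ X) (hz : FZ x) : ∀ v, InW v → InW (x v) := by
  by_contra hn
  obtain ⟨p, hp⟩ : ∃ p, p = x ![0, 1, 0, 0, 0, 0] := ⟨_, rfl⟩
  obtain ⟨q, hq⟩ : ∃ q, q = x ![0, 0, 1, 0, 0, 0] := ⟨_, rfl⟩
  obtain ⟨ε, hε⟩ : ∃ ε : F, x zv = ε • zv := by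
    rcases hz with e | e
    · exact ⟨1, by rw [e, one_smul]⟩
    · exact ⟨-1, by rw [e, neg_one_smul]⟩
  obtain ⟨δ, hδ⟩ : ∃ ε : F, x⁻¹ zv = ε • zv := by
    rcases hz.inv with e | e
    · exact ⟨1, by rw [e, one_smul]⟩
    · exact ⟨-1, by rw [e, neg_one_smul]⟩
  have back : ∀ i j k : F, x⁻¹ (i • p + j • q + k • zv) = ![k * δ, i, j, 0, 0, 0] := fun i j k => by
    rw [map_add, map_add, map_smul, map_smul, map_smul, hp, hq, ginv, ginv, hδ]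
    refine v_ext ?_ ?_ ?_ ?_ ?_ ?_ <;> simp [zv]
  have forth : ∀ u : V, InW u → x u = u 1 • p + u 2 • q + (u 0 * ε) • zv := fun u hu => by
    rw [hp, hq, mul_smul, ← hε, ← map_smul, ← map_smul, ← map_smul, ← map_add, ← map_add]
    congr 1
    refine v_ext ?_ ?_ ?_ ?_ ?_ ?_ <;> simp [zv, hu.1, hu.2.1, hu.2.2]
  have inW : ∀ i j k : F, InW (x⁻¹ (i • p + j • q + k • zv)) := fun i j k => by
    rw [back]; exact ⟨rfl, rfl, rfl⟩
  have h1 : ∀ i j : F, (i ≠ 0 ∨ j ≠ 0) → ¬ InW (i • p + j • q + (0 : F) • zv) := fun i j hij hw => by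
    refine hn (kw1 h hx hz hw (inW i j 0) ?_)
    by_contra hc
    push Not at hc
    have e : i • p + j • q + (0 : F) • zv =
        (0 : F) • p + (0 : F) • q + ((i • p + j • q + (0 : F) • zv) 0) • zv := by
      generalize i • p + j • q + (0 : F) • zv = m at hw hc
      refine v_ext ?_ ?_ ?_ ?_ ?_ ?_ <;> simp [zv, hw.1, hw.2.1, hw.2.2, hc.1, hc.2]
    have e2 := back i j 0
    rw [e, back] at e2
    exact hij.elim (fun a => a (congrFun e2 1).symm) fun a => a (congrFun e2 2).symm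
  have h2 : ∀ i j : F, (i ≠ 0 ∨ j ≠ 0) →
      (i * p 3 + j * q 3) * (i * p 5 + j * q 5) ≠ (i * p 4 + j * q 4) * (i * p 4 + j * q 4) :=
    fun i j hij e => by
      obtain ⟨a, c, hac, e1, e2⟩ := ka_sing _ _ _ e
      refine kw2 h hx hz (inW i j 0) (h1 i j hij) hac
        (k := nn (pe a 0 c) (i • p + j • q + (0 : F) • zv) 0) ?_
      refine v_ext ?_ ?_ ?_ ?_ ?_ ?_ <;> simp [nn, zv]
      · linear_combination e1
      · linear_combination e2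
  obtain ⟨⟨i, j, hij, i', j', hij', e5, e4, e3⟩, hno⟩ := ka_plane _ _ _ _ _ _ h2
  obtain ⟨a, c, e1, e2⟩ := ka_onto _ _ _ (h2 i' j' hij')
    (((pe 0 1 0)⁻¹ (i • p + j • q) - (i' • p + j' • q)) 1)
    (((pe 0 1 0)⁻¹ (i • p + j • q) - (i' • p + j' • q)) 2)
  obtain ⟨g, hg⟩ : ∃ g, g = pe 0 1 0 * pe a 0 c := ⟨_, rfl⟩
  have gP : g ∈ PP := hg ▸ mul_mem (pe_mem _ _ _) (pe_mem _ _ _)
  have gz : FZ g := hg ▸ (fz_pe _ _ _).mul (fz_pe _ _ _)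
  obtain ⟨k, hk⟩ : ∃ k : F, g⁻¹ (i • p + j • q + (0 : F) • zv) = i' • p + j' • q + k • zv := by
    refine ⟨((pe 0 1 0)⁻¹ (i • p + j • q) - pe a 0 c (i' • p + j' • q)) 0, ?_⟩
    rw [hg, mul_inv_rev, gmul, zero_smul, add_zero]
    apply (pe a 0 c).injective
    rw [ginv', map_add (pe a 0 c) _ (_ • zv), map_smul (pe a 0 c) _ zv, pe_zv]
    rw [pe_inv] at e1 e2 ⊢
    refine v_ext ?_ ?_ ?_ ?_ ?_ ?_ <;> simp [zv] at e1 e2 ⊢
    · linear_combination -e1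
    · linear_combination -e2
    · linear_combination e3 - 2 * e4 + e5
    · linear_combination e4 - e5
    · linear_combination e5
  have key := kw1 h (mul_mem (mul_mem (inv_mem hx) (h.le gP)) hx) ((hz.inv.mul gz).mul hz) (inW i j 0)
    (by rw [mul_inv_rev, mul_inv_rev, inv_inv, gmul, gmul, ginv', hk]; exact inW _ _ _)
    (by rw [back]; exact hij)
  have top : ∀ u : V, InW u → ∃ i j : F, x u 3 + 2 * x u 4 + x u 5 = i * p 3 + j * q 3 ∧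
      x u 4 + x u 5 = i * p 4 + j * q 4 ∧ x u 5 = i * p 5 + j * q 5 := fun u hu => by
    have e := forth _ (key u hu)
    rw [gmul, gmul, ginv'] at e
    generalize x⁻¹ (g (x u)) = y at e
    have f3 := congrFun e 3
    have f4 := congrFun e 4
    have f5 := congrFun e 5
    rw [hg, gmul] at f3 f4 f5
    simp [zv] at f3 f4 f5
    exact ⟨y 1, y 2, f3, f4, f5⟩
  refine hno ⟨?_, ?_⟩
  · have := top ![0, 1, 0, 0, 0, 0] ⟨rfl, rfl, rfl⟩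
    rwa [← hp] at this
  · have := top ![0, 0, 1, 0, 0, 0] ⟨rfl, rfl, rfl⟩
    rwa [← hq] at this

theorem kA1 (h : Hyp X) {x : GV} (hx : x ∈ X) (hz : FZ x) : x ∈ normalizer (A1 : Set GV) :=
  nA1 h hx hz (kw h hx hz)

end Cfsg.Agent.C3X
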