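import Cfsg.Agent.C3X.KB1

set_option autoImplicit false

namespace Cfsg.Agent.C3X

open Subgroup

variable {X : Subgroup GV}

namespace KA1

/-- `g - 1` as a linear map -/
def nL (g : GV) : V →ₗ[F] V := (g : V →ₗ[F] V) - LinearMap.id

theorem nL_apply (g : GV) (v : V) : nL g v = nn g v := rfl

/-- the span of `11` -/
def Zs : Submodule F V := Submodule.span F {zv}

/-- the span of `11, 12, 13` -/
def Ws : Submodule F V where
  carrier := {v | InW v}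
  zero_mem' := ⟨rfl, rfl, rfl⟩
  add_mem' := fun {a b} ha hb => by
    obtain ⟨a1, a2, a3⟩ := ha
    obtain ⟨b1, b2, b3⟩ := hb
    refine ⟨?_, ?_, ?_⟩ <;> simp [*]
  smul_mem' := fun k a ha => by
    obtain ⟨a1, a2, a3⟩ := ha
    refine ⟨?_, ?_, ?_⟩ <;> simp [*]

/-- the image of `W` -/
def Wx (x : GV) : Submodule F V := Ws.comap ((x⁻¹ : GV) : V →ₗ[F] V)

theorem mem_Ws {v : V} : v ∈ Ws ↔ InW v := Iff.rfl
theorem mem_Wx {x : GV} {v : V} : v ∈ Wx x ↔ InW (x⁻¹ v) := Iff.rfl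
theorem zs (k : F) : k • zv ∈ Zs := Submodule.smul_mem _ _ (Submodule.mem_span_singleton_self _)
theorem zW : InW zv := by decide

theorem step2 {t t' : GV} {C D : Submodule F V} (h : Ch {t, t'} D) (le : D ≤ C)
    (h1 : C ≤ D.comap (nL t)) (h2 : C ≤ D.comap (nL t')) : Ch {t, t'} C :=
  h.step le (by
    rintro g (rfl | rfl) v hv
    exacts [h1 hv, h2 hv])

theorem nV (a c : F) (v : V) : nn (pe a 0 c) v ∈ Ws := by
  refine ⟨?_, ?_, ?_⟩ <;> simp [nn]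

theorem nW (a c : F) {v : V} (hv : InW v) : nn (pe a 0 c) v ∈ Zs := by
  obtain ⟨a1, a2, a3⟩ := hv
  have : nn (pe a 0 c) v = (2 * a * v 1 + 2 * c * v 2) • zv := by
    refine v_ext ?_ ?_ ?_ ?_ ?_ ?_ <;> simp [nn, zv, a1, a2, a3]
    ring
  rw [this]
  exact zs _

theorem xZ {x : GV} (hz : FZ x) {v : V} (hv : v ∈ Zs) : x v ∈ Zs := by
  obtain ⟨k, rfl⟩ := Submodule.mem_span_singleton.1 hv
  rw [map_smul]
  rcases hz with e | e <;> rw [e]
  · exact zs _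
  · rw [smul_neg]
    exact neg_mem (zs _)

theorem ZW : Zs ≤ Ws := Submodule.span_le.2 (Set.singleton_subset_iff.2 zW)

theorem ZWx {x : GV} (hz : FZ x) : Zs ≤ Wx x := fun _ hv => ZW (xZ hz.inv hv)

theorem nVx (x : GV) (a c : F) (v : V) : nn (x * pe a 0 c * x⁻¹) v ∈ Wx x := by
  rw [nn_conj', mem_Wx, ginv]
  exact nV a c _

theorem nWx {x : GV} (hz : FZ x) (a c : F) {v : V} (hv : v ∈ Wx x) :
    nn (x * pe a 0 c * x⁻¹) v ∈ Zs := by
  rw [nn_conj']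
  exact xZ hz (nW a c hv)

theorem chZ {x : GV} (hz : FZ x) (a c a' c' : F) : Ch {pe a 0 c, x * pe a' 0 c' * x⁻¹} Zs := by
  refine step2 Ch.bot bot_le (Submodule.span_le.2 ?_) (Submodule.span_le.2 ?_) <;> rintro _ rfl
  · change nn _ _ = 0
    rw [nn, pe_zv, sub_self]
  · change nn _ _ = 0
    rw [nn_conj']
    rcases hz.inv with e | e <;> rw [e, nn] <;> simp [pe_zv]

theorem surj {a c : F} (hac : a ≠ 0 ∨ c ≠ 0) {v : V} (hv : InW v) : ∃ u, nn (pe a 0 c) u = v := by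
  obtain ⟨a1, a2, a3⟩ := hv
  have k : ∀ a c p q r : F, a ≠ 0 ∨ c ≠ 0 → ∃ u1 u2 u3 u4 u5 : F,
      2 * a * u1 + 2 * c * u2 + a * a * u3 + 2 * a * c * u4 + c * c * u5 = p ∧
      a * u3 + c * u4 = q ∧ a * u4 + c * u5 = r := by decide +kernel
  obtain ⟨u1, u2, u3, u4, u5, e1, e2, e3⟩ := k a c (v 0) (v 1) (v 2) hac
  refine ⟨![0, u1, u2, u3, u4, u5], v_ext ?_ ?_ ?_ ?_ ?_ ?_⟩ <;> simp [nn, a1, a2, a3]
  · linear_combination e1
  · linear_combination e2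
  · linear_combination e3

theorem fin (h : Hyp X) {x : GV} (hx : x ∈ X) (hz : FZ x) {a c a' c' : F} (hac : a ≠ 0 ∨ c ≠ 0)
    (hac' : a' ≠ 0 ∨ c' ≠ 0) (hc : Ch {pe a 0 c, x * pe a' 0 c' * x⁻¹} (Ws ⊔ Wx x)) (v : V) (hv : InW v) :
    InW (x v) := by
  have hp := (step2 hc le_top (fun u _ => Submodule.mem_sup_left (nV a c u))
    fun u _ => Submodule.mem_sup_right (nVx x a' c' u)).pgrp
  rw [Set.pair_comm] at hp
  have c' : Cu (x * pe a' 0 c' * x⁻¹) zv := by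
    have := (cu_A1 hac').conj x
    rcases hz with e | e <;> rw [e] at this
    · exact this
    · simpa using this.neg
  obtain ⟨u, rfl⟩ := surj hac' hv
  obtain ⟨w, e⟩ := kp h (mul_mem (mul_mem hx (h.le (pe_mem _ _ _))) (inv_mem hx)) (h.le (pe_mem _ _ _))
    c' (cu_A1 hac) hp (x u)
  rw [← nn_conj, e]
  exact nV a c w

theorem trick (m : V) {d : V} (hd : InW d) (h1 : d 1 ≠ 0 ∨ d 2 ≠ 0) :
    ∃ a c : F, (a ≠ 0 ∨ c ≠ 0) ∧ ∃ k l : F, nn (pe a 0 c) m = k • zv + l • d := by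
  obtain ⟨a1, a2, a3⟩ := hd
  have k : ∀ p q r d1 d2 : F, d1 ≠ 0 ∨ d2 ≠ 0 → ∃ a c l : F, (a ≠ 0 ∨ c ≠ 0) ∧
      a * p + c * q = l * d1 ∧ a * q + c * r = l * d2 := by decide +kernel
  obtain ⟨a, c, l, hac, e1, e2⟩ := k (m 3) (m 4) (m 5) (d 1) (d 2) h1
  refine ⟨a, c, hac, nn (pe a 0 c) m 0 - l * d 0, l, v_ext ?_ ?_ ?_ ?_ ?_ ?_⟩ <;>
    simp [nn, zv, a1, a2, a3]
  · linear_combination e1
  · linear_combination e2

theorem compl {d : V} (hd : InW d) (h1 : d 1 ≠ 0 ∨ d 2 ≠ 0) :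
    ∃ m : V, ∀ v, InW v → ∃ k l j : F, v = k • zv + l • d + j • m := by
  obtain ⟨a1, a2, a3⟩ := hd
  have k : ∀ d1 d2 : F, d1 ≠ 0 ∨ d2 ≠ 0 → ∃ m1 m2 : F, ∀ p q : F, ∃ l j : F,
      p = l * d1 + j * m1 ∧ q = l * d2 + j * m2 := by decide +kernel
  obtain ⟨m1, m2, hm⟩ := k (d 1) (d 2) h1
  refine ⟨![0, m1, m2, 0, 0, 0], fun v ⟨b1, b2, b3⟩ => ?_⟩
  obtain ⟨l, j, e1, e2⟩ := hm (v 1) (v 2)
  refine ⟨v 0 - l * d 0, l, j, v_ext ?_ ?_ ?_ ?_ ?_ ?_⟩ <;>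
    simp only [Pi.add_apply, Pi.smul_apply, smul_eq_mul] <;> simp [zv, a1, a2, a3, b1, b2, b3, e1, e2]

theorem memD (k l : F) (d : V) : k • zv + l • d ∈ Zs ⊔ Submodule.span F {d} :=
  Submodule.add_mem_sup (zs k) (Submodule.smul_mem _ _ (Submodule.mem_span_singleton_self _))

theorem xD {x : GV} (hz : FZ x) (k l : F) (d : V) :
    x (k • zv + l • x⁻¹ d) ∈ Zs ⊔ Submodule.span F {d} := by
  rw [map_add, map_smul x l, ginv']
  exact Submodule.add_mem_sup (xZ hz (zs k)) (Submodule.smul_mem _ _ (Submodule.mem_span_singleton_self _))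

theorem offZ {v : V} (hv : InW v) (h : v ∉ Zs) : v 1 ≠ 0 ∨ v 2 ≠ 0 := by
  by_contra n
  push Not at n
  obtain ⟨a1, a2, a3⟩ := hv
  have : v = v 0 • zv := by refine v_ext ?_ ?_ ?_ ?_ ?_ ?_ <;> simp [zv, a1, a2, a3, n.1, n.2]
  exact h (this ▸ zs _)

/-- decomposition of `x W` -/
theorem complx {x : GV} (hz : FZ x) {d : V} (hd : InW (x⁻¹ d)) (h1 : d ∉ Zs) :
    ∃ m : V, Wx x ≤ Zs ⊔ Submodule.span F {d} ⊔ Submodule.span F {m} := by
  obtain ⟨m, hm⟩ := compl hd (offZ hd fun e => h1 (by simpa [ginv'] using xZ hz e))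
  refine ⟨x m, fun v hv => ?_⟩
  obtain ⟨k, l, j, e⟩ := hm _ (mem_Wx.1 hv)
  rw [← ginv' x v, e, map_add, map_smul x j]
  exact Submodule.add_mem_sup (xD hz k l d) (Submodule.smul_mem _ _ (Submodule.mem_span_singleton_self _))

theorem sp {m : V} {D : Submodule F V} (h : m ∈ D) : Submodule.span F {m} ≤ D :=
  (Submodule.span_singleton_le_iff_mem m D).2 h

end KA1

open KA1

theorem kw1 (h : Hyp X) {x : GV} (hx : x ∈ X) (hz : FZ x) {d : V} (hd : InW d) (hd' : InW (x⁻¹ d))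
    (h1 : d 1 ≠ 0 ∨ d 2 ≠ 0) : ∀ v, InW v → InW (x v) := by
  have dZ : d ∉ Zs := fun e => by
    obtain ⟨k, rfl⟩ := Submodule.mem_span_singleton.1 e
    simp [zv] at h1
  have dZ' : x⁻¹ d ∉ Zs := fun e => dZ (by simpa [ginv'] using xZ hz e)
  obtain ⟨m, hm⟩ := complx hz hd' dZ
  obtain ⟨m0, hm0⟩ := complx (x := 1) (.inl rfl) (d := d) hd dZ
  obtain ⟨a, c, hac, k, l, e⟩ := trick m hd h1
  obtain ⟨a', c', hac', k', l', e'⟩ := trick (x⁻¹ m0) hd' (offZ hd' dZ')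
  have DW : Zs ⊔ Submodule.span F {d} ≤ Ws := sup_le ZW (sp hd)
  have DW' : Zs ⊔ Submodule.span F {d} ≤ Wx x := sup_le (ZWx hz) (sp hd')
  refine fin h hx hz hac hac' (step2 (D := Zs ⊔ Submodule.span F {d})
    (step2 (chZ hz a c a' c') le_sup_left (fun v hv => nW a c (DW hv)) fun v hv => nWx hz a' c' (DW' hv))
    (DW.trans le_sup_left) (sup_le (fun v hv => Submodule.mem_sup_left (nW a c hv)) (hm.trans
      (sup_le (fun v hv => Submodule.mem_sup_left (nW a c (DW hv))) (sp ?_))))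
    (sup_le (le_trans (fun v hv => hm0 hv) (sup_le (fun v hv => Submodule.mem_sup_left (nWx hz a' c' (DW' hv))) (sp ?_)))
      fun v hv => Submodule.mem_sup_left (nWx hz a' c' hv)))
  · rw [Submodule.mem_comap, nL_apply, e]
    exact memD k l d
  · rw [Submodule.mem_comap, nL_apply, nn_conj', e']
    exact xD hz k' l' d

theorem kw2 (h : Hyp X) {x : GV} (hx : x ∈ X) (hz : FZ x) {m : V} (hm : InW (x⁻¹ m)) (hm' : ¬ InW m)
    {a c k : F} (hac : a ≠ 0 ∨ c ≠ 0) (hk : nn (pe a 0 c) m = k • zv) : False := by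
  have mZ : m ∉ Zs := fun e => hm' (ZW e)
  have mZ' : x⁻¹ m ∉ Zs := fun e => mZ (by simpa [ginv'] using xZ hz e)
  obtain ⟨m2, hm2⟩ := complx hz hm mZ
  obtain ⟨a', c', hac', k', l', e'⟩ := trick (x⁻¹ (nn (pe a 0 c) m2)) hm (offZ hm mZ')
  have eW := nV a c m2
  set e := nn (pe a 0 c) m2 with he
  have n1 : Zs ⊔ Submodule.span F {m} ≤ Zs.comap (nL (pe a 0 c)) :=
    sup_le (fun v hv => nW a c (ZW hv)) (sp (by rw [Submodule.mem_comap, nL_apply, hk]; exact zs k))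
  have DW' : Zs ⊔ Submodule.span F {m} ≤ Wx x := sup_le (ZWx hz) (sp hm)
  have n2 : nn (x * pe a' 0 c' * x⁻¹) e ∈ Zs ⊔ Submodule.span F {m} := by
    rw [nn_conj', e']
    exact xD hz k' l' m
  have n3 : Wx x ≤ (Zs ⊔ Submodule.span F {m} ⊔ Submodule.span F {e}).comap (nL (pe a 0 c)) :=
    hm2.trans (sup_le (fun v hv => Submodule.mem_sup_left (Submodule.mem_sup_left (n1 hv)))
      (sp (Submodule.mem_sup_right (Submodule.mem_span_singleton_self e))))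
  have c1 := step2 (chZ hz a c a' c') le_sup_left n1 fun v hv => nWx hz a' c' (DW' hv)
  have c2 := step2 (C := Zs ⊔ Submodule.span F {m} ⊔ Submodule.span F {e}) c1 le_sup_left
    (sup_le (fun v hv => Submodule.mem_sup_left (n1 hv)) (sp (Submodule.mem_sup_left (nW a c eW))))
    (sup_le (fun v hv => Submodule.mem_sup_left (nWx hz a' c' (DW' hv))) (sp n2))
  have l3 : Zs ⊔ Submodule.span F {m} ⊔ Submodule.span F {e} ≤ Wx x ⊔ Submodule.span F {e} :=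
    sup_le_sup_right DW' _
  have c3 := step2 c2 l3
    (sup_le n3 (sp (Submodule.mem_sup_left (Submodule.mem_sup_left (nW a c eW)))))
    (sup_le (fun v hv => Submodule.mem_sup_left (Submodule.mem_sup_left (nWx hz a' c' hv)))
      (sp (Submodule.mem_sup_left n2)))
  have c4 := step2 (C := Ws ⊔ Wx x) c3 (sup_le le_sup_right ((sp eW).trans le_sup_left))
    (sup_le (fun v hv => Submodule.mem_sup_left (ZWx hz (nW a c hv))) fun v hv => l3 (n3 hv))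
    fun v _ => Submodule.mem_sup_left (nVx x a' c' v)
  have := fin h hx hz hac hac' c4 _ hm
  rw [ginv'] at this
  exact hm' this

end Cfsg.Agent.C3X
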