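import Cfsg.Agent.C3X.Bas

set_option autoImplicit false

namespace Cfsg.Agent.C3X

open Subgroup

variable {X : Subgroup GV}

theorem Hyp.kb_le (h : Hyp X) {T : Subgroup GV} (hT : T ≤ X) (h3 : IsPGroup 3 T) (hP : PP ≤ T) :
    T ≤ PP := by
  obtain ⟨n, hn⟩ := IsPGroup.iff_card.1 h3
  have h4 : n ≤ 3 := by
    by_contra k
    exact h.syl (((pow_dvd_pow 3 (show 4 ≤ n by omega)).trans hn.symm.dvd).trans (card_dvd_of_le hT))
  refine (eq_of_le_of_card_ge hP ?_).ge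
  rw [hn, card_PP]
  exact Nat.pow_le_pow_right (by decide) h4

theorem Hyp.max (h : Hyp X) {s : Set GV} (hs : ∀ g ∈ s, g ∈ X) (hc : Ch ((PP : Set GV) ∪ s) ⊤) :
    ∀ g ∈ s, g ∈ PP := fun _ hg =>
  h.kb_le ((closure_le _).2 fun y hy => hy.elim (fun k => h.le k) (hs y)) hc.pgrp
    (fun _ k => subset_closure (.inl k)) (subset_closure (.inr hg))

theorem Hyp.cube (h : Hyp X) {u : GV} (hu : u ∈ X) (hn : u ∈ normalizer (PP : Set GV)) (h3 : u ^ 3 = 1) : u ∈ PP := by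
  have hz : IsPGroup 3 (zpowers u) := by
    rintro ⟨_, k, rfl⟩
    refine ⟨1, Subtype.ext ?_⟩
    show (u ^ k) ^ 3 ^ 1 = 1
    rw [pow_one, ← zpow_natCast, ← zpow_mul, mul_comm, zpow_mul, zpow_natCast, h3, one_zpow]
  exact h.kb_le (sup_le h.le (zpowers_le.2 hu)) (pgrp_PP.to_sup_of_normal_left' hz (zpowers_le.2 hn))
    le_sup_left (mem_sup_right (mem_zpowers u))

theorem Hyp.exp3 (h : Hyp X) {T : Subgroup GV} (hT : T ≤ X) (h3 : IsPGroup 3 T) : ∀ t ∈ T, t ^ 3 = 1 := by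
  obtain ⟨y, -, hy⟩ := h.conj hT h3
  intro t ht
  obtain ⟨a, b, c, e⟩ := hy t ht
  have := pe_cube a b c
  rw [← e, conj_pow] at this
  simpa using this

theorem kb_W (a c : F) (v : V) : InW (nn (pe a 0 c) v) := by
  refine ⟨?_, ?_, ?_⟩ <;> simp [nn]

theorem kb_onto {a c : F} (h : a ≠ 0 ∨ c ≠ 0) {v : V} (hv : InW v) : ∃ u, nn (pe a 0 c) u = v := by
  have k1 : ∀ a c x y : F, (a ≠ 0 ∨ c ≠ 0) → ∃ p q r : F, a * p + c * q = x ∧ a * q + c * r = y := by decide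
  have k2 : ∀ a c x : F, (a ≠ 0 ∨ c ≠ 0) → ∃ p q : F, 2 * a * p + 2 * c * q = x := by decide
  obtain ⟨p, q, r, e1, e2⟩ := k1 a c (v 1) (v 2) h
  obtain ⟨s, t, e3⟩ := k2 a c (v 0 - (a * a * p + 2 * a * c * q + c * c * r)) h
  refine ⟨![0, s, t, p, q, r], v_ext ?_ ?_ ?_ ?_ ?_ ?_⟩ <;> simp [nn, hv.1, hv.2.1, hv.2.2]
  · linear_combination e3
  · linear_combination e1
  · linear_combination e2

theorem kb_kp {a b c a' b' c' : F} {w : V} (k : Cu (pe a b c) w) (k' : Cu (pe a' b' c') w) (v : V) :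
    ∃ u, nn (pe a b c) v = nn (pe a' b' c') u := by
  have m : ∀ b c : F, b ≠ 0 → ∀ w : V, (w = zv ∨ w = -zv) → ¬ (w = sq b c ∨ w = -sq b c) := by
    rintro b c hb w (rfl | rfl) <;> revert b c <;> decide
  rcases k.pe with ⟨rfl, -, e⟩ | ⟨rfl, hb, e⟩ <;> rcases k'.pe with ⟨rfl, h', e'⟩ | ⟨rfl, hb', e'⟩
  · exact (kb_onto h' (kb_W a c v)).imp fun _ => Eq.symm
  · exact absurd e' (m _ _ hb' w e)
  · exact absurd e (m _ _ hb w e')
  · have t : ∀ b c b' c' : F, b ≠ 0 → (sq b c = sq b' c' ∨ sq b c = -sq b' c') →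
        (b' = b ∧ c' = c) ∨ (b' = -b ∧ c' = -c) := by decide
    have e2 : sq b c = sq b' c' ∨ sq b c = -sq b' c' := by
      rcases e with e | e <;> rcases e' with e' | e'
      · exact .inl (e.symm.trans e')
      · exact .inr (e.symm.trans e')
      · exact .inr (neg_eq_iff_eq_neg.1 (e.symm.trans e'))
      · exact .inl (neg_injective (e.symm.trans e'))
    rcases t b c b' c' hb e2 with ⟨rfl, rfl⟩ | ⟨rfl, rfl⟩
    · exact ⟨v, rfl⟩
    · refine ⟨-(pe 0 b c v), ?_⟩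
      rw [show pe 0 (-b) (-c) = (pe 0 b c)⁻¹ by rw [pe_inv]; simp]
      simp only [nn, map_neg, ginv]
      abel

theorem kp (h : Hyp X) {t t' : GV} {w : V} (ht : t ∈ X) (ht' : t' ∈ X) (c : Cu t w) (c' : Cu t' w)
    (hp : IsPGroup 3 (closure {t, t'} : Subgroup GV)) (v : V) : ∃ u, nn t v = nn t' u := by
  obtain ⟨y, -, hy⟩ := h.conj ((closure_le _).2 (by rintro _ (rfl | rfl) <;> assumption)) hp
  obtain ⟨a, b, d, e⟩ := hy t (subset_closure (.inl rfl))
  obtain ⟨a', b', d', e'⟩ := hy t' (subset_closure (.inr rfl))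
  obtain ⟨u, hu⟩ := kb_kp (e ▸ c.conj y) (e' ▸ c'.conj y) (y v)
  rw [← e, ← e', nn_conj, nn_conj'] at hu
  exact ⟨_, y.injective hu⟩

/-- the standard flag -/
def kbfl (k : ℕ) : Submodule F V where
  carrier := {v | ∀ i : Fin 6, k ≤ i.val → v i = 0}
  zero_mem' _ _ := rfl
  add_mem' h1 h2 i hi := by rw [Pi.add_apply, h1 i hi, h2 i hi, add_zero]
  smul_mem' c _ h i hi := by rw [Pi.smul_apply, h i hi, smul_zero]

theorem mem_kbfl {k : ℕ} {v : V} : v ∈ kbfl k ↔ ∀ i : Fin 6, k ≤ i.val → v i = 0 := Iff.rfl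

theorem kbfl_mono {k l : ℕ} (h : k ≤ l) : kbfl k ≤ kbfl l := fun _ hv i hi => hv i (h.trans hi)

theorem kbfl_pe (a b c : F) (k : ℕ) (v : V) (hv : v ∈ kbfl (k + 1)) : nn (pe a b c) v ∈ kbfl k := by
  intro i hi
  have h : ∀ j : Fin 6, i.val < j.val → v j = 0 := fun j hj => hv j (by omega)
  fin_cases i
  · simp [nn, h 1 (by decide), h 2 (by decide), h 3 (by decide), h 4 (by decide), h 5 (by decide)]
  · simp [nn, h 2 (by decide), h 3 (by decide), h 4 (by decide), h 5 (by decide)]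
  · simp [nn, h 4 (by decide), h 5 (by decide)]
  · simp [nn, h 4 (by decide), h 5 (by decide)]
  · simp [nn, h 5 (by decide)]
  · simp [nn]

theorem mem_kbfl3 {v : V} : v ∈ kbfl 3 ↔ InW v :=
  ⟨fun h => ⟨h 3 (by decide), h 4 (by decide), h 5 (by decide)⟩, fun h i hi => by
    fin_cases i
    · exact absurd hi (by decide)
    · exact absurd hi (by decide)
    · exact absurd hi (by decide)
    exacts [h.1, h.2.1, h.2.2]⟩

theorem mem_kbfl1 {v : V} : v ∈ kbfl 1 ↔ ∃ k : F, v = k • zv :=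
  ⟨fun h => ⟨v 0, v_ext (by simp [zv]) (by simp [zv, h 1 (by decide)]) (by simp [zv, h 2 (by decide)])
    (by simp [zv, h 3 (by decide)]) (by simp [zv, h 4 (by decide)]) (by simp [zv, h 5 (by decide)])⟩, by
    rintro ⟨k, rfl⟩ i hi
    fin_cases i
    · exact absurd hi (by decide)
    all_goals simp [zv]⟩

/-- elements of `X` acting trivially on the factors of the standard flag -/
theorem Hyp.kb_flag (h : Hyp X) {g : GV} (hg : g ∈ X) (hf : ∀ k, ∀ v ∈ kbfl (k + 1), nn g v ∈ kbfl k) :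
    g ∈ PP := by
  have c : ∀ k, Ch ((PP : Set GV) ∪ {g}) (kbfl k) := by
    intro k
    induction k with
    | zero =>
      rw [show kbfl 0 = ⊥ from (Submodule.eq_bot_iff _).2 fun v hv => funext fun i => hv i (Nat.zero_le _)]
      exact .bot
    | succ k ih =>
      refine ih.step (kbfl_mono k.le_succ) ?_
      rintro _ (⟨a, b, c, rfl⟩ | rfl) v hv
      exacts [kbfl_pe a b c k v hv, hf k v hv]
  have c6 := c 6
  rw [show kbfl 6 = ⊤ from Submodule.eq_top_iff'.2 fun v i hi => absurd i.2 (by omega)] at c6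
  exact h.max (s := {g}) (by rintro _ rfl; exact hg) c6 g rfl

/-- a subspace mapped into itself is also preserved by the inverse -/
theorem kb_inv {x : GV} {P : V → Prop} (h : ∀ v, P v → P (x v)) (v : V) (hv : P v) : P (x⁻¹ v) := by
  obtain ⟨⟨u, hu⟩, e⟩ := (Finite.injective_iff_surjective (f := fun v : {v // P v} =>
    (⟨x v, h _ v.2⟩ : {v // P v}))).1 (fun a b e => Subtype.ext (x.injective (congrArg Subtype.val e))) ⟨v, hv⟩
  obtain rfl : x u = v := congrArg Subtype.val e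
  rwa [ginv]

theorem FZ.kb_fl1 {x : GV} (hz : FZ x) {v : V} (hv : v ∈ kbfl 1) : x v ∈ kbfl 1 := by
  obtain ⟨k, rfl⟩ := mem_kbfl1.1 hv
  rcases hz with e | e <;> rw [map_smul, e]
  · exact hv
  · rw [smul_neg]; exact neg_mem hv

theorem nA1 (h : Hyp X) {x : GV} (hx : x ∈ X) (hz : FZ x) (hw : ∀ v, InW v → InW (x v)) :
    x ∈ normalizer (A1 : Set GV) := by
  refine mem_normalizer_fintype ?_
  rintro _ ⟨a, c, rfl⟩
  have hP : x * pe a 0 c * x⁻¹ ∈ PP := by
    refine h.kb_flag (mul_mem (mul_mem hx (h.le (pe_mem _ _ _))) (inv_mem hx)) fun k v hv => ?_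
    rw [nn_conj']
    by_cases k3 : 3 ≤ k
    · exact kbfl_mono k3 (mem_kbfl3.2 (hw _ (kb_W _ _ _)))
    by_cases k1 : 1 ≤ k
    · refine kbfl_mono k1 (hz.kb_fl1 ?_)
      obtain ⟨h3, h4, h5⟩ := kb_inv hw v (mem_kbfl3.1 (kbfl_mono (by omega) hv))
      generalize x⁻¹ v = u at h3 h4 h5 ⊢
      intro i hi
      fin_cases i
      · exact absurd hi (by decide)
      all_goals simp [nn, h3, h4, h5]
    · obtain rfl : k = 0 := by omega
      rw [show nn (pe a 0 c) (x⁻¹ v) = 0 from funext fun i =>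
        kbfl_pe a 0 c 0 _ (hz.inv.kb_fl1 hv) i (Nat.zero_le _), map_zero]
      exact zero_mem _
  by_cases h0 : a ≠ 0 ∨ c ≠ 0
  · obtain ⟨a', b', c', e⟩ := hP
    have k := (cu_A1 h0).conj x
    rw [e] at k ⊢
    rcases k.pe with ⟨rfl, -, -⟩ | ⟨rfl, hb, e'⟩
    · exact ⟨_, _, rfl⟩
    · exfalso
      have m : ∀ b c : F, b ≠ 0 → ∀ w : V, (w = zv ∨ w = -zv) → ¬ (w = sq b c ∨ w = -sq b c) := by
        rintro b c hb w (rfl | rfl) <;> revert b c <;> decide
      exact m _ _ hb _ hz e'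
  · push Not at h0
    rw [h0.1, h0.2, pe_zero, mul_one, mul_inv_cancel]
    exact one_mem _

end Cfsg.Agent.C3X
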