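import Cfsg.Agent.C3X.Dual
import Cfsg.Agent.C3X.Om0
import Cfsg.Agent.C3X.Om1

set_option autoImplicit false

namespace Cfsg.Agent.C3X

open Subgroup

theorem main_PP {Y : Subgroup GV} (h1 : pe 1 0 0 ∈ Y) (h2 : pe 0 1 0 ∈ Y) : PP ≤ Y := by
  have h0 : pe 0 0 0 ∈ Y := pe_zero ▸ one_mem _
  have h3 : pe 0 0 1 ∈ Y := by
    have := mul_mem (mul_mem h1 h2) (inv_mem (mul_mem h2 h1))
    rw [pe_mul, pe_mul, pe_inv, pe_mul] at this
    exact this
  have k1 : ∀ a, pe a 0 0 ∈ Y := fun a => by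
    rcases f3 a with rfl | rfl | rfl
    exacts [h0, h1, by have := inv_mem h1; rwa [pe_inv] at this]
  have k2 : ∀ a, pe 0 a 0 ∈ Y := fun a => by
    rcases f3 a with rfl | rfl | rfl
    exacts [h0, h2, by have := inv_mem h2; rwa [pe_inv] at this]
  have k3 : ∀ a, pe 0 0 a ∈ Y := fun a => by
    rcases f3 a with rfl | rfl | rfl
    exacts [h0, h3, by have := inv_mem h3; rwa [pe_inv] at this]
  rintro _ ⟨a, b, c, rfl⟩
  have := mul_mem (k3 c) (mul_mem (k2 b) (k1 a))
  rw [pe_mul, pe_mul] at this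
  simpa using this

theorem main_fin {X : Subgroup GV} (h : Hyp X) (hb : HB X) {l : F} (ha : ya l ∈ X) (hy : yb 0 ∈ X) :
    ∃ t : Bool, (l = 0 ∨ (l = 1 ∧ t = true)) ∧ X = XX l t := by
  classical
  have hl : l = 0 ∨ l = 1 := by
    rcases f3 l with e | e | rfl
    exacts [.inl e, .inr e, absurd (omA h (om2 h.le ha hy) (by decide)) (by decide)]
  refine ⟨decide (tau ∈ X), hl.imp_right fun e => ⟨e, decide_eq_true (tau_mem h.le (e ▸ ha) hy)⟩, ?_⟩
  generalize ht : decide (tau ∈ X) = t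
  have m1 : pe 1 0 0 ∈ XX l t := subset_closure (by simp)
  have m2 : pe 0 1 0 ∈ XX l t := subset_closure (by simp)
  have m3 : ya l ∈ XX l t := subset_closure (by simp)
  have m4 : yb 0 ∈ XX l t := subset_closure (by simp)
  have m5 : tor false false t ∈ XX l t := subset_closure (by simp)
  have m6 : rr ∈ XX l t := rr_eq l ▸ pow_mem (mul_mem (mul_mem m1 (inv_mem m3)) m1) 2
  have m7 : ss ∈ XX l t := ss_eq 0 ▸ pow_mem (mul_mem (mul_mem m2 (inv_mem m4)) m2) 2
  have m0 : tor false false false ∈ XX l t := tor_one ▸ one_mem _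
  have hP := main_PP m1 m2
  have hY : XX l t ≤ X := (closure_le _).2 (by
    rintro g (rfl | rfl | rfl | rfl | rfl)
    · exact h.le (pe_mem _ _ _)
    · exact h.le (pe_mem _ _ _)
    · exact ha
    · exact hy
    · cases t
      · exact tor_one ▸ X.one_mem
      · exact of_decide_eq_true ht)
  have hK := kgen h hb hY hP m4 fun α β σ hx => by
    have e : tor α β σ = tor α false false * tor false β false * tor false false σ := by
      rw [tor_mul, tor_mul]; simp
    have k : tor α false false * tor false β false ∈ XX l t :=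
      mul_mem (by cases α; exacts [m0, m7]) (by cases β; exacts [m0, m6])
    rw [e] at hx ⊢
    refine mul_mem k ?_
    cases σ
    · exact m0
    · have e : t = true := ht ▸ decide_eq_true ((mul_mem_cancel_left (hY k)).1 hx)
      subst e
      exact m5
  refine le_antisymm (fun x hx => ?_) hY
  have hv := Om.act hx (Om.z X)
  suffices ∃ y ∈ XX l t, FZ (y * x) by
    obtain ⟨y, hy, e⟩ := this
    exact (mul_mem_cancel_left hy).1 (hK ⟨mul_mem (hY hy) hx, e⟩)
  rcases hl with rfl | rfl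
  · obtain ⟨u, hu, e⟩ := om0 h ha hy hv
    obtain ⟨y, hy, e'⟩ := sq3_mem hP m3 m4 hu
    refine ⟨y⁻¹, inv_mem hy, ?_⟩
    have : x zv = y zv ∨ x zv = -y zv := by
      rcases e with e | e <;> rcases e' with e' | e' <;> simp [e, e']
    rw [FZ, gmul]
    exact this.imp (fun e => by rw [e, ginv]) fun e => by rw [e, map_neg, ginv]
  · obtain ⟨y, hy, e⟩ := orb1 hP m3 m4 (x.map_ne_zero_iff.2 zv_ne)
    have hw := Om.act (hY hy) hv
    rcases e with e | e | e
    · exact ⟨y, hy, .inl e⟩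
    · exact absurd (omA h (e ▸ hw) (by decide)) (by decide)
    · exact absurd (omA h (e ▸ hw) (by decide)) (by decide)

theorem main_mem {G : Type*} [Group G] {X : Subgroup G} {g x : G} :
    x ∈ X.comap (MulAut.conj g).toMonoidHom ↔ g * x * g⁻¹ ∈ X := Iff.rfl

theorem main_cj {G : Type*} [Group G] (a b c : G) : a * (b * c * b⁻¹) * a⁻¹ = a * b * c * (a * b)⁻¹ := by group

theorem main_cj' {G : Type*} [Group G] (a g : G) : a * (a⁻¹ * g * a) * a⁻¹ = g := by group

theorem main (X : Subgroup GV) (h : Hyp X) (hb : HB X) (hr : rr ∈ X) (hz : ∃ x ∈ X, ¬ FZ x)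
    (ha : ∃ x ∈ X, ¬ FA x) : ∃ (m l : F) (t : Bool), (l = 0 ∨ (l = 1 ∧ t = true)) ∧
      ∀ g, g ∈ X ↔ (ze m)⁻¹ * g * ze m ∈ XX l t := by
  obtain ⟨m, hm⟩ : ∃ m, yb m ∈ X := by
    by_contra hn
    obtain ⟨x, hx, e⟩ := ha
    exact e (na' h (fun g hg h1 => by_contra fun h2 => hn (xb h hb hg h1 h2)) hr x hx)
  have hs : ss ∈ X := ss_eq m ▸ pow_mem (mul_mem (mul_mem (h.le (pe_mem _ _ _)) (inv_mem hm)) (h.le (pe_mem _ _ _))) 2
  obtain ⟨l, hl⟩ : ∃ l, ya l ∈ X := by
    by_contra hn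
    obtain ⟨x, hx, e⟩ := hz
    exact e (na h (fun g hg h1 => by_contra fun h2 => hn (xa h hb hg h1 h2)) hs x hx)
  have hN : ze m ∈ normalizer (PP : Set GV) := centralizer_le_normalizer _ (by
    rintro _ ⟨a, b, c, rfl⟩; exact (ze_pe m a b c).symm)
  generalize hX : X.comap (MulAut.conj (ze m)).toMonoidHom = X'
  have hc : Nat.card X' ∣ Nat.card X := hX ▸ card_comap_dvd_of_injective _ _ (MulAut.conj (ze m)).injective
  have hX' : ∀ x, x ∈ X' ↔ ze m * x * (ze m)⁻¹ ∈ X := fun x => hX ▸ main_mem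
  obtain ⟨t, h1, h2⟩ := main_fin (X := X') (l := l - m)
    ⟨by
      rintro _ ⟨a, b, c, rfl⟩
      rw [hX', ze_pe, mul_inv_cancel_right]; exact h.le (pe_mem _ _ _),
    fun e => h.syl (e.trans hc)⟩
    (fun x hx hn => by
      obtain ⟨a, b, c, α, β, σ, e⟩ := hb _ ((hX' x).1 hx) (mul_mem (mul_mem hN hn) (inv_mem hN))
      refine ⟨a, b, c, α, β, σ, mul_left_cancel (a := ze m) ?_⟩
      rw [← mul_assoc, ze_pe, mul_assoc, ze_tor, ← mul_assoc, ← e, inv_mul_cancel_right])
    (by rw [hX', ya, main_cj, ze_mul, add_sub_cancel]; exact hl)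
    (by rw [hX', yb, main_cj, ze_mul, add_zero]; exact hm)
  exact ⟨m, l - m, t, h1, fun g => by rw [← h2, hX', main_cj']⟩

end Cfsg.Agent.C3X
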