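/-
Project C3X (notes/C3X.md), section NA1: the centraliser of `pe 0 b c` and fixed vectors in the orbit.
-/
import Cfsg.Agent.C3X.KA
import Cfsg.Agent.C3X.KB2

set_option autoImplicit false

namespace Cfsg.Agent.C3X

open Subgroup

variable {X : Subgroup GV}

/-- the vectors whose listed coordinates vanish -/
def NA1_K (s : List (Fin 6)) : Submodule F V where
  carrier := {v | ∀ i ∈ s, v i = 0}
  zero_mem' := fun _ _ => rfl
  add_mem' := fun ha hb i hi => by rw [Pi.add_apply, ha i hi, hb i hi, add_zero]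
  smul_mem' := fun k v hv i hi => by rw [Pi.smul_apply, hv i hi, smul_zero]

theorem NA1_mem {s : List (Fin 6)} {v : V} : v ∈ NA1_K s ↔ ∀ i ∈ s, v i = 0 := Iff.rfl

theorem NA1_cons {s : List (Fin 6)} {i : Fin 6} {v : V} : v ∈ NA1_K (i :: s) ↔ v i = 0 ∧ v ∈ NA1_K s := by
  simp [NA1_mem]

theorem NA1_step {g : GV} (h3 : g ^ 3 = 1) {s : List (Fin 6)} {i : Fin 6} (hi : i ∉ s)
    (hC : ∀ v ∈ NA1_K s, g v ∈ NA1_K s) (hD : ∀ v ∈ NA1_K (i :: s), g v ∈ NA1_K (i :: s)) :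
    ∀ v ∈ NA1_K s, nn g v ∈ NA1_K (i :: s) := by
  have he : (Pi.single i 1 : V) ∈ NA1_K s := fun j hj =>
    Pi.single_eq_of_ne (fun e : j = i => hi (e ▸ hj)) _
  have k : ∀ v ∈ NA1_K s, g v i = v i * g (Pi.single i 1) i := by
    intro v hv
    have h1 : v - v i • (Pi.single i 1 : V) ∈ NA1_K (i :: s) :=
      NA1_cons.2 ⟨by simp, sub_mem hv (Submodule.smul_mem _ _ he)⟩
    have h2 := (NA1_cons.1 (hD _ h1)).1
    rw [map_sub, map_smul, Pi.sub_apply, Pi.smul_apply, smul_eq_mul, sub_eq_zero] at h2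
    exact h2
  have k1 : g (Pi.single i 1) i = 1 := by
    have e : g (g (g (Pi.single i 1))) = Pi.single i 1 := by
      rw [← gmul, ← gmul, ← pow_two, ← pow_succ, h3, gone]
    have e2 := congrFun e i
    rw [k _ (hC _ (hC _ he)), k _ (hC _ he), Pi.single_eq_same] at e2
    generalize g (Pi.single i 1) i = t at e2
    revert t; decide
  intro v hv
  refine NA1_cons.2 ⟨?_, sub_mem (hC v hv) hv⟩
  show g v i - v i = 0
  rw [k v hv, k1, mul_one, sub_self]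

theorem NA1_N (v : V) : nn (pe 0 1 0) v = ![0, v 2, 0, 2 * v 4 + v 5, v 5, 0] := by
  refine v_ext ?_ ?_ ?_ ?_ ?_ ?_ <;> simp [nn]; ring

theorem NA1_two {k : F} (h : 2 * k = 0) : k = 0 := by revert k; decide

theorem NA1_ch : Ch {g : GV | g * pe 0 1 0 = pe 0 1 0 * g ∧ g ^ 3 = 1} ⊤ := by
  have inv : ∀ g : GV, g * pe 0 1 0 = pe 0 1 0 * g →
      (∀ v ∈ NA1_K [5], g v ∈ NA1_K [5]) ∧ (∀ v ∈ NA1_K [2, 5], g v ∈ NA1_K [2, 5]) ∧
      (∀ v ∈ NA1_K [4, 2, 5], g v ∈ NA1_K [4, 2, 5]) ∧ (∀ v ∈ NA1_K [0, 4, 2, 5], g v ∈ NA1_K [0, 4, 2, 5]) ∧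
      (∀ v ∈ NA1_K [1, 0, 4, 2, 5], g v ∈ NA1_K [1, 0, 4, 2, 5]) := by
    intro g e
    have c : ∀ v, nn (pe 0 1 0) (g v) = g (nn (pe 0 1 0) v) := fun v => by
      simp only [nn, map_sub]
      rw [← gmul, ← e, gmul]
    have i1 : ∀ v ∈ NA1_K [1, 0, 4, 2, 5], g v ∈ NA1_K [1, 0, 4, 2, 5] := by
      intro v hv
      simp only [NA1_mem, List.forall_mem_cons, List.not_mem_nil, false_imp_iff, implies_true, and_true] at hv ⊢
      obtain ⟨h1, h0, h4, h2, h5⟩ := hv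
      have e1 : v = nn (pe 0 1 0) (nn (pe 0 1 0) ![0, 0, 0, 0, 0, 2 * v 3]) := by
        rw [NA1_N, NA1_N]
        refine v_ext ?_ ?_ ?_ ?_ ?_ ?_ <;> simp [h1, h0, h4, h2, h5]
        linear_combination (-v 3) * three
      rw [e1, ← c, ← c, NA1_N, NA1_N]
      simp
    have i3 : ∀ v ∈ NA1_K [4, 2, 5], g v ∈ NA1_K [4, 2, 5] := by
      intro v hv
      simp only [NA1_mem, List.forall_mem_cons, List.not_mem_nil, false_imp_iff, implies_true, and_true] at hv ⊢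
      obtain ⟨h4, h2, h5⟩ := hv
      have e1 : nn (pe 0 1 0) v = 0 := by
        rw [NA1_N]
        refine v_ext ?_ ?_ ?_ ?_ ?_ ?_ <;> simp [h4, h2, h5]
      have e2 := c v
      rw [e1, map_zero, NA1_N] at e2
      have a1 : g v 2 = 0 := congrFun e2 1
      have a3 : 2 * g v 4 + g v 5 = 0 := congrFun e2 3
      have a4 : g v 5 = 0 := congrFun e2 4
      rw [a4, add_zero] at a3
      exact ⟨NA1_two a3, a1, a4⟩
    refine ⟨?_, ?_, i3, ?_, i1⟩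
    · intro v hv
      simp only [NA1_mem, List.forall_mem_cons, List.not_mem_nil, false_imp_iff, implies_true, and_true] at hv ⊢
      have e2 : nn (pe 0 1 0) (nn (pe 0 1 0) (g v)) = 0 := by
        rw [c, c, nn2_A2, hv, mul_zero, zero_smul, map_zero]
      rw [nn2_A2] at e2
      have a := congrFun e2 3
      simp only [sq, Pi.smul_apply, smul_eq_mul] at a
      exact NA1_two (by simpa using a)
    · intro v hv
      have e1 : nn (pe 0 1 0) v ∈ NA1_K [1, 0, 4, 2, 5] := by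
        simp only [NA1_mem, List.forall_mem_cons, List.not_mem_nil, false_imp_iff, implies_true,
          and_true] at hv ⊢
        rw [NA1_N]
        simp [hv.1, hv.2]
      have e2 := i1 _ e1
      rw [← c, NA1_N] at e2
      simp only [NA1_mem, List.forall_mem_cons, List.not_mem_nil, false_imp_iff, implies_true,
        and_true] at e2 ⊢
      exact ⟨e2.1, e2.2.2.1⟩
    · intro v hv
      refine NA1_cons.2 ⟨?_, i3 v (NA1_cons.1 hv).2⟩
      simp only [NA1_mem, List.forall_mem_cons, List.not_mem_nil, false_imp_iff, implies_true, and_true] at hv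
      obtain ⟨h0, h4, h2, h5⟩ := hv
      have e1 : v = nn (pe 0 1 0) ![0, 0, v 1, 0, 2 * v 3, 0] := by
        rw [NA1_N]
        refine v_ext ?_ ?_ ?_ ?_ ?_ ?_ <;> simp [h0, h4, h2, h5]
        linear_combination (-v 3) * three
      rw [e1, ← c, NA1_N]
      rfl
  have hb : NA1_K [3, 1, 0, 4, 2, 5] = ⊥ := by
    refine eq_bot_iff.2 fun v hv => ?_
    simp only [NA1_mem, List.forall_mem_cons, List.not_mem_nil, false_imp_iff, implies_true, and_true] at hv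
    obtain ⟨h3, h1, h0, h4, h2, h5⟩ := hv
    exact (Submodule.mem_bot F).2 (v_ext h0 h1 h2 h3 h4 h5)
  have ht : NA1_K [] = ⊤ := eq_top_iff.2 fun v _ i hi => absurd hi List.not_mem_nil
  have le : ∀ (i : Fin 6) (s : List (Fin 6)), NA1_K (i :: s) ≤ NA1_K s := fun i s v hv => (NA1_cons.1 hv).2
  rw [← ht]
  refine .step (.step (.step (.step (.step (.step (hb ▸ Ch.bot) (le 3 _) fun g hg => ?_) (le 1 _) fun g hg => ?_)
    (le 0 _) fun g hg => ?_) (le 4 _) fun g hg => ?_) (le 2 _) fun g hg => ?_) (le 5 _) fun g hg => ?_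
  · refine NA1_step hg.2 (by decide) (inv g hg.1).2.2.2.2 fun v hv => ?_
    rw [hb] at hv ⊢
    rw [(Submodule.mem_bot F).1 hv, map_zero]; exact zero_mem _
  · exact NA1_step hg.2 (by decide) (inv g hg.1).2.2.2.1 (inv g hg.1).2.2.2.2
  · exact NA1_step hg.2 (by decide) (inv g hg.1).2.2.1 (inv g hg.1).2.2.2.1
  · exact NA1_step hg.2 (by decide) (inv g hg.1).2.1 (inv g hg.1).2.2.1
  · exact NA1_step hg.2 (by decide) (inv g hg.1).1 (inv g hg.1).2.1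
  · exact NA1_step hg.2 (by decide) (fun v _ => by rw [ht]; trivial) (inv g hg.1).1

theorem NA1_comm {a b c b' c' : F} (hb : b' ≠ 0) (e : pe a b c * pe 0 b' c' = pe 0 b' c' * pe a b c) :
    pe a b c ∈ A2 := by
  rw [pe_mul, pe_mul] at e
  have h := (pe_inj e).2.2
  have : a * b' = 0 := by linear_combination h
  obtain rfl := (mul_eq_zero.1 this).resolve_right hb
  exact ⟨b, c, rfl⟩

theorem NA1_gen {H : Subgroup GV} (h1 : pe 0 1 0 ∈ H) (h2 : pe 0 0 1 ∈ H) : A2 ≤ H := by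
  rintro _ ⟨b, c, rfl⟩
  have e : pe 0 b c = pe 0 b 0 * pe 0 0 c := by rw [pe_mul]; simp
  rw [e]
  refine mul_mem ?_ ?_
  · rcases f3 b with rfl | rfl | rfl
    · rw [pe_zero]; exact one_mem _
    · exact h1
    · have := inv_mem h1
      rw [pe_inv] at this
      simpa using this
  · rcases f3 c with rfl | rfl | rfl
    · rw [pe_zero]; exact one_mem _
    · exact h2
    · have := inv_mem h2
      rw [pe_inv] at this
      simpa using this

theorem NA1_cc {y g h : GV} (e : g * h = h * g) : y * g * y⁻¹ * (y * h * y⁻¹) = y * h * y⁻¹ * (y * g * y⁻¹) := by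
  calc _ = y * (g * h) * y⁻¹ := by group
    _ = _ := by rw [e]; group

theorem NA1_cube {y g : GV} (e : g ^ 3 = 1) : (y * g * y⁻¹) ^ 3 = 1 := by
  rw [conj_pow, e, mul_one, mul_inv_cancel]

theorem NA1_xb (h : Hyp X) (hn : ∀ x ∈ X, x ∈ normalizer (A2 : Set GV) → FZ x) {u : GV}
    (hu : u ∈ X) (h3 : u ^ 3 = 1) (e : u * pe 0 1 0 = pe 0 1 0 * u) : u ∈ A2 := by
  have ez : pe 0 0 1 * pe 0 1 0 = pe 0 1 0 * pe 0 0 1 := by rw [pe_mul, pe_mul]; simp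
  let S : Subgroup GV := closure {g : GV | g * pe 0 1 0 = pe 0 1 0 * g ∧ g ^ 3 = 1}
  obtain ⟨y, hy, k⟩ := h.conj (T := X ⊓ S) inf_le_left (NA1_ch.pgrp.to_inf_right)
  obtain ⟨a1, b1, c1, e1⟩ := k u ⟨hu, subset_closure ⟨e, h3⟩⟩
  obtain ⟨a2, b2, c2, e2⟩ := k (pe 0 0 1) ⟨h.le (pe_mem _ _ _), subset_closure ⟨ez, pe_cube _ _ _⟩⟩
  obtain ⟨a3, b3, c3, e3⟩ := k (pe 0 1 0) ⟨h.le (pe_mem _ _ _), subset_closure ⟨rfl, pe_cube _ _ _⟩⟩
  have u2 := (cu_A1 (a := 0) (c := 1) (.inr one_ne_zero)).conj y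
  have u3 := (cu_A2 (b := 1) (c := 0) (.inl one_ne_zero)).conj y
  rw [e2] at u2
  rw [e3] at u3
  have q1 := NA1_cc (y := y) e
  have q2 := NA1_cc (y := y) ez
  rw [e1, e3] at q1
  rw [e2, e3] at q2
  have nrm : y * pe 0 1 0 * y⁻¹ ∈ A2 → y * pe 0 0 1 * y⁻¹ ∈ A2 → y ∈ normalizer (A2 : Set GV) := fun m1 m2 =>
    mem_normalizer_fintype fun n hn => NA1_gen (H := A2.comap (MulAut.conj y).toMonoidHom) m1 m2 hn
  rcases u3.pe with ⟨-, -, w3⟩ | ⟨rfl, hb, -⟩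
  · exfalso
    rcases u2.pe with ⟨-, -, w2⟩ | ⟨rfl, hb, w2⟩
    · have t : y zv = y (sq 1 0) ∨ y zv = y (-sq 1 0) := by
        rw [map_neg]
        rcases w2 with w2 | w2 <;> rcases w3 with w3 | w3 <;> simp [w2, w3]
      rcases t with t | t <;> exact absurd (y.injective t) (by decide)
    · have fz := hn y hy (nrm (e3 ▸ NA1_comm hb q2.symm) (e2 ▸ ⟨_, _, rfl⟩))
      have t : ∀ b c : F, b ≠ 0 → zv ≠ sq b c ∧ zv ≠ -sq b c ∧ -zv ≠ sq b c ∧ -zv ≠ -sq b c := by decide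
      obtain ⟨t1, t2, t3, t4⟩ := t b2 c2 hb
      rcases fz with f | f <;> rcases w2 with w2 | w2 <;> rw [f] at w2 <;> contradiction
  · have hy2 := nrm (e3 ▸ ⟨_, _, rfl⟩) (e2 ▸ NA1_comm hb q2)
    exact (mem_normalizer_iff.1 hy2 u).2 (e1 ▸ NA1_comm hb q1)

theorem nc1 (h : Hyp X) (hn : ∀ x ∈ X, x ∈ normalizer (A2 : Set GV) → FZ x) {b c : F} (hb : b ≠ 0) {u : GV}
    (hu : u ∈ X) (h3 : u ^ 3 = 1) (e : u * pe 0 b c = pe 0 b c * u) : u ∈ A2 := by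
  have hp : pe (-c * b) 0 0 ∈ X := h.le (pe_mem _ _ _)
  have q := NA1_cc (y := pe (-c * b) 0 0) e
  have e1 : pe (-c * b) 0 0 * pe 0 b c * (pe (-c * b) 0 0)⁻¹ = pe 0 b 0 := by
    rw [pe_inv, pe_mul, pe_mul]
    clear q hp e
    congr 1 <;> revert b c <;> decide
  rw [e1] at q
  have m : pe (-c * b) 0 0 * u * (pe (-c * b) 0 0)⁻¹ ∈ A2 := by
    refine NA1_xb h hn (mul_mem (mul_mem hp hu) (inv_mem hp)) (NA1_cube h3) ?_
    rcases f3 b with rfl | rfl | rfl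
    · exact absurd rfl hb
    · exact q
    · have e2 : pe 0 1 0 = (pe 0 (-1) 0)⁻¹ := by rw [pe_inv]; simp
      rw [e2]
      exact (Commute.inv_right q).eq
  obtain ⟨b1, c1, e2⟩ := m
  have e3 : u = (pe (-c * b) 0 0)⁻¹ * pe 0 b1 c1 * pe (-c * b) 0 0 := by rw [← e2]; group
  rw [e3, pe_inv, pe_mul, pe_mul]
  exact ⟨_, _, by rw [add_zero, neg_add_cancel]⟩

theorem nc3 (h : Hyp X) (hn : ∀ x ∈ X, x ∈ normalizer (A2 : Set GV) → FZ x) {b c : F} (hb : b ≠ 0) {g : GV}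
    (hg : g ∈ X) (e : g * pe 0 b c * g⁻¹ ∈ PP) : FZ g := by
  obtain ⟨a1, b1, c1, e1⟩ := e
  have u1 := (cu_A2 (b := b) (c := c) (.inl hb)).conj g
  rw [e1] at u1
  have k : ∀ a' b' c' : F, pe a' b' c' * pe a1 b1 c1 = pe a1 b1 c1 * pe a' b' c' →
      g⁻¹ * pe a' b' c' * g⁻¹⁻¹ ∈ A2 := by
    intro a' b' c' q
    refine nc1 h hn (c := c) hb (mul_mem (mul_mem (inv_mem hg) (h.le (pe_mem _ _ _))) (inv_mem (inv_mem hg)))
      (NA1_cube (pe_cube _ _ _)) ?_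
    have q' := NA1_cc (y := g⁻¹) q
    rwa [← e1, show g⁻¹ * (g * pe 0 b c * g⁻¹) * g⁻¹⁻¹ = pe 0 b c by group] at q'
  suffices FZ g⁻¹ by simpa using this.inv
  rcases u1.pe with ⟨rfl, -, -⟩ | ⟨rfl, -, -⟩
  · have K : ∀ a' c' c'' : F, (a' ≠ 0 ∨ c' ≠ 0) → g⁻¹ * pe a' 0 c' * g⁻¹⁻¹ = pe 0 0 c'' → FZ g⁻¹ := by
      intro a' c' c'' ne q
      have u2 := (cu_A1 ne).conj g⁻¹
      rw [q] at u2
      rcases u2.pe with ⟨-, -, w⟩ | ⟨-, w, -⟩
      · exact w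
      · exact absurd rfl w
    obtain ⟨b2, c2, e2⟩ := k 1 0 0 (by rw [pe_mul, pe_mul]; congr 1 <;> ring)
    obtain ⟨b3, c3, e3⟩ := k 0 0 1 (by rw [pe_mul, pe_mul]; congr 1 <;> ring)
    obtain ⟨b4, c4, e4⟩ := k 0 0 (-1) (by rw [pe_mul, pe_mul]; congr 1 <;> ring)
    have mul : ∀ p q : GV, g⁻¹ * (p * q) * g⁻¹⁻¹ = g⁻¹ * p * g⁻¹⁻¹ * (g⁻¹ * q * g⁻¹⁻¹) := fun p q => by group
    have s1 : pe 1 0 1 = pe 1 0 0 * pe 0 0 1 := by rw [pe_mul]; simp
    have s2 : pe 1 0 (-1) = pe 1 0 0 * pe 0 0 (-1) := by rw [pe_mul]; simp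
    have s3 : pe 0 0 0 = pe 0 0 1 * pe 0 0 (-1) := by rw [pe_mul]; simp
    have z34 : b3 + b4 = 0 := by
      have q := mul (pe 0 0 1) (pe 0 0 (-1))
      rw [← s3, e3, e4, pe_mul, pe_zero, mul_one, mul_inv_cancel, ← pe_zero] at q
      exact (pe_inj q).2.1.symm
    have t : ∀ b2 b3 b4 : F, b3 + b4 = 0 → b2 = 0 ∨ b3 = 0 ∨ b2 + b3 = 0 ∨ b2 + b4 = 0 := by decide
    rcases t b2 b3 b4 z34 with rfl | rfl | t | t
    · exact K 1 0 _ (.inl one_ne_zero) e2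
    · exact K 0 1 _ (.inr one_ne_zero) e3
    · exact K 1 1 _ (.inl one_ne_zero) (by rw [s1, mul, e2, e3, pe_mul, t, add_zero])
    · exact K 1 (-1) _ (.inl one_ne_zero) (by rw [s2, mul, e2, e4, pe_mul, t, add_zero])
  · refine hn _ (inv_mem hg) (mem_normalizer_fintype ?_)
    rintro _ ⟨b', c', rfl⟩
    exact k 0 b' c' (by rw [pe_mul, pe_mul]; congr 1 <;> ring)

theorem fix1 (h : Hyp X) (hn : ∀ x ∈ X, x ∈ normalizer (A2 : Set GV) → FZ x) {v : V} (hv : v ∈ Om X) {a b c : F}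
    (h0 : a = 0 ∨ b = 0) (h1 : a ≠ 0 ∨ b ≠ 0 ∨ c ≠ 0) (e : pe a b c v = v) : v = zv ∨ v = -zv := by
  obtain ⟨g, hg, w⟩ := hv
  have m : g⁻¹ * pe a b c * g⁻¹⁻¹ ∈ KZ X := by
    refine ⟨mul_mem (mul_mem (inv_mem hg) (h.le (pe_mem _ _ _))) (inv_mem (inv_mem hg)), .inl ?_⟩
    rw [inv_inv, gmul, gmul]
    rcases w with w | w
    · rw [w, e, ← w, ginv]
    · rw [w, map_neg, e, ← w, ginv]
  have h3 : (g⁻¹ * pe a b c * g⁻¹⁻¹) ^ 3 = 1 := NA1_cube (pe_cube _ _ _)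
  obtain ⟨k, hk, q⟩ := h.kz.conj (T := zpowers (g⁻¹ * pe a b c * g⁻¹⁻¹)) (zpowers_le.2 m) (by
    rintro ⟨_, n, rfl⟩
    refine ⟨1, Subtype.ext ?_⟩
    show ((g⁻¹ * pe a b c * g⁻¹⁻¹) ^ n) ^ 3 ^ 1 = 1
    rw [pow_one, ← zpow_natCast, ← zpow_mul, mul_comm, zpow_mul, zpow_natCast, h3, one_zpow])
  have q1 := q _ (mem_zpowers _)
  rw [show k * (g⁻¹ * pe a b c * g⁻¹⁻¹) * k⁻¹ = k * g⁻¹ * pe a b c * (k * g⁻¹)⁻¹ by group] at q1
  have hx : k * g⁻¹ ∈ X := mul_mem hk.1 (inv_mem hg)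
  have fz : FZ (k * g⁻¹) := by
    by_cases hb : b = 0
    · subst hb
      obtain ⟨a1, b1, c1, e1⟩ := q1
      have u := (cu_A1 (a := a) (c := c) (by simpa using h1)).conj (k * g⁻¹)
      rw [e1] at u
      rcases u.pe with ⟨-, -, w⟩ | ⟨rfl, hb, -⟩
      · exact w
      · have := nc3 h hn (c := c1) hb (inv_mem hx) (by
          rw [← e1, show (k * g⁻¹)⁻¹ * (k * g⁻¹ * pe a 0 c * (k * g⁻¹)⁻¹) * (k * g⁻¹)⁻¹⁻¹ = pe a 0 c by group]
          exact pe_mem _ _ _)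
        simpa using this.inv
    · obtain rfl := h0.resolve_right hb
      exact nc3 h hn hb hx q1
  have fg : FZ g := by
    have := fz.inv.mul hk.2
    rwa [show (k * g⁻¹)⁻¹ * k = g by group] at this
  rcases fg with f | f <;> rcases w with w | w <;> rw [f] at w
  · exact .inl w.symm
  · exact .inr (neg_eq_iff_eq_neg.1 w.symm)
  · exact .inr w.symm
  · exact .inl (neg_injective w).symm

end Cfsg.Agent.C3X
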