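import Cfsg.Agent.C3X.KB1

set_option autoImplicit false

namespace Cfsg.Agent.C3X

open Subgroup

variable {X : Subgroup GV}

namespace NA2a

open Module

/-- two `3`-elements of a subgroup lie, up to conjugacy, in one `3`-subgroup -/
theorem two_syl {G : Type*} [Group G] [Finite G] {C : Subgroup G} {a b : G} (ha : a ∈ C) (hb : b ∈ C)
    (a3 : a ^ 3 = 1) (b3 : b ^ 3 = 1) :
    ∃ c ∈ C, ∃ R : Subgroup G, R ≤ C ∧ IsPGroup 3 R ∧ c * a * c⁻¹ ∈ R ∧ b ∈ R := by
  have k : ∀ x : C, x ^ 3 = 1 → ∃ Q : Sylow 3 C, x ∈ (Q : Subgroup C) := fun x hx => by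
    have : IsPGroup 3 (zpowers x) := by
      rintro ⟨_, n, rfl⟩
      refine ⟨1, Subtype.ext ?_⟩
      change (x ^ n) ^ 3 ^ 1 = 1
      rw [pow_one, ← zpow_natCast, ← zpow_mul, mul_comm, zpow_mul, zpow_natCast, hx, one_zpow]
    obtain ⟨Q, hQ⟩ := this.exists_le_sylow
    exact ⟨Q, hQ (mem_zpowers x)⟩
  obtain ⟨Q, hQ⟩ := k ⟨a, ha⟩ (Subtype.ext a3)
  obtain ⟨Q', hQ'⟩ := k ⟨b, hb⟩ (Subtype.ext b3)
  obtain ⟨y, hy⟩ := MulAction.exists_smul_eq C Q Q'
  refine ⟨y, y.2, (Q' : Subgroup C).map C.subtype, map_subtype_le _, Q'.2.map _, ?_, ⟨_, hQ', rfl⟩⟩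
  have : y * ⟨a, ha⟩ * y⁻¹ ∈ (Q' : Subgroup C) := by
    rw [← hy]
    exact Subgroup.smul_mem_pointwise_smul _ (MulAut.conj y) _ hQ
  exact ⟨_, this, rfl⟩

/-- the span of `12, 13` -/
def jm : (F × F) →ₗ[F] V where
  toFun y := ![0, y.1, y.2, 0, 0, 0]
  map_add' y z := by refine v_ext ?_ ?_ ?_ ?_ ?_ ?_ <;> simp
  map_smul' k y := by refine v_ext ?_ ?_ ?_ ?_ ?_ ?_ <;> simp

theorem jm_apply (y : F × F) : jm y = ![0, y.1, y.2, 0, 0, 0] := rfl

theorem jm_inj : Function.Injective jm := fun _ _ e => Prod.ext (congrFun e 1) (congrFun e 2)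

theorem ss_jm (y : F × F) : ss (jm y) = -jm y := by
  refine v_ext ?_ ?_ ?_ ?_ ?_ ?_ <;> simp [ss, sg, jm_apply]

theorem two_zero {k : F} (h : k = -k) : k = 0 := by revert k; decide

theorem of_ss {v : V} (h : ss v = -v) : v = jm (v 1, v 2) := by
  have h0 := congrFun h 0
  have h3 := congrFun h 3
  have h4 := congrFun h 4
  have h5 := congrFun h 5
  simp only [ss, tor0, tor3, tor4, tor5, sg, Pi.neg_apply, Bool.false_eq_true, if_false, one_mul] at h0 h3 h4 h5
  refine v_ext ?_ ?_ ?_ ?_ ?_ ?_ <;> simp [jm_apply, two_zero h0, two_zero h3, two_zero h4, two_zero h5]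

theorem ss_eq (v : V) : ss v = v + jm (v 1, v 2) := by
  have k : ∀ x : F, -x = x + x := by decide
  refine v_ext ?_ ?_ ?_ ?_ ?_ ?_ <;> simp [ss, sg, jm_apply, k, add_mul]

theorem pe_jm (i : F) (y : F × F) : pe 0 i 0 (jm y) = jm (y.1 + i * y.2, y.2) := by
  refine v_ext ?_ ?_ ?_ ?_ ?_ ?_ <;> simp [jm_apply]

theorem mat {g : GV} (e : g * ss = ss * g) :
    ∃ p q r s : F, ∀ y : F × F, g (jm y) = jm (p * y.1 + r * y.2, q * y.1 + s * y.2) := by
  have k : ∀ y, g (jm y) = jm (g (jm y) 1, g (jm y) 2) := fun y =>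
    of_ss (by rw [← gmul, ← e, gmul, ss_jm, map_neg])
  refine ⟨g (jm (1, 0)) 1, g (jm (1, 0)) 2, g (jm (0, 1)) 1, g (jm (0, 1)) 2, fun y => ?_⟩
  have : y = y.1 • ((1, 0) : F × F) + y.2 • ((0, 1) : F × F) := by ext <;> simp
  rw [k y]
  congr 1
  conv_lhs => rw [this]
  simp only [map_add, map_smul, Pi.add_apply, Pi.smul_apply, smul_eq_mul]
  ext <;> simp [mul_comm]

/-- the action of `g * pe 0 i 0` on pairs -/
def fm (p q r s i : F) (y : F × F) : F × F := (p * (y.1 + i * y.2) + r * y.2, q * (y.1 + i * y.2) + s * y.2)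

theorem fm_dec : ∀ p q r s : F, (∀ i : F, ∀ y : F × F, fm p q r s i (fm p q r s i (fm p q r s i y)) = y) →
    p = 1 ∧ q = 0 ∧ s = 1 := by decide +kernel

/-- a non-trivial element of `PP` fixes a subspace of dimension at most three -/
theorem fix3 {a b c : F} (h : pe a b c ≠ 1) :
    ∃ i j k : Fin 6, ∀ v : V, pe a b c v = v → v i = 0 → v j = 0 → v k = 0 → v = 0 := by
  by_cases hb : b = 0
  · by_cases ha : a = 0
    · have hc : c ≠ 0 := by
        rintro rfl
        exact h (by rw [ha, hb, pe_zero])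
      subst ha hb
      refine ⟨0, 1, 3, fun v e h0 h1 h3 => ?_⟩
      have e2 := congrFun e 2
      have e1 := congrFun e 1
      have e0 := congrFun e 0
      simp only [pe0, pe1, pe2] at e0 e1 e2
      have h5 : v 5 = 0 := (mul_eq_zero.1 (show c * v 5 = 0 by linear_combination e2)).resolve_left hc
      have h4 : v 4 = 0 := (mul_eq_zero.1 (show c * v 4 = 0 by linear_combination e1)).resolve_left hc
      have h2 : v 2 = 0 := (mul_eq_zero.1 (show c * v 2 = 0 by
        rw [h5] at e0; linear_combination (-1) * e0 + c * v 2 * three)).resolve_left hc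
      exact v_ext h0 h1 h2 h3 h4 h5
    · subst hb
      refine ⟨0, 2, 5, fun v e h0 h2 h5 => ?_⟩
      have e2 := congrFun e 2
      have e1 := congrFun e 1
      have e0 := congrFun e 0
      simp only [pe0, pe1, pe2] at e0 e1 e2
      have h4 : v 4 = 0 := (mul_eq_zero.1 (show a * v 4 = 0 by
        rw [h5] at e2; linear_combination e2)).resolve_left ha
      have h3 : v 3 = 0 := (mul_eq_zero.1 (show a * v 3 = 0 by
        rw [h4] at e1; linear_combination e1)).resolve_left ha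
      have h1 : v 1 = 0 := (mul_eq_zero.1 (show a * v 1 = 0 by
        rw [h2, h3, h4, h5] at e0; linear_combination (-1) * e0 + a * v 1 * three)).resolve_left ha
      exact v_ext h0 h1 h2 h3 h4 h5
  · refine ⟨0, 1, 3, fun v e h0 h1 h3 => ?_⟩
    have e4 := congrFun e 4
    have e3 := congrFun e 3
    have e1 := congrFun e 1
    simp only [pe1, pe3, pe4] at e1 e3 e4
    have h5 : v 5 = 0 := (mul_eq_zero.1 (show b * v 5 = 0 by linear_combination e4)).resolve_left hb
    have h4 : v 4 = 0 := (mul_eq_zero.1 (show b * v 4 = 0 by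
      rw [h5] at e3; linear_combination (-1) * e3 + b * v 4 * three)).resolve_left hb
    have h2 : v 2 = 0 := (mul_eq_zero.1 (show b * v 2 = 0 by
      rw [h3, h4, h5] at e1; linear_combination e1)).resolve_left hb
    exact v_ext h0 h1 h2 h3 h4 h5

theorem rk (N : V →ₗ[F] V) (S : Submodule F V) :
    finrank F S = finrank F (S.map N) + finrank F (LinearMap.ker N ⊓ S : Submodule F V) := by
  rw [← LinearMap.finrank_range_add_finrank_ker (N.domRestrict S), LinearMap.range_domRestrict,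
    LinearMap.ker_domRestrict]
  congr 1
  rw [← Submodule.finrank_map_subtype_eq, Submodule.map_comap_subtype, inf_comm]

theorem triv (h : Hyp X) {w : GV} (hw : w ∈ X) (h3 : w ^ 3 = 1) (e : w * ss = ss * w)
    (hj : ∀ y, w (jm y) = jm y) : w = 1 := by
  by_contra h1
  have hp : IsPGroup 3 (zpowers w) := by
    rintro ⟨_, n, rfl⟩
    refine ⟨1, Subtype.ext ?_⟩
    change (w ^ n) ^ 3 ^ 1 = 1
    rw [pow_one, ← zpow_natCast, ← zpow_mul, mul_comm, zpow_mul, zpow_natCast, h3, one_zpow]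
  obtain ⟨y, -, hy⟩ := h.conj (zpowers_le.2 hw) hp
  obtain ⟨a, b, c, e1⟩ := hy w (mem_zpowers w)
  obtain ⟨i, j, k, hk⟩ := fix3 (a := a) (b := b) (c := c) (by
    rw [← e1]
    intro e2
    exact h1 (by simpa using e2))
  set N : V →ₗ[F] V := (w : V →ₗ[F] V) - LinearMap.id with hN
  have Na : ∀ v, N v = w v - v := fun _ => rfl
  have K3 : finrank F (LinearMap.ker N) ≤ 3 := by
    let π : V →ₗ[F] (Fin 3 → F) := (LinearMap.funLeft F F ![i, j, k]).comp (y : V →ₗ[F] V)
    have inj : Function.Injective (π.domRestrict (LinearMap.ker N)) := by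
      rw [← LinearMap.ker_eq_bot, eq_bot_iff]
      rintro ⟨v, hv⟩ h0
      have h0' : π v = 0 := h0
      have : y v = 0 := hk (y v) (by
        rw [← e1, gmul, gmul, ginv, sub_eq_zero.1 ((Na v).symm.trans hv)])
        (congrFun h0' 0) (congrFun h0' 1) (congrFun h0' 2)
      exact Subtype.ext (y.map_eq_zero_iff.1 this)
    simpa using LinearMap.finrank_le_finrank_of_injective inj
  let Jp : Submodule F V := LinearMap.ker ((ss : V →ₗ[F] V) - LinearMap.id)
  have mJ : ∀ v, v ∈ Jp ↔ ss v = v := fun v => sub_eq_zero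
  have NJ : ∀ v, N v ∈ Jp := fun v => by
    rw [mJ, Na, map_sub, ← gmul, ← e, gmul, ss_eq v, map_add, hj]
    abel
  have N3 : ∀ v, N (N (N v)) = 0 := fun v => by
    have e3 : w (w (w v)) = v := by rw [← gmul, ← gmul, ← pow_three', h3, gone]
    simp only [Na, map_sub, e3]
    linear_combination (norm := skip) v3 (w v - w (w v))
    abel
  have K1 : finrank F (LinearMap.ker N ⊓ Jp : Submodule F V) ≤ 1 := by
    have d : LinearMap.range jm ⊓ (LinearMap.ker N ⊓ Jp) = ⊥ := by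
      rw [eq_bot_iff]
      rintro _ ⟨⟨z, rfl⟩, -, hz⟩
      have hz' := (mJ _).1 hz
      rw [ss_jm] at hz'
      have z1 := two_zero (congrFun hz' 1).symm
      have z2 := two_zero (congrFun hz' 2).symm
      have : z = 0 := Prod.ext z1 z2
      rw [this, map_zero]
      exact zero_mem _
    have s := Submodule.finrank_sup_add_finrank_inf_eq (LinearMap.range jm) (LinearMap.ker N ⊓ Jp)
    have l : LinearMap.range jm ⊔ (LinearMap.ker N ⊓ Jp) ≤ LinearMap.ker N := sup_le (by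
      rintro _ ⟨z, rfl⟩
      rw [LinearMap.mem_ker, Na, hj, sub_self]) inf_le_left
    have := Submodule.finrank_mono l
    rw [d, finrank_bot, LinearMap.finrank_range_of_inj jm_inj] at s
    simp only [finrank_prod, finrank_self] at s
    omega
  have r0 := rk N ⊤
  have r1 := rk N ((⊤ : Submodule F V).map N)
  have l1 : LinearMap.ker N ⊓ (⊤ : Submodule F V).map N ≤ LinearMap.ker N ⊓ Jp := inf_le_inf_left _ (by
    rintro _ ⟨v, -, rfl⟩
    exact NJ v)
  have l2 : ((⊤ : Submodule F V).map N).map N ≤ LinearMap.ker N ⊓ Jp := by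
    rintro _ ⟨_, ⟨v, -, rfl⟩, rfl⟩
    exact ⟨N3 v, NJ _⟩
  have m1 := Submodule.finrank_mono l1
  have m2 := Submodule.finrank_mono l2
  rw [inf_top_eq, finrank_top] at r0
  have : finrank F V = 6 := by simp
  omega

end NA2a

open NA2a

theorem sylC (h : Hyp X) {u : GV} (hu : u ∈ X) (h3 : u ^ 3 = 1) (h1 : u ≠ 1) (e : u * ss = ss * u) :
    ∃ c ∈ X, c * ss = ss * c ∧ (c * u * c⁻¹ = pe 0 1 0 ∨ c * u * c⁻¹ = pe 0 (-1) 0) := by
  have sb : ∀ i : F, pe 0 i 0 * ss = ss * pe 0 i 0 := fun i => by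
    have := tor_pe true false false 0 i 0
    rw [mul_inv_eq_iff_eq_mul] at this
    rw [ss, this]
    simp [sg]
  obtain ⟨c, hc, R, RC, pR, uR, bR⟩ := two_syl (C := X ⊓ centralizer {ss}) (a := u) (b := pe 0 1 0)
    ⟨hu, mem_centralizer_singleton_iff.2 e⟩ ⟨h.le (pe_mem _ _ _), mem_centralizer_singleton_iff.2 (sb 1)⟩
    h3 (pe_cube _ _ _)
  refine ⟨c, hc.1, mem_centralizer_singleton_iff.1 hc.2, ?_⟩
  have g1 : c * u * c⁻¹ ≠ 1 := fun k => h1 (by simpa using k)
  generalize c * u * c⁻¹ = g at uR g1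
  have iR : ∀ i : F, pe 0 i 0 ∈ R := fun i => by
    rcases f3 i with rfl | rfl | rfl
    · rw [pe_zero]
      exact one_mem _
    · exact bR
    · simpa [pe_inv] using inv_mem bR
  have ex := h.exp3 (RC.trans inf_le_left) pR
  obtain ⟨p, q, r, s, hm⟩ := mat (mem_centralizer_singleton_iff.1 (RC uR).2)
  have k : ∀ i y, (g * pe 0 i 0) (jm y) = jm (fm p q r s i y) := fun i y => by
    rw [gmul, pe_jm, hm]
    rfl
  obtain ⟨rfl, rfl, rfl⟩ := fm_dec p q r s fun i y => jm_inj (by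
    rw [← k, ← k, ← k, ← gmul, ← gmul, ← pow_three', ex _ (mul_mem uR (iR i)), gone])
  have wR := mul_mem uR (iR (-r))
  have w1 := triv h (RC wR).1 (ex _ wR) (mem_centralizer_singleton_iff.1 (RC wR).2) fun y => by
    rw [k]
    congr 1
    ext <;> simp [fm]
  have e1 : g = pe 0 r 0 := by
    rw [eq_inv_of_mul_eq_one_left w1, pe_inv]
    simp
  rcases f3 r with rfl | rfl | rfl
  · exact absurd (e1.trans pe_zero) g1
  · exact .inl e1
  · exact .inr e1

end Cfsg.Agent.C3X
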