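import Cfsg.Agent.C3X.NA1
import Cfsg.Agent.C3X.NA2a

set_option autoImplicit false

namespace Cfsg.Agent.C3X

open Subgroup

variable {X : Subgroup GV}

theorem NA2.comm {a b : GV} (ha : a ∈ A1) (hb : b ∈ A1) : a * b = b * a := by
  obtain ⟨a, c, rfl⟩ := ha
  obtain ⟨a', c', rfl⟩ := hb
  rw [pe_mul, pe_mul]
  congr 1 <;> ring

/-- an involution fixing the point commutes with a nontrivial element of the Sylow subgroup -/
theorem NA2.cent (h : Hyp X) {s : GV} (hs : s ∈ X) (s2 : s * s = 1) (hz : FZ s) :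
    ∃ u ∈ PP, u ≠ 1 ∧ s * u * s⁻¹ = u := by
  have hA := kA1 h hs hz
  have si : s⁻¹ = s := inv_eq_of_mul_eq_one_left s2
  have tw : ∀ a : GV, s * (s * a * s⁻¹) * s⁻¹ = a := fun a => by
    rw [si]
    calc _ = (s * s) * a * (s * s) := by group
      _ = a := by rw [s2, one_mul, mul_one]
  by_cases hc : ∃ a ∈ A1, a * (s * a * s⁻¹) ≠ 1
  · obtain ⟨a, ha, hne⟩ := hc
    have ha' : s * a * s⁻¹ ∈ A1 := (mem_normalizer_iff.1 hA a).1 ha
    refine ⟨_, A1_le (mul_mem ha ha'), hne, ?_⟩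
    rw [NA2.comm ha ha']
    calc _ = s * (s * a * s⁻¹) * s⁻¹ * (s * a * s⁻¹) := by group
      _ = _ := by rw [tw, NA2.comm ha ha']
  · have hi : ∀ a ∈ A1, s * a * s⁻¹ = a⁻¹ := fun a ha =>
      eq_inv_of_mul_eq_one_right (by_contra fun c => hc ⟨a, ha, c⟩)
    have hP := nZ h hs (Or.inr (by rw [hi _ ⟨0, 1, rfl⟩, pe_inv]; congr 1))
    obtain ⟨a, b, c, e⟩ : s * pe 0 1 0 * s⁻¹ ∈ PP := (mem_normalizer_iff.1 hP _).1 (pe_mem 0 1 0)
    have e1 : pe 0 1 0 * pe (-1) 0 0 * (pe 0 1 0)⁻¹ = pe (-1) 0 1 := by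
      rw [pe_inv, pe_mul, pe_mul]; congr 1
    have e2 : s * pe (-1) 0 0 * s⁻¹ = pe 1 0 0 := by rw [hi _ ⟨_, _, rfl⟩, pe_inv]; congr 1
    have e3 : pe a b c * pe 1 0 0 * (pe a b c)⁻¹ = (pe (-1) 0 1)⁻¹ := by
      rw [← hi _ ⟨_, _, rfl⟩, ← e1, ← e, ← e2]; group
    rw [pe_inv, pe_inv, pe_mul, pe_mul] at e3
    have hb : b = 1 := by linear_combination -(pe_inj e3).2.2
    subst hb
    refine ⟨pe 0 1 0 * (pe a 0 c)⁻¹, mul_mem (pe_mem ..) (inv_mem (pe_mem ..)), fun k => ?_, ?_⟩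
    · rw [pe_inv, pe_mul, ← pe_zero] at k
      exact absurd (pe_inj k).2.1 (by decide)
    · calc _ = s * pe 0 1 0 * s⁻¹ * (s * pe a 0 c * s⁻¹)⁻¹ := by group
        _ = _ := by
          rw [e, hi _ ⟨_, _, rfl⟩, inv_inv, pe_inv, pe_mul, pe_mul]
          congr 1
          · linear_combination a * three
          · linear_combination c * three

theorem NA2.ss2 : ss * ss = 1 := by rw [ss, tor_mul]; exact tor_one

theorem trs (h : Hyp X) (hn : ∀ x ∈ X, x ∈ normalizer (A2 : Set GV) → FZ x) (hs : ss ∈ X) {v : V} (hv : v ∈ Om X)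
    (e : ss v = v) : ∃ c ∈ X, c * ss = ss * c ∧ (c v = zv ∨ c v = -zv) := by
  obtain ⟨x, hx, hxv⟩ := id hv
  have e1 : ss (x zv) = x zv := by
    rcases hxv with k | k <;> rw [k]
    · exact e
    · rw [map_neg, e]
  obtain ⟨u, hu, u1, us⟩ := NA2.cent h (s := x⁻¹ * ss * x) (mul_mem (mul_mem (inv_mem hx) hs) hx)
    (by calc _ = x⁻¹ * (ss * ss) * x := by group
          _ = 1 := by rw [NA2.ss2]; group)
    (Or.inl (by rw [gmul, gmul, e1, ginv]))
  have uX := h.le hu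
  obtain ⟨a, b, c, rfl⟩ := hu
  have e2 : (x * pe a b c * x⁻¹) v = v := by
    have k : (x * pe a b c * x⁻¹) (x zv) = x zv := by rw [gmul, gmul, ginv, pe_zv]
    rcases hxv with k' | k' <;> rw [k'] at k
    · exact k
    · rw [map_neg] at k; exact neg_injective k
  obtain ⟨d, hd, ds, e3⟩ := sylC h (u := x * pe a b c * x⁻¹) (mul_mem (mul_mem hx uX) (inv_mem hx))
    (by rw [conj_pow, pe_cube, mul_one, mul_inv_cancel]) (fun k => u1 (by simpa using k)) (by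
      calc _ = x * (x⁻¹ * ss * x * pe a b c * (x⁻¹ * ss * x)⁻¹) * x⁻¹ * ss := by rw [us]
        _ = _ := by group)
  have e4 : (d * (x * pe a b c * x⁻¹) * d⁻¹) (d v) = d v := by rw [gmul, gmul, ginv, e2]
  refine ⟨d, hd, ds, ?_⟩
  rcases e3 with k | k <;> rw [k] at e4
  · exact fix1 h hn (Om.act hd hv) (Or.inl rfl) (Or.inr (Or.inl (by decide))) e4
  · exact fix1 h hn (Om.act hd hv) (Or.inl rfl) (Or.inr (Or.inl (by decide))) e4

theorem bad (h : Hyp X) (hn : ∀ x ∈ X, x ∈ normalizer (A2 : Set GV) → FZ x) (hs : ss ∈ X) {M y : V} (hM : M ∈ Om X)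
    (e : ss M = M) (hy : y ≠ 0) (e' : ss y = -y) : M + y ∉ Om X := by
  intro hv
  obtain ⟨c, hc, cs, e1⟩ := trs h hn hs hM e
  have e2 : ss (c y) = -c y := by rw [← gmul, ← cs, gmul, e', map_neg]
  have n : c y ≠ 0 := fun k => hy (c.injective (k.trans (map_zero c).symm))
  have hv' := Om.act hc hv
  rw [map_add] at hv'
  generalize c y = w at e2 n hv'
  have z : ∀ k : F, k = -k → k = 0 := by decide
  have w0 : w 0 = 0 := z _ (by simpa [ss, tor0, sg] using congrFun e2 0)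
  have w3 : w 3 = 0 := z _ (by simpa [ss, tor3, sg] using congrFun e2 3)
  have w4 : w 4 = 0 := z _ (by simpa [ss, tor4, sg] using congrFun e2 4)
  have w5 : w 5 = 0 := z _ (by simpa [ss, tor5, sg] using congrFun e2 5)
  have n1 : ¬ (w 1 = 0 ∧ w 2 = 0) := fun k => n (v_ext w0 k.1 k.2 w3 w4 w5)
  have e3 : pe (w 2) 0 (-w 1) w = w := by
    refine v_ext ?_ ?_ ?_ ?_ ?_ ?_
    · rw [pe0, w3, w4, w5]; ring
    · rw [pe1, w3, w4, w5]; ring
    · rw [pe2, w4, w5]; ring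
    · rw [pe3, w4, w5]; ring
    · rw [pe4, w5]; ring
    · rw [pe5]
  have e4 := fix1 h hn hv' (a := w 2) (b := 0) (c := -w 1) (Or.inr rfl) (by
    by_contra k
    push Not at k
    exact n1 ⟨neg_eq_zero.1 k.2.2, k.1⟩) (by
    rw [map_add, e3]
    rcases e1 with k | k <;> rw [k]
    · rw [pe_zv]
    · rw [map_neg, pe_zv])
  refine n1 ?_
  rcases e1 with k | k <;> rw [k] at e4 <;> rcases e4 with l | l <;>
    exact ⟨by simpa [zv] using congrFun l 1, by simpa [zv] using congrFun l 2⟩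

end Cfsg.Agent.C3X
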