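/-
Project C3X: normalising the normaliser of the Sylow subgroup.
-/
import Cfsg.Agent.C3X.KB2
import Cfsg.Agent.H1.SZConj
import Mathlib.GroupTheory.SchurZassenhaus
import Mathlib.GroupTheory.Nilpotent

set_option autoImplicit false

namespace Cfsg.Agent.C3X

open Subgroup

variable {X : Subgroup GV}

/-- the conjugate `θ X θ⁻¹` -/
def cjX (θ : GV) (X : Subgroup GV) : Subgroup GV := X.comap (MulAut.conj θ⁻¹).toMonoidHom

theorem mem_cjX {θ g : GV} : g ∈ cjX θ X ↔ θ⁻¹ * g * θ ∈ X := by simp [cjX]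

theorem Hyp.cjX (h : Hyp X) {θ : GV} (hθ : θ ∈ normalizer (PP : Set GV)) : Hyp (cjX θ X) := by
  refine ⟨fun g hg => mem_cjX.2 (h.le ?_), ?_⟩
  · simpa using (mem_normalizer_iff.1 (inv_mem hθ) g).1 hg
  · rw [C3X.cjX, comap_equiv_eq_map_symm', card_map_of_injective (MulEquiv.injective _)]
    exact h.syl

namespace NrmB

/-- trivial on the radical layers -/
def Un (g : GV) : Prop := ∀ v : V, g v 5 = v 5 ∧ (v 5 = 0 → g v 4 = v 4 ∧ (v 4 = 0 → g v 3 = v 3 ∧ g v 2 = v 2 ∧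
  (v 3 = 0 → v 2 = 0 → g v 1 = v 1 ∧ (v 1 = 0 → g v 0 = v 0))))

theorem dec (v : V) : v = v 0 • ![1, 0, 0, 0, 0, 0] + v 1 • ![0, 1, 0, 0, 0, 0] + v 2 • ![0, 0, 1, 0, 0, 0] +
    v 3 • ![0, 0, 0, 1, 0, 0] + v 4 • ![0, 0, 0, 0, 1, 0] + v 5 • ![0, 0, 0, 0, 0, 1] := by
  refine v_ext ?_ ?_ ?_ ?_ ?_ ?_ <;> simp

theorem uni {m : GV} {c d : F} (ha : m * pe 1 0 0 * m⁻¹ = pe 1 0 c) (hb : m * pe 0 1 0 * m⁻¹ = pe 0 1 d)
    (h5 : m ![0, 0, 0, 0, 0, 1] 5 = 1) : Un m := by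
  have a : ∀ v, m (nn (pe 1 0 0) v) = nn (pe 1 0 c) (m v) := fun v => by rw [← ha, nn_conj]
  have b : ∀ v, m (nn (pe 0 1 0) v) = nn (pe 0 1 d) (m v) := fun v => by rw [← hb, nn_conj]
  have e3 : (![0, 0, 0, 1, 0, 0] : V) = -nn (pe 0 1 0) (nn (pe 0 1 0) ![0, 0, 0, 0, 0, 1]) := by decide
  have e4 : (![0, 0, 0, 0, 1, 0] : V) = nn (pe 0 1 0) ![0, 0, 0, 0, 0, 1] - ![0, 0, 0, 1, 0, 0] := by decide
  have e2 : (![0, 0, 1, 0, 0, 0] : V) = nn (pe 1 0 0) ![0, 0, 0, 0, 1, 0] := by decide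
  have e1 : (![0, 1, 0, 0, 0, 0] : V) = nn (pe 0 1 0) ![0, 0, 1, 0, 0, 0] := by decide
  have e0 : (![1, 0, 0, 0, 0, 0] : V) = -nn (pe 1 0 0) ![0, 1, 0, 0, 0, 0] := by decide
  have k3 := congrArg m e3
  have k4 := congrArg m e4
  have k2 := congrArg m e2
  have k1 := congrArg m e1
  have k0 := congrArg m e0
  rw [map_neg, b, b] at k3
  rw [map_sub, b] at k4
  rw [a] at k2
  rw [b] at k1
  rw [map_neg, a] at k0
  intro v
  rw [congrArg m (dec v)]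
  simp only [map_add, map_smul]
  generalize m ![0, 0, 0, 0, 0, 1] = w5 at *
  generalize m ![0, 0, 0, 1, 0, 0] = w3 at *
  generalize m ![0, 0, 0, 0, 1, 0] = w4 at *
  generalize m ![0, 0, 1, 0, 0, 0] = w2 at *
  generalize m ![0, 1, 0, 0, 0, 0] = w1 at *
  generalize m ![1, 0, 0, 0, 0, 0] = w0 at *
  have t := three
  have q3 : w3 = ![d * d, d, 0, 1, 0, 0] := by
    rw [k3, nn2_A2, h5]; generalize d = d; revert d; decide
  have q4 : w4 5 = 0 ∧ w4 4 = 1 := by rw [k4, q3]; simp [nn, h5]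
  have q2 : w2 5 = 0 ∧ w2 4 = 0 ∧ w2 3 = 0 ∧ w2 2 = 1 := by rw [k2]; simp [nn, q4.1, q4.2]
  have q1 : w1 5 = 0 ∧ w1 4 = 0 ∧ w1 3 = 0 ∧ w1 2 = 0 ∧ w1 1 = 1 := by
    rw [k1]; simp [nn, q2.1, q2.2.1, q2.2.2.1, q2.2.2.2]
  have q0 : w0 = ![1, 0, 0, 0, 0, 0] := by
    obtain ⟨a1, a2, a3, a4, a5⟩ := q1
    rw [k0]
    refine v_ext ?_ ?_ ?_ ?_ ?_ ?_ <;> simp [nn, a1, a2, a3, a4, a5]
    decide
  obtain ⟨a1, a2, a3, a4, a5⟩ := q1
  obtain ⟨b1, b2, b3, b4⟩ := q2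
  simp only [Pi.add_apply, Pi.smul_apply, smul_eq_mul, q0, q3, q4.1, q4.2, h5, a1, a2, a3, a4, a5, b1, b2, b3, b4]
  refine ⟨by simp, fun h5 => ⟨by simp [h5], fun h4 => ⟨by simp [h5, h4], by simp [h5, h4],
    fun h3 h2 => ⟨by simp [h5, h4, h3, h2], fun h1 => by simp [h5, h4, h3, h2, h1]⟩⟩⟩⟩

theorem tor_inv (α β σ : Bool) : (tor α β σ)⁻¹ = tor α β σ :=
  inv_eq_of_mul_eq_one_left (by rw [tor_mul]; simp [tor_one])

theorem tor_N (α β σ : Bool) : tor α β σ ∈ normalizer (PP : Set GV) :=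
  mem_normalizer_fintype fun _ ⟨a, b, c, e⟩ => e ▸ tor_pe α β σ a b c ▸ pe_mem _ _ _

theorem exists_un {n : GV} (hn : n ∈ normalizer (PP : Set GV)) : ∃ α β σ, Un (n * tor α β σ) := by
  obtain ⟨h1, h2, -, -⟩ := nP1 hn
  obtain ⟨-, -, -, h4⟩ := nP1 (inv_mem hn)
  obtain ⟨a, c, ea⟩ := (mem_normalizer_iff.1 h1 _).1 (⟨1, 0, rfl⟩ : pe 1 0 0 ∈ A1)
  obtain ⟨b, d, eb⟩ := (mem_normalizer_iff.1 h2 _).1 (⟨1, 0, rfl⟩ : pe 0 1 0 ∈ A2)
  have nc : a * b ≠ 0 := fun e => by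
    have : pe a 0 c * pe 0 b d = pe 0 b d * pe a 0 c := by
      rw [pe_mul, pe_mul, e, add_comm a, add_comm 0 b, add_comm c, zero_mul]
    rw [← ea, ← eb] at this
    have k : pe 1 0 0 * pe 0 1 0 = pe 0 1 0 * pe 1 0 0 := by
      generalize pe 1 0 0 = x at this ⊢
      generalize pe 0 1 0 = y at this ⊢
      simpa only [conj_mul, mul_left_inj, mul_right_inj] using this
    rw [pe_mul, pe_mul] at k
    exact absurd (pe_inj k).2.2 (by decide)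
  have h5 : n ![0, 0, 0, 0, 0, 1] 5 ≠ 0 := fun e => by
    have := h4 _ e
    rw [ginv] at this
    exact absurd this (by decide)
  have ia : n * pe (-1) 0 0 * n⁻¹ = pe (-a) 0 (-c) := by
    have := congrArg (·⁻¹) ea
    rw [conj_inv, pe_inv, pe_inv] at this
    simpa only [neg_zero, mul_zero, sub_zero, zero_sub] using this
  have ib : n * pe 0 (-1) 0 * n⁻¹ = pe 0 (-b) (-d) := by
    have := congrArg (·⁻¹) eb
    rw [conj_inv, pe_inv, pe_inv] at this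
    simpa only [neg_zero, zero_mul, sub_zero, zero_sub] using this
  have cj : ∀ α β σ g, n * tor α β σ * g * (n * tor α β σ)⁻¹ = n * (tor α β σ * g * (tor α β σ)⁻¹) * n⁻¹ :=
    fun _ _ _ _ => by group
  obtain ⟨α, c', hα⟩ : ∃ α c', n * pe (sg α) 0 0 * n⁻¹ = pe 1 0 c' := by
    rcases f3 a with rfl | rfl | rfl
    · simp at nc
    · exact ⟨false, c, ea⟩
    · exact ⟨true, -c, by simpa [sg] using ia⟩
  obtain ⟨β, d', hβ⟩ : ∃ β d', n * pe 0 (sg β) 0 * n⁻¹ = pe 0 1 d' := by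
    rcases f3 b with rfl | rfl | rfl
    · simp at nc
    · exact ⟨false, d, eb⟩
    · exact ⟨true, -d, by simpa [sg] using ib⟩
  obtain ⟨σ, hσ⟩ : ∃ σ, sg σ * n ![0, 0, 0, 0, 0, 1] 5 = 1 := by
    revert h5; generalize n ![0, 0, 0, 0, 0, 1] 5 = k; revert k; decide
  refine ⟨α, β, σ, uni (c := c') (d := d') (by rw [cj, tor_pe]; simpa using hα) (by rw [cj, tor_pe]; simpa using hβ) ?_⟩
  have : tor α β σ ![0, 0, 0, 0, 0, 1] = sg σ • ![0, 0, 0, 0, 0, 1] := by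
    refine v_ext ?_ ?_ ?_ ?_ ?_ ?_ <;> simp
  rw [gmul, this, map_smul]
  exact hσ

theorem Un.tor {g : GV} (h : Un g) (α β σ : Bool) : Un (tor α β σ * g * (tor α β σ)⁻¹) := fun v => by
  rw [tor_inv]
  obtain ⟨a5, k⟩ := h (C3X.tor α β σ v)
  have s := sg_sg σ
  have s1 := sg_sg α
  have s2 := sg_sg β
  refine ⟨?_, fun h5 => ?_⟩
  · simp only [gmul, tor5, a5]; linear_combination v 5 * s
  obtain ⟨a4, k⟩ := k (by simp [h5])
  refine ⟨?_, fun h4 => ?_⟩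
  · simp only [gmul, tor4, a4]; linear_combination v 4 * sg β * sg β * s + v 4 * s2
  obtain ⟨a3, a2, k⟩ := k (by simp [h4])
  refine ⟨?_, ?_, fun h3 h2 => ?_⟩
  · simp only [gmul, tor3, a3]; linear_combination v 3 * s
  · simp only [gmul, tor2, a2]
    linear_combination v 2 * sg β * sg β * sg α * sg α * s + v 2 * sg β * sg β * s1 + v 2 * s2
  obtain ⟨a1, k⟩ := k (by simp [h3]) (by simp [h2])
  refine ⟨?_, fun h1 => ?_⟩
  · simp only [gmul, tor1, a1]; linear_combination v 1 * sg α * sg α * s + v 1 * s1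
  · simp only [gmul, tor0, k (by simp [h1])]; linear_combination v 0 * s

/-- vanishing of the coordinates in a set -/
def cz (s : Set (Fin 6)) : Submodule F V where
  carrier := {v | ∀ i ∈ s, v i = 0}
  add_mem' h k i hi := by simp [h i hi, k i hi]
  zero_mem' _ _ := rfl
  smul_mem' c _ h i hi := by simp [h i hi]

theorem mem_cz {s : Set (Fin 6)} {v : V} : v ∈ cz s ↔ ∀ i ∈ s, v i = 0 := Iff.rfl

theorem ch {s : Set GV} (h : ∀ g ∈ s, Un g) : Ch s ⊤ := by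
  have c1 : Ch s (cz {1, 2, 3, 4, 5}) := .step .bot bot_le fun g hg v hv => by
    simp [mem_cz] at hv
    obtain ⟨a5, k⟩ := h g hg v
    obtain ⟨a4, k⟩ := k hv.2.2.2.2
    obtain ⟨a3, a2, k⟩ := k hv.2.2.2.1
    obtain ⟨a1, k⟩ := k hv.2.2.1 hv.2.1
    exact (Submodule.mem_bot F).2 (sub_eq_zero.2 (v_ext (k hv.1) a1 a2 a3 a4 a5))
  have c2 : Ch s (cz {2, 3, 4, 5}) := .step c1 (fun v hv i hi => hv i (.inr hi)) fun g hg v hv => by
    simp [mem_cz] at hv ⊢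
    obtain ⟨a5, k⟩ := h g hg v
    obtain ⟨a4, k⟩ := k hv.2.2.2
    obtain ⟨a3, a2, k⟩ := k hv.2.2.1
    simp [nn, a5, a4, a3, a2, (k hv.2.1 hv.1).1]
  have c3 : Ch s (cz {4, 5}) := .step c2 (fun v hv i hi => hv i (.inr (.inr hi))) fun g hg v hv => by
    simp [mem_cz] at hv ⊢
    obtain ⟨a5, k⟩ := h g hg v
    obtain ⟨a4, k⟩ := k hv.2
    obtain ⟨a3, a2, k⟩ := k hv.1
    simp [nn, a5, a4, a3, a2]
  have c4 : Ch s (cz {5}) := .step c3 (fun v hv i hi => hv i (.inr hi)) fun g hg v hv => by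
    simp [mem_cz] at hv ⊢
    obtain ⟨a5, k⟩ := h g hg v
    simp [nn, a5, (k hv).1]
  exact .step c4 le_top fun g hg v _ => by simp [mem_cz, nn, (h g hg v).1]

/-- the torus -/
def TT : Subgroup GV where
  carrier := {g | ∃ α β σ, g = tor α β σ}
  one_mem' := ⟨_, _, _, tor_one.symm⟩
  mul_mem' := by rintro _ _ ⟨_, _, _, rfl⟩ ⟨_, _, _, rfl⟩; exact ⟨_, _, _, tor_mul ..⟩
  inv_mem' := by rintro _ ⟨_, _, _, rfl⟩; exact ⟨_, _, _, tor_inv ..⟩

theorem into {D : Subgroup GV} (hD : D ≤ normalizer (PP : Set GV)) (h3 : ¬ 3 ∣ Nat.card D) :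
    ∃ θ ∈ normalizer (PP : Set GV), ∀ x ∈ D, θ * x * θ⁻¹ ∈ TT := by
  let s : Set GV := {g | g ∈ normalizer (PP : Set GV) ∧ Un g}
  have hA : IsPGroup 3 (closure s) := (ch fun g hg => hg.2).pgrp
  have le : closure s ≤ normalizer (PP : Set GV) := (closure_le _).2 fun g hg => hg.1
  have dc : ∀ x ∈ D, ∃ a ∈ closure s, ∃ α β σ, x = a * tor α β σ := fun x hx => by
    obtain ⟨α, β, σ, k⟩ := exists_un (hD hx)
    exact ⟨_, subset_closure ⟨mul_mem (hD hx) (tor_N α β σ), k⟩, α, β, σ, by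
      rw [mul_assoc, tor_mul]; simp [tor_one]⟩
  have nt : ∀ α β σ, tor α β σ ∈ normalizer (closure s : Set GV) := fun α β σ =>
    mem_normalizer_fintype fun g hg => by
      induction hg using closure_induction with
      | mem x hx =>
        exact subset_closure ⟨mul_mem (mul_mem (tor_N α β σ) hx.1) (inv_mem (tor_N α β σ)), hx.2.tor α β σ⟩
      | one => simp
      | mul x y _ _ a b => simpa [mul_assoc] using mul_mem a b
      | inv x _ a => simpa [mul_assoc] using inv_mem a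
  obtain ⟨n, hn⟩ := hA.exists_card_eq
  obtain ⟨b, hb, e⟩ := H1.glauberman_fixed D (closure s) (fun x hx => by
      obtain ⟨a, ha, α, β, σ, rfl⟩ := dc x hx
      exact mul_mem (le_normalizer ha) (nt α β σ))
    (hn ▸ ((Nat.prime_three.coprime_iff_not_dvd.2 h3).pow_left n).symm)
    (Or.inr (have := hA.isNilpotent; inferInstance)) TT fun x hx => by
      obtain ⟨a, ha, α, β, σ, rfl⟩ := dc x hx
      exact ⟨a, ha, α, β, σ, by simp⟩
  exact ⟨b⁻¹, inv_mem (le hb), fun x hx => by rw [inv_inv]; exact e x hx⟩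

end NrmB

open NrmB in
/-- after a conjugation the normaliser of the Sylow subgroup is standard -/
theorem hb_norm (h : Hyp X) : ∃ θ ∈ normalizer (PP : Set GV), HB (cjX θ X) := by
  let N := X ⊓ normalizer (PP : Set GV)
  have hP : PP ≤ N := le_inf h.le le_normalizer
  have nr : (PP.subgroupOf N).Normal := normal_subgroupOf_of_le_normalizer inf_le_right
  have cP : Nat.card (PP.subgroupOf N) = 3 ^ 3 := by
    rw [Nat.card_congr (subgroupOfEquivOfLe hP).toEquiv, card_PP]; rfl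
  have hi : ¬ 3 ∣ (PP.subgroupOf N).index := fun ⟨k, hk⟩ => (h.mono inf_le_left hP).syl ⟨k, by
    rw [← (PP.subgroupOf N).card_mul_index, cP, hk]; ring⟩
  obtain ⟨D, hD⟩ := Subgroup.exists_right_complement'_of_coprime (N := PP.subgroupOf N)
    (cP ▸ (Nat.prime_three.coprime_iff_not_dvd.2 hi).pow_left 3)
  obtain ⟨θ, hθ, e⟩ := into (D := D.map N.subtype) ((map_subtype_le _).trans inf_le_right) (by
    rwa [card_map_of_injective N.subtype_injective, ← hD.symm.index_eq_card])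
  refine ⟨θ, hθ, fun x hx hn => ?_⟩
  have hn' : θ⁻¹ * x * θ ∈ normalizer (PP : Set GV) := mul_mem (mul_mem (inv_mem hθ) hn) hθ
  obtain ⟨⟨⟨p, hp⟩, d⟩, k⟩ := (hD.existsUnique ⟨θ⁻¹ * x * θ, mem_cjX.1 hx, hn'⟩).exists
  obtain ⟨α, β, σ, e1⟩ := e _ ⟨d, d.2, rfl⟩
  obtain ⟨a, b, c, e2⟩ := (mem_normalizer_iff.1 hθ _).1 hp
  refine ⟨a, b, c, α, β, σ, ?_⟩
  have k' : (p : GV) * (d : N) = θ⁻¹ * x * θ := congrArg Subtype.val k
  rw [← e1, ← e2]
  show x = θ * p * θ⁻¹ * (θ * (d : N) * θ⁻¹)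
  rw [show θ * p * θ⁻¹ * (θ * (d : N) * θ⁻¹) = θ * ((p : GV) * (d : N)) * θ⁻¹ by group, k']
  group

end Cfsg.Agent.C3X
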