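import Cfsg.Agent.C3X.KA
import Cfsg.Agent.C3X.KB2

set_option autoImplicit false

namespace Cfsg.Agent.C3X

open Subgroup

variable {X : Subgroup GV}

theorem omA_fix (b c : F) {v : V} (h : InA v) : pe 0 b c v = v := by
  obtain ⟨h2, h4, h5⟩ := h
  refine v_ext ?_ ?_ ?_ ?_ ?_ ?_ <;> simp [h2, h4, h5]

theorem omA_comm {s t : GV} (hs : s ∈ A2) (ht : t ∈ A2) : s * t = t * s := by
  obtain ⟨b, c, rfl⟩ := hs
  obtain ⟨b', c', rfl⟩ := ht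
  rw [pe_mul, pe_mul]
  congr 1 <;> ring

theorem omA_aux {y : GV} (h : ∀ t ∈ A2, y * t * y⁻¹ ∈ PP) :
    ∃ b c, y⁻¹ zv = sq b c ∨ y⁻¹ zv = -sq b c := by
  have z : zv = sq 0 1 := by decide
  have m : pe 0 0 1 ∈ A2 := ⟨0, 1, rfl⟩
  have cu := cu_A1 (a := 0) (c := 1) (.inr one_ne_zero)
  obtain ⟨a1, b1, c1, e1⟩ := h _ m
  have k := cu.conj y
  rw [e1] at k
  rcases k.pe with ⟨-, -, e⟩ | ⟨rfl, hb, -⟩
  · exact ⟨0, 1, z ▸ FZ.inv e⟩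
  have n : y ∈ normalizer (A2 : Set GV) := mem_normalizer_fintype fun t ht => by
    obtain ⟨a, b, c, e⟩ := h t ht
    have : y * t * y⁻¹ * (y * pe 0 0 1 * y⁻¹) = y * pe 0 0 1 * y⁻¹ * (y * t * y⁻¹) := by
      rw [conj_mul, conj_mul, omA_comm ht m]
    rw [e, e1, pe_mul, pe_mul] at this
    have a0 : a * b1 = 0 := by linear_combination (pe_inj this).2.2
    exact ⟨b, c, by rw [e, (mul_eq_zero.1 a0).resolve_right hb]⟩
  obtain ⟨b, c, e⟩ := (mem_normalizer_iff.1 (inv_mem n) _).1 m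
  have k' := cu.conj y⁻¹
  rw [e] at k'
  rcases k'.pe with ⟨-, -, e⟩ | ⟨-, -, e⟩
  · exact ⟨0, 1, z ▸ e⟩
  · exact ⟨b, c, e⟩

theorem omA (h : Hyp X) {v : V} (hv : v ∈ Om X) (ha : InA v) : ∃ b c, v = sq b c ∨ v = -sq b c := by
  obtain ⟨x, hx, e⟩ := hv
  have hw : InA (x zv) := by
    rcases e with e | e <;> rw [e]
    · exact ha
    · exact ⟨neg_eq_zero.2 ha.1, neg_eq_zero.2 ha.2.1, neg_eq_zero.2 ha.2.2⟩
  obtain ⟨k, hk, hc⟩ := h.kz.conj (T := A2.map (MulAut.conj x⁻¹).toMonoidHom) (by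
    rintro _ ⟨_, ⟨b, c, rfl⟩, rfl⟩
    refine ⟨mul_mem (mul_mem (inv_mem hx) (h.le (pe_mem ..))) (inv_mem (inv_mem hx)), .inl ?_⟩
    change x⁻¹ (pe 0 b c (x⁻¹⁻¹ zv)) = zv
    rw [inv_inv, omA_fix b c hw, ginv]) ((pgrp_PP.to_le A2_le).map _)
  obtain ⟨b, c, e'⟩ := omA_aux (y := k * x⁻¹) fun t ht => by
    have := hc _ ⟨t, ht, rfl⟩
    convert this using 1
    change _ = k * (x⁻¹ * t * x⁻¹⁻¹) * k⁻¹
    group
  rw [mul_inv_rev, inv_inv, gmul] at e'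
  refine ⟨b, c, ?_⟩
  rcases hk.2.inv with e1 | e1 <;> rw [e1] at e' <;> rcases e with e | e <;>
    rcases e' with e' | e' <;> simp_all [neg_eq_iff_eq_neg]

theorem omA_yb (a c : F) : yb 0 * pe a 0 c * (yb 0)⁻¹ = pe (a - c) 0 c := by
  rw [mul_inv_eq_iff_eq_mul]
  refine LinearEquiv.ext fun v => ?_
  change yb 0 (pe a 0 c v) = pe (a - c) 0 c (yb 0 v)
  refine v_ext ?_ ?_ ?_ ?_ ?_ ?_ <;> simp [yb_apply, zf, ybf] <;> ring

theorem kgen (h : Hyp X) (hb : HB X) {Y : Subgroup GV} (hY : Y ≤ X) (hP : PP ≤ Y) (hy : yb 0 ∈ Y)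
    (ht : ∀ α β σ, tor α β σ ∈ X → tor α β σ ∈ Y) : KZ X ≤ Y := by
  rintro k ⟨hk, hz⟩
  obtain ⟨a, c, e⟩ := (mem_normalizer_iff.1 (kA1 h hk hz) _).1 (⟨0, 1, rfl⟩ : pe 0 0 1 ∈ A1)
  obtain ⟨y, my, d, e1⟩ : ∃ y ∈ Y, ∃ d, y * pe a 0 c * y⁻¹ = pe 0 0 d := by
    by_cases a0 : a = 0
    · exact ⟨1, one_mem _, c, by rw [a0, one_mul, inv_one, mul_one]⟩
    refine ⟨yb 0 * pe 0 ((c - a) * a) 0, mul_mem hy (hP (pe_mem ..)), a, ?_⟩
    have : pe 0 ((c - a) * a) 0 * pe a 0 c * (pe 0 ((c - a) * a) 0)⁻¹ = pe a 0 a := by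
      rw [pe_inv, pe_mul, pe_mul]
      clear e
      congr 1 <;> revert a c <;> decide
    rw [mul_inv_rev, show ∀ p q r s t : GV, p * q * r * (s * t) = p * (q * r * s) * t from
      fun p q r s t => by simp only [mul_assoc], this, omA_yb, sub_self]
  have e2 : y * k * pe 0 0 1 * (y * k)⁻¹ = pe 0 0 d := by
    rw [← e1, ← e]; group
  have mk := mul_mem (hY my) hk
  obtain ⟨a', b', c', α, β, σ, e3⟩ := hb _ mk (nZ h mk (by
    rcases f3 d with rfl | rfl | rfl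
    · rw [pe_zero, conj_eq_one_iff, ← pe_zero] at e2
      exact absurd (pe_inj e2).2.2 one_ne_zero
    · exact .inl e2
    · exact .inr e2))
  have m1 : pe a' b' c' ∈ Y := hP (pe_mem ..)
  have m2 := ht α β σ ((mul_mem_cancel_left (hY m1)).1 (e3 ▸ mk))
  exact (mul_mem_cancel_left my).1 (e3 ▸ mul_mem m1 m2)

end Cfsg.Agent.C3X
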