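import Cfsg.Agent.C3X.Bas
import Cfsg.Agent.H9.SpCount

set_option autoImplicit false

namespace Cfsg.Agent.C3X

open Subgroup Matrix

namespace SpA

/-- square matrices of size three -/
abbrev M3 : Type := Matrix (Fin 3) (Fin 3) F
/-- square matrices of size six -/
abbrev M6 : Type := Matrix (Fin 3 ⊕ Fin 3) (Fin 3 ⊕ Fin 3) F
/-- the symplectic group -/
abbrev Sp : Type := Matrix.symplecticGroup (Fin 3) F

/-- the unitriangular matrix -/
def gm (a b c : F) : M3 := !![1, a, c; 0, 1, b; 0, 0, 1]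
/-- its inverse transpose -/
def hm (a b c : F) : M3 := !![1, 0, 0; -a, 1, 0; a * b - c, -b, 1]
/-- the symmetric matrix of a vector -/
def sm (v : V) : M3 := !![v 0, v 1, v 2; v 1, v 3, v 4; v 2, v 4, v 5]
/-- the block matrix -/
def mat (x : SS) : M6 := fromBlocks (gm x.a x.b x.c) (sm x.v * hm x.a x.b x.c) 0 (hm x.a x.b x.c)

theorem gm_mul (a b c a' b' c' : F) : gm a b c * gm a' b' c' = gm (a + a') (b + b') (c + c' + a * b') := by
  ext i j; fin_cases i <;> fin_cases j <;> simp [gm, Matrix.mul_apply, Fin.sum_univ_three] <;> ring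

theorem hm_mul (a b c a' b' c' : F) : hm a b c * hm a' b' c' = hm (a + a') (b + b') (c + c' + a * b') := by
  ext i j; fin_cases i <;> fin_cases j <;> simp [hm, Matrix.mul_apply, Fin.sum_univ_three] <;> ring

theorem gm_sm (a b c : F) (v : V) : gm a b c * sm v = sm (pf a b c v) * hm a b c := by
  ext i j; fin_cases i <;> fin_cases j <;> simp [gm, hm, sm, pf, Matrix.mul_apply, Fin.sum_univ_three] <;> ring

theorem sm_add (v w : V) : sm (v + w) = sm v + sm w := by
  ext i j; fin_cases i <;> fin_cases j <;> simp [sm]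

theorem sm_T (v : V) : (sm v)ᵀ = sm v := by
  ext i j; fin_cases i <;> fin_cases j <;> simp [sm]

theorem gm_hm (a b c : F) : (gm a b c)ᵀ * hm a b c = 1 := by
  ext i j; fin_cases i <;> fin_cases j <;> simp [gm, hm, Matrix.mul_apply, Fin.sum_univ_three]
  ring

theorem gm_zero : gm 0 0 0 = 1 := by decide
theorem hm_zero : hm 0 0 0 = 1 := by decide

theorem mat_mul (x y : SS) : mat (x * y) = mat x * mat y := by
  simp only [mat, fromBlocks_multiply, mul_v, mul_a, mul_b, mul_c, ← gm_mul, ← hm_mul, sm_add, Matrix.mul_zero,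
    Matrix.zero_mul, add_zero, zero_add, Matrix.add_mul, ← Matrix.mul_assoc, gm_sm, add_comm (sm x.v * _ * _)]

theorem mat_mem (x : SS) : mat x ∈ Matrix.symplecticGroup (Fin 3) F := by
  rw [mat, SymplecticGroup.fromBlocks_mem_iff]
  simp [gm_hm, sm_T, Matrix.mul_assoc]

theorem mat_jv (v : V) : mat (jv v) = fromBlocks 1 (sm v) 0 1 := by
  simp [mat, jv, gm_zero, hm_zero]

theorem mat_inj : Function.Injective mat := fun x y h => by
  obtain ⟨h1, h2, -, h3⟩ := fromBlocks_inj.1 h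
  have ha : x.a = y.a := congrFun (congrFun h1 0) 1
  have hb : x.b = y.b := congrFun (congrFun h1 1) 2
  have hc : x.c = y.c := congrFun (congrFun h1 0) 2
  have h4 := congrArg (· * (gm y.a y.b y.c)ᵀ) h2
  simp only [h3, Matrix.mul_assoc, mul_eq_one_comm.1 (gm_hm _ _ _), Matrix.mul_one] at h4
  exact SS.ext (v_ext (congrFun (congrFun h4 0) 0) (congrFun (congrFun h4 0) 1) (congrFun (congrFun h4 0) 2)
    (congrFun (congrFun h4 1) 1) (congrFun (congrFun h4 1) 2) (congrFun (congrFun h4 2) 2)) ha hb hc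

/-- the embedding -/
def io : SS →* Sp := MonoidHom.mk' (fun x => ⟨mat x, mat_mem x⟩) fun x y => Subtype.ext (mat_mul x y)

theorem coe_io (x : SS) : (io x : M6) = mat x := rfl

theorem io_inj : Function.Injective io := fun _ _ h => mat_inj (congrArg Subtype.val h)

/-- conjugates of the centre under similitudes -/
theorem key {c : M6} {ε : F} {v : V} (h1 : c * J (Fin 3) F * cᵀ = ε • J (Fin 3) F)
    (h2 : c * mat (jv zv) = mat (jv v) * c) : ε • v = sq3 fun i => c (Sum.inl i) (Sum.inl 0) := by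
  have e : ∀ w, mat (jv w) = 1 + fromBlocks 0 (sm w) 0 0 := fun w => by
    rw [mat_jv, ← fromBlocks_one, fromBlocks_add]; simp
  rw [e, e, Matrix.mul_add, Matrix.add_mul, Matrix.mul_one, Matrix.one_mul, add_right_inj] at h2
  have h3 : c * (fromBlocks 0 (sm zv) 0 0 * J (Fin 3) F) * cᵀ = ε • (fromBlocks 0 (sm v) 0 0 * J (Fin 3) F) := by
    rw [← Matrix.mul_assoc, h2, Matrix.mul_assoc, Matrix.mul_assoc, ← Matrix.mul_assoc c, h1, Matrix.mul_smul]
  have h4 : ∀ i j, ε * sm v i j = c (Sum.inl i) (Sum.inl 0) * c (Sum.inl j) (Sum.inl 0) := fun i j => by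
    have := congrFun (congrFun h3 (Sum.inl i)) (Sum.inl j)
    simpa [J, fromBlocks_multiply, Matrix.mul_apply, Fintype.sum_sum_type, Fin.sum_univ_three, sm, zv]
      using this.symm
  exact v_ext (h4 0 0) (h4 0 1) (h4 0 2) (h4 1 1) (h4 1 2) (h4 2 2)

theorem conj {x y : SS} (c : M6) (h : c * J (Fin 3) F * cᵀ = J (Fin 3) F) (e : c * mat x = mat y * c) :
    IsConj (io x) (io y) :=
  isConj_iff.2 ⟨⟨c, SymplecticGroup.mem_iff.2 h⟩, mul_inv_eq_iff_eq_mul.2 (Subtype.ext e)⟩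

theorem card_Sp : Nat.card Sp = 3 ^ 9 * 465920 := by
  rw [H9.card_symplecticGroup, ZMod.card]; decide +kernel

theorem top : IsConj (io (jv zv)) (io (jv ![0, 0, 0, 0, 0, 1])) :=
  conj (fromBlocks !![0, 0, 1; 0, 1, 0; 1, 0, 0] 0 0 !![0, 0, 1; 0, 1, 0; 1, 0, 0])
    (by decide +kernel) (by decide +kernel)

theorem out : IsConj (io (jv ![0, 0, 1, 0, 0, 0])) (io (pv 0 0 1)) :=
  conj (fromBlocks !![1, 0, 0; 0, 1, 0; 0, 0, 0] !![0, 0, 0; 0, 0, 0; 0, 0, 1]
    !![0, 0, 0; 0, 0, 0; 0, 0, -1] !![1, 0, 0; 0, 1, 0; 0, 0, 0]) (by decide +kernel) (by decide +kernel)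

theorem sq_of {v : V} (h : IsConj (io (jv zv)) (io (jv v))) : ∃ u, v = sq3 u := by
  obtain ⟨c, hc⟩ := isConj_iff.1 h
  have := key (c := c) (ε := 1) (v := v) (by rw [one_smul]; exact SymplecticGroup.mem_iff.1 c.2)
    (congrArg Subtype.val (mul_inv_eq_iff_eq_mul.1 hc))
  exact ⟨_, by rwa [one_smul] at this⟩

end SpA

theorem exists_sp : ∃ (G : Type) (_ : Group G) (ι : SS →* G), Re ι ∧ ¬ IsConj (ι (jv zv)) (ι (jv (-zv))) ∧
    ∀ v, IsConj (ι (jv zv)) (ι (jv v)) → ∃ u, v = sq3 u ∨ v = -sq3 u := by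
  refine ⟨SpA.Sp, inferInstance, SpA.io, ⟨SpA.io_inj, by rw [SpA.card_Sp]; decide +kernel, inferInstance,
    ⟨_, by decide, SpA.top⟩, SpA.out⟩, fun h => ?_, fun v h => (SpA.sq_of h).imp fun _ => Or.inl⟩
  obtain ⟨u, hu⟩ := SpA.sq_of h
  have : (-1 : F) = u 0 * u 0 := congrFun hu 0
  revert this
  generalize u 0 = k
  revert k
  decide

end Cfsg.Agent.C3X
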