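import Cfsg.Agent.C3X.Bas
import Cfsg.Agent.H9.SpCount

set_option autoImplicit false

namespace Cfsg.Agent.C3X

open Subgroup Matrix

namespace SpB

/-- six by six matrices -/
abbrev M6 : Type := Matrix (Fin 3 ⊕ Fin 3) (Fin 3 ⊕ Fin 3) F

/-- the form -/
abbrev JJ : M6 := J (Fin 3) F

/-- the symplectic similitudes -/
def GS : Subgroup M6ˣ where
  carrier := {A | A.1 * JJ * A.1ᵀ = JJ ∨ A.1 * JJ * A.1ᵀ = -JJ}
  one_mem' := Or.inl (by simp)
  mul_mem' := by
    intro A B hA hB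
    have e : (A * B).1 * JJ * (A * B).1ᵀ = A.1 * (B.1 * JJ * B.1ᵀ) * A.1ᵀ := by
      rw [Units.val_mul, transpose_mul]; simp only [mul_assoc]
    show _ = JJ ∨ _ = -JJ
    rw [e]
    rcases hB with hB | hB <;> rcases hA with hA | hA <;> simp [hA, hB]
  inv_mem' := by
    intro A hA
    have e : JJ = (A⁻¹).1 * (A.1 * JJ * A.1ᵀ) * (A⁻¹).1ᵀ := by
      rw [← mul_assoc, ← mul_assoc, Units.inv_mul, one_mul, mul_assoc, ← transpose_mul, Units.inv_mul,
        transpose_one, mul_one]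
    rcases hA with hA | hA <;> rw [hA] at e
    · exact Or.inl e.symm
    · exact Or.inr (by rw [mul_neg, neg_mul] at e; exact (neg_eq_iff_eq_neg.1 e.symm))

/-- the symplectic group inside -/
def S0 : Subgroup GS where
  carrier := {A | A.1.1 * JJ * A.1.1ᵀ = JJ}
  one_mem' := by simp
  mul_mem' := by
    intro A B hA hB
    have e : (A * B).1.1 * JJ * (A * B).1.1ᵀ = A.1.1 * (B.1.1 * JJ * B.1.1ᵀ) * A.1.1ᵀ := by
      rw [coe_mul, Units.val_mul, transpose_mul]; simp only [mul_assoc]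
    exact e.trans (by rw [hB, hA])
  inv_mem' := by
    intro A hA
    have e : JJ = (A.1⁻¹).1 * (A.1.1 * JJ * A.1.1ᵀ) * (A.1⁻¹).1ᵀ := by
      rw [← mul_assoc, ← mul_assoc, Units.inv_mul, one_mul, mul_assoc, ← transpose_mul, Units.inv_mul,
        transpose_one, mul_one]
    rw [hA] at e
    exact e.symm

/-- an element from a matrix and its inverse -/
def el (A B : M6) (h : A * B = 1 ∧ B * A = 1 ∧ (A * JJ * Aᵀ = JJ ∨ A * JJ * Aᵀ = -JJ)) : GS :=
  ⟨⟨A, B, h.1, h.2.1⟩, h.2.2⟩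

/-- multiplier minus one -/
def DD : GS := el (fromBlocks 1 0 0 (-1)) (fromBlocks 1 0 0 (-1)) (by decide +kernel)

theorem DD_J : DD.1.1 * JJ * DD.1.1ᵀ = -JJ := by decide +kernel

theorem idx : S0.index ∣ 2 := index_dvd_two_iff.2 ⟨DD, fun B => by
  rcases B.2 with h | h
  · exact Or.inr h
  · refine Or.inl ?_
    have e : (B * DD).1.1 * JJ * (B * DD).1.1ᵀ = B.1.1 * (DD.1.1 * JJ * DD.1.1ᵀ) * B.1.1ᵀ := by
      rw [coe_mul, Units.val_mul, transpose_mul]; simp only [mul_assoc]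
    exact e.trans (by rw [DD_J, mul_neg, neg_mul, h, neg_neg])⟩

theorem nd : ¬ 3 ^ 10 ∣ Nat.card GS := fun h => by
  let f : S0 →* symplecticGroup (Fin 3) F :=
    { toFun := fun A => ⟨A.1.1.1, SymplecticGroup.mem_iff.2 A.2⟩, map_one' := rfl, map_mul' := fun _ _ => rfl }
  have h1 := card_dvd_of_injective f fun A B e => Subtype.ext (Subtype.ext (Units.ext (congrArg Subtype.val e)))
  rw [H9.card_symplecticGroup, ZMod.card] at h1
  rw [← S0.index_mul_card] at h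
  exact absurd (h.trans (mul_dvd_mul idx h1)) (by decide +kernel)

/-- the unitriangular matrix -/
def gm (a b c : F) : Matrix (Fin 3) (Fin 3) F := !![1, a, c; 0, 1, b; 0, 0, 1]
/-- its inverse transpose -/
def hm (a b c : F) : Matrix (Fin 3) (Fin 3) F := !![1, 0, 0; -a, 1, 0; a * b - c, -b, 1]
/-- the symmetric matrix -/
def Mm (v : V) : Matrix (Fin 3) (Fin 3) F := !![v 0, v 1, v 2; v 1, v 3, v 4; v 2, v 4, v 5]

theorem gm_mul (a b c a' b' c' : F) : gm a b c * gm a' b' c' = gm (a + a') (b + b') (c + c' + a * b') := by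
  ext i j; fin_cases i <;> fin_cases j <;> simp [gm, mul_apply, Fin.sum_univ_three] <;> ring

theorem hm_mul (a b c a' b' c' : F) : hm a b c * hm a' b' c' = hm (a + a') (b + b') (c + c' + a * b') := by
  ext i j; fin_cases i <;> fin_cases j <;> simp [hm, mul_apply, Fin.sum_univ_three] <;> ring

theorem Mm_pf (a b c : F) (v : V) : gm a b c * Mm v = Mm (pf a b c v) * hm a b c := by
  ext i j; fin_cases i <;> fin_cases j <;> simp [gm, hm, Mm, pf, mul_apply, Fin.sum_univ_three] <;> ring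

theorem Mm_add (v w : V) : Mm (v + w) = Mm v + Mm w := by
  ext i j; fin_cases i <;> fin_cases j <;> simp [Mm]

theorem Mm_tr (v : V) : (Mm v)ᵀ = Mm v := by
  ext i j; fin_cases i <;> fin_cases j <;> simp [Mm]

theorem hg : ∀ a b c : F, hm a b c * (gm a b c)ᵀ = 1 ∧ gm a b c * (hm a b c)ᵀ = 1 := by decide +kernel

/-- the embedding as matrices -/
def i0 : SS →* M6 where
  toFun x := fromBlocks (gm x.a x.b x.c) (Mm x.v * hm x.a x.b x.c) 0 (hm x.a x.b x.c)
  map_one' := by decide +kernel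
  map_mul' x y := by
    rw [fromBlocks_multiply, mul_v, mul_a, mul_b, mul_c, ← gm_mul, ← hm_mul, Mm_add, ← mul_assoc (gm _ _ _), Mm_pf]
    simp only [Matrix.mul_zero, Matrix.zero_mul, add_zero, zero_add, add_mul, mul_assoc, add_comm]

theorem i0_apply (x : SS) :
    i0 x = fromBlocks (gm x.a x.b x.c) (Mm x.v * hm x.a x.b x.c) 0 (hm x.a x.b x.c) := rfl

theorem i0_J (x : SS) : i0 x * JJ * (i0 x)ᵀ = JJ := by
  obtain ⟨h1, h2⟩ := hg x.a x.b x.c
  rw [i0_apply, JJ, J, fromBlocks_transpose, fromBlocks_multiply, fromBlocks_multiply, transpose_mul, Mm_tr]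
  simp [mul_assoc, h1, ← mul_assoc (gm _ _ _), h2]

/-- the embedding -/
def io : SS →* GS := i0.toHomUnits.codRestrict GS fun x => Or.inl (i0_J x)

theorem io_val (x : SS) : (io x).1.1 = i0 x := rfl

theorem conj_of (c : GS) {x y : SS} (h : c.1.1 * i0 x = i0 y * c.1.1) : IsConj (io x) (io y) :=
  isConj_iff.2 ⟨c, mul_inv_eq_iff_eq_mul.2 (Subtype.ext (Units.ext h))⟩

theorem inj : Function.Injective io := (injective_iff_map_eq_one _).2 fun x h => by
  have h1 : i0 x = 1 := congrArg (fun A : GS => A.1.1) h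
  have e : ∀ i j, i0 x i j = (1 : M6) i j := fun i j => by rw [h1]
  have a : x.a = 0 := by simpa [i0_apply, gm] using e (.inl 0) (.inl 1)
  have b : x.b = 0 := by simpa [i0_apply, gm] using e (.inl 1) (.inl 2)
  have c : x.c = 0 := by simpa [i0_apply, gm] using e (.inl 0) (.inl 2)
  have k : ∀ i j, Mm x.v i j = 0 := fun i j => by
    have := e (.inl i) (.inr j)
    rwa [i0_apply, fromBlocks_apply₁₂, a, b, c, show hm 0 0 0 = 1 by decide +kernel, mul_one,
      one_apply_ne (by simp)] at this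
  exact SS.ext (v_ext (k 0 0) (k 0 1) (k 0 2) (k 1 1) (k 1 2) (k 2 2)) a b c

theorem rk : ∀ p q : Fin 3 → F, (∀ i j, p i * q j = p j * q i) → ∃ u : Fin 3 → F,
    ![p 0 * q 0, p 0 * q 1, p 0 * q 2, p 1 * q 1, p 1 * q 2, p 2 * q 2] = sq3 u ∨
    ![p 0 * q 0, p 0 * q 1, p 0 * q 2, p 1 * q 1, p 1 * q 2, p 2 * q 2] = -sq3 u := by decide +kernel

theorem rank (v : V) (h : IsConj (io (jv zv)) (io (jv v))) : ∃ u, v = sq3 u ∨ v = -sq3 u := by
  obtain ⟨c, hc⟩ := isConj_iff.1 h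
  have h1 : c.1.1 * i0 (jv zv) * (c.1⁻¹).1 = i0 (jv v) := congrArg (fun A : GS => A.1.1) hc
  rw [show i0 (jv zv) = 1 + vecMulVec (Pi.single (.inl 0) 1) (Pi.single (.inr 0) 1) by decide +kernel,
    mul_add, add_mul, mul_one, Units.mul_inv, mul_vecMulVec, vecMulVec_mul] at h1
  generalize c.1.1 *ᵥ _ = p at h1
  generalize _ ᵥ* (c.1⁻¹).1 = q at h1
  have k : ∀ i j, Mm v i j = p (.inl i) * q (.inr j) := fun i j => by
    have := congrFun (congrFun h1 (.inl i)) (.inr j)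
    rw [i0_apply, fromBlocks_apply₁₂, show hm (jv v).a (jv v).b (jv v).c = 1 by
      show hm 0 0 0 = 1; decide +kernel, mul_one, Matrix.add_apply, one_apply_ne (by simp), zero_add, vecMulVec_apply] at this
    exact this.symm
  have e : v = ![p (.inl 0) * q (.inr 0), p (.inl 0) * q (.inr 1), p (.inl 0) * q (.inr 2), p (.inl 1) * q (.inr 1),
      p (.inl 1) * q (.inr 2), p (.inl 2) * q (.inr 2)] := v_ext (k 0 0) (k 0 1) (k 0 2) (k 1 1) (k 1 2) (k 2 2)
  rw [e]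
  exact rk (fun i => p (.inl i)) (fun j => q (.inr j)) fun i j => by
    rw [← k, ← k, ← transpose_apply (Mm v) i j, Mm_tr]

end SpB

open SpB in
theorem exists_gsp : ∃ (G : Type) (_ : Group G) (ι : SS →* G), Re ι ∧ IsConj (ι (jv zv)) (ι (jv (-zv))) ∧
    ∀ v, IsConj (ι (jv zv)) (ι (jv v)) → ∃ u, v = sq3 u ∨ v = -sq3 u := by
  refine ⟨GS, inferInstance, io, ⟨inj, nd, inferInstance, ⟨![0, 0, 0, 0, 0, 1], by decide, ?_⟩, ?_⟩,
    conj_of DD (by decide +kernel), rank⟩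
  · exact conj_of (el (fromBlocks !![0, 0, 1; 0, 1, 0; 1, 0, 0] 0 0 !![0, 0, 1; 0, 1, 0; 1, 0, 0])
      (fromBlocks !![0, 0, 1; 0, 1, 0; 1, 0, 0] 0 0 !![0, 0, 1; 0, 1, 0; 1, 0, 0]) (by decide +kernel))
      (by decide +kernel)
  · exact conj_of (el (fromBlocks !![1, 0, 0; 0, 1, 0; 0, 0, 0] !![0, 0, 0; 0, 0, 0; 0, 0, 1]
        !![0, 0, 0; 0, 0, 0; 0, 0, -1] !![1, 0, 0; 0, 1, 0; 0, 0, 0])
      (fromBlocks !![1, 0, 0; 0, 1, 0; 0, 0, 0] !![0, 0, 0; 0, 0, 0; 0, 0, -1]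
        !![0, 0, 0; 0, 0, 0; 0, 0, 1] !![1, 0, 0; 0, 1, 0; 0, 0, 0]) (by decide +kernel)) (by decide +kernel)

end Cfsg.Agent.C3X
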