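import Cfsg.Agent.C3X.Bas

set_option autoImplicit false

namespace Cfsg.Agent.C3X

open Subgroup

variable {X : Subgroup GV}

namespace XA1

/-- strict evaluation of a scalar -/
def fc (x : F) (k : F → V) : V := if x = 0 then k 0 else if x = 1 then k 1 else k (-1)

theorem fc_eq (x : F) (k : F → V) : fc x k = k x := by
  unfold fc
  rcases f3 x with rfl | rfl | rfl
  · rfl
  · rfl
  · rfl

/-- strict evaluation of a vector -/
def st (f : V → V) (v : V) : V :=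
  fc (v 0) fun a => fc (v 1) fun b => fc (v 2) fun c => fc (v 3) fun d => fc (v 4) fun e =>
    fc (v 5) fun g => f ![a, b, c, d, e, g]

theorem st_eq (f : V → V) (v : V) : st f v = f v := by
  simp only [st, fc_eq]
  congr 1
  exact v_ext rfl rfl rfl rfl rfl rfl

/-- strict evaluation of a composite, first map first -/
def run : List (V → V) → V → V
  | [], v => v
  | f :: fs, v => st (run fs) (f v)

theorem run_nil (v : V) : run [] v = v := rfl
theorem run_cons (f : V → V) (fs : List (V → V)) (v : V) : run (f :: fs) v = run fs (f v) :=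
  st_eq _ _

/-- basis vectors -/
def bv (i : Fin 6) : V := fun j => if j = i then 1 else 0

theorem ext_bv {g h : GV} (e : ∀ i, g (bv i) = h (bv i)) : g = h := by
  refine LinearEquiv.ext fun v => ?_
  have : v = v 0 • bv 0 + v 1 • bv 1 + v 2 • bv 2 + v 3 • bv 3 + v 4 • bv 4 + v 5 • bv 5 := by
    refine v_ext ?_ ?_ ?_ ?_ ?_ ?_ <;> simp [bv]
  rw [this]
  simp only [map_add, map_smul, e]

/-- the centraliser of `A2` -/
def df (d0 d1 d3 d5 : F) (v : V) : V :=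
  ![d5 * v 0 + v 5 * d0, d5 * v 1 + v 5 * d1, d5 * v 2, d5 * v 3 + v 5 * d3, d5 * v 4, d5 * v 5]

theorem cent {δ : GV} (h : ∀ b c : F, δ * pe 0 b c = pe 0 b c * δ) (h2 : δ (bv 5) 2 = 0)
    (h4 : δ (bv 5) 4 = 0) (v : V) :
    δ v = df (δ (bv 5) 0) (δ (bv 5) 1) (δ (bv 5) 3) (δ (bv 5) 5) v := by
  have k : ∀ b c : F, δ (pf 0 b c (bv 5)) = pf 0 b c (δ (bv 5)) := fun b c =>
    LinearEquiv.congr_fun (h b c) (bv 5)
  have hd : δ (bv 5) = ![δ (bv 5) 0, δ (bv 5) 1, 0, δ (bv 5) 3, 0, δ (bv 5) 5] :=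
    v_ext rfl rfl h2 rfl h4 rfl
  generalize δ (bv 5) 0 = d0 at *
  generalize δ (bv 5) 1 = d1 at *
  generalize δ (bv 5) 3 = d3 at *
  generalize δ (bv 5) 5 = d5 at *
  have e4 : bv 4 = pf 0 (-1) 0 (bv 5) - pf 0 1 0 (bv 5) := by decide
  have e3 : bv 3 = -(pf 0 (-1) 0 (bv 5) + pf 0 1 0 (bv 5) + bv 5) := by decide
  have e2 : bv 2 = pf 0 0 (-1) (bv 5) - pf 0 0 1 (bv 5) := by decide
  have e0 : bv 0 = -(pf 0 0 (-1) (bv 5) + pf 0 0 1 (bv 5) + bv 5) := by decide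
  have e1 : bv 1 = pf 0 1 1 (bv 5) + bv 5 - pf 0 1 0 (bv 5) - pf 0 0 1 (bv 5) := by decide
  have a4 : δ (bv 4) = d5 • bv 4 := by
    conv_lhs => rw [e4, map_sub, k, k, hd]
    clear * -; revert d0 d1 d3 d5; decide +kernel
  have a3 : δ (bv 3) = d5 • bv 3 := by
    conv_lhs => rw [e3, map_neg, map_add, map_add, k, k, hd]
    clear * -; revert d0 d1 d3 d5; decide +kernel
  have a2 : δ (bv 2) = d5 • bv 2 := by
    conv_lhs => rw [e2, map_sub, k, k, hd]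
    clear * -; revert d0 d1 d3 d5; decide +kernel
  have a0 : δ (bv 0) = d5 • bv 0 := by
    conv_lhs => rw [e0, map_neg, map_add, map_add, k, k, hd]
    clear * -; revert d0 d1 d3 d5; decide +kernel
  have a1 : δ (bv 1) = d5 • bv 1 := by
    conv_lhs => rw [e1, map_sub, map_sub, map_add, k, k, k, hd]
    clear * -; revert d0 d1 d3 d5; decide +kernel
  have : v = v 0 • bv 0 + v 1 • bv 1 + v 2 • bv 2 + v 3 • bv 3 + v 4 • bv 4 + v 5 • bv 5 := by
    refine v_ext ?_ ?_ ?_ ?_ ?_ ?_ <;> simp [bv]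
  conv_lhs => rw [this]
  simp only [map_add, map_smul, a0, a1, a2, a3, a4, hd]
  refine v_ext ?_ ?_ ?_ ?_ ?_ ?_ <;> simp [bv, df] <;> ring

theorem ya0_pe (b c : F) : ya0 * pe 0 b c * ya0⁻¹ = pe 0 (b + c) c := by
  rw [mul_inv_eq_iff_eq_mul]
  refine ext_bv fun i => ?_
  show yaf 1 (pf 0 b c (bv i)) = pf 0 (b + c) c (yaf 1 (bv i))
  revert b c i; decide +kernel

/-- the explicit form -/
def yf (d0 d1 d3 d5 : F) (v : V) : V := yaf 1 (df d0 d1 d3 d5 v)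

theorem fin : ∀ d0 d1 d3 d5 : F,
    run [yf d0 d1 d3 d5, yf d0 d1 d3 d5, yf d0 d1 d3 d5] (bv 5) = bv 5 →
    (∀ s : Bool, run [pf (-1) 0 0, yf d0 d1 d3 d5, pf 1 0 0, yf d0 d1 d3 d5, pf 1 0 0,
      yf d0 d1 d3 d5, pf 1 0 0, yf d0 d1 d3 d5, pf (-1) 0 0] (bv 5) = sg s • bv 5 →
    ∃ l : F, ∀ i, yf d0 d1 d3 d5 (bv i) = run [zf (-l), yaf 1, zf l] (bv i)) := by
  decide +kernel

end XA1

open XA1

theorem xa1 {y : GV} {σ : Bool} (h3 : y ^ 3 = 1) (hρ : y * tor false true σ = tor false true σ * y)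
    (hy : ∀ b c : F, y * pe 0 b c * y⁻¹ = pe 0 (b + c) c)
    (h4 : (pe 1 0 0 * y⁻¹ * pe 1 0 0) ^ 4 = 1 ∨ (pe 1 0 0 * y⁻¹ * pe 1 0 0) ^ 4 = tau) : ∃ l, y = ya l := by
  have c1 : ∀ b c : F, (ya0⁻¹ * y) * pe 0 b c = pe 0 b c * (ya0⁻¹ * y) := fun b c => by
    have := (hy b c).trans (ya0_pe b c).symm
    calc ya0⁻¹ * y * pe 0 b c = ya0⁻¹ * (y * pe 0 b c * y⁻¹) * y := by group
      _ = _ := by rw [this]; group
  have r : sg σ • y (bv 5) = tf false true σ (y (bv 5)) := by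
    have := LinearEquiv.congr_fun hρ (bv 5)
    rw [gmul, gmul] at this
    rw [← tor_apply, ← this, ← map_smul]
    congr 1
    rw [tor_apply]; cases σ <;> decide
  have t : ∀ (σ : Bool) (k : F), sg σ * k = sg σ * sg false * sg true * k → k = 0 := by decide
  have t' : ∀ (σ : Bool) (k : F), sg σ * k = sg σ * sg true * k → k = 0 := by decide
  have r2 : y (bv 5) 2 = 0 := t σ _ (congrFun r 2)
  have r4 : y (bv 5) 4 = 0 := t' σ _ (congrFun r 4)
  have k := cent c1 r2 (by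
    show y (bv 5) 4 + -1 * y (bv 5) 2 = 0
    rw [r2, r4]; rfl)
  generalize (ya0⁻¹ * y) (bv 5) 0 = d0 at k
  generalize (ya0⁻¹ * y) (bv 5) 1 = d1 at k
  generalize (ya0⁻¹ * y) (bv 5) 3 = d3 at k
  generalize (ya0⁻¹ * y) (bv 5) 5 = d5 at k
  have ky : ∀ v, y v = yf d0 d1 d3 d5 v := fun v => by
    rw [yf, ← k, ← ya0_apply, gmul, ginv']
  have i1 : (pe 1 0 0)⁻¹ = pe (-1) 0 0 := by rw [pe_inv]; congr 1
  have i2 : pe (-1) 0 0 * pe (-1) 0 0 = pe 1 0 0 := by rw [pe_mul]; congr 1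
  have e : ((pe 1 0 0 * y⁻¹ * pe 1 0 0) ^ 4)⁻¹ = pe (-1) 0 0 * (y * (pe 1 0 0 * (y * (pe 1 0 0 *
      (y * (pe 1 0 0 * (y * pe (-1) 0 0))))))) := by
    rw [← inv_pow, mul_inv_rev, mul_inv_rev, inv_inv, i1, ← i2, pow_succ, pow_three']
    simp only [mul_assoc]
  have f := fin d0 d1 d3 d5 (by
    simp only [run_cons, run_nil, ← ky]
    rw [← gmul, ← gmul, ← pow_three', h3, gone])
  simp only [run_cons, run_nil, ← ky] at f
  have e' := LinearEquiv.congr_fun e (bv 5)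
  simp only [gmul, pe_apply] at e'
  rw [← e'] at f
  obtain ⟨l, hl⟩ : ∃ l : F, ∀ i, y (bv i) = zf l (yaf 1 (zf (-l) (bv i))) := by
    rcases h4 with h | h
    · exact f false (by rw [h, inv_one, gone]; decide)
    · exact f true (by rw [h]; exact (tau_apply _).trans (by decide))
  exact ⟨l, ext_bv fun i => by rw [hl, ya_apply]⟩

theorem rr_eq (l : F) : (pe 1 0 0 * (ya l)⁻¹ * pe 1 0 0) ^ 2 = rr := by
  refine ext_bv fun i => ?_
  have : ∀ v, ((pe 1 0 0 * (ya l)⁻¹ * pe 1 0 0) ^ 2) v = run [pf 1 0 0, zf (-l), yaf (-1), zf l,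
      pf 1 0 0, pf 1 0 0, zf (-l), yaf (-1), zf l, pf 1 0 0] v := fun v => by
    have k : ∀ u, (ya l)⁻¹ u = zf l (yaf (-1) (zf (-l) u)) := fun u => rfl
    simp only [run_cons, run_nil, pow_two, gmul, pe_apply, k]
  rw [this, rr, tor_apply]
  clear this
  revert l i; decide +kernel

theorem ss_eq (l : F) : (pe 0 1 0 * (yb l)⁻¹ * pe 0 1 0) ^ 2 = ss := by
  refine ext_bv fun i => ?_
  have : ∀ v, ((pe 0 1 0 * (yb l)⁻¹ * pe 0 1 0) ^ 2) v = run [pf 0 1 0, zf (-l), ybf (-1), zf l,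
      pf 0 1 0, pf 0 1 0, zf (-l), ybf (-1), zf l, pf 0 1 0] v := fun v => by
    have k : ∀ u, (yb l)⁻¹ u = zf l (ybf (-1) (zf (-l) u)) := fun u => rfl
    simp only [run_cons, run_nil, pow_two, gmul, pe_apply, k]
  rw [this, ss, tor_apply]
  clear this
  revert l i; decide +kernel

namespace XA1

/-- generators -/
def gn (l : F) : Fin 4 → GV := ![pe 1 0 0, pe 0 1 0, ya l, yb 0]

/-- generators as functions -/
def gf (l : F) : Fin 4 → V → V :=
  ![pf 1 0 0, pf 0 1 0, run [zf (-l), yaf 1, zf l], ybf 1]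

theorem gn_gf (l : F) (i : Fin 4) (v : V) : gn l i v = gf l i v := by
  fin_cases i
  · rfl
  · rfl
  · show _ = run [zf (-l), yaf 1, zf l] v
    simp only [run_cons, run_nil]; rfl
  · show zf 0 (ybf 1 (zf (-0) v)) = ybf 1 v
    refine v_ext ?_ ?_ ?_ ?_ ?_ ?_ <;> simp [zf, ybf]

theorem ev_eq (l : F) (w : List (Fin 4)) (v : V) :
    (w.map (gn l)).reverse.prod v = run (w.map (gf l)) v := by
  induction w generalizing v with
  | nil => rfl
  | cons i w ih =>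
    rw [List.map_cons, List.reverse_cons, List.prod_append, List.prod_singleton, gmul, ih,
      List.map_cons, run_cons, gn_gf]

theorem wd_mem {l : F} (hP : PP ≤ X) (ha : ya l ∈ X) (hb : yb 0 ∈ X) (w : List (Fin 4)) :
    (w.map (gn l)).reverse.prod ∈ X := by
  refine list_prod_mem fun x hx => ?_
  obtain ⟨i, -, rfl⟩ := List.mem_map.1 (List.mem_reverse.1 hx)
  fin_cases i
  · exact hP (pe_mem _ _ _)
  · exact hP (pe_mem _ _ _)
  · exact ha
  · exact hb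

end XA1

theorem tau_mem (hP : PP ≤ X) (ha : ya 1 ∈ X) (hb : yb 0 ∈ X) : tau ∈ X := by
  have : tau = (([0, 0, 1, 2, 3, 2, 0, 3, 1, 1, 2, 3, 2, 3, 1, 0, 2, 3, 2, 3] : List (Fin 4)).map
      (gn 1)).reverse.prod := by
    refine ext_bv fun i => ?_
    rw [ev_eq, tau_apply]
    revert i; decide +kernel
  rw [this]; exact wd_mem hP ha hb _

theorem om2 (hP : PP ≤ X) (ha : ya (-1) ∈ X) (hb : yb 0 ∈ X) : (![0, 1, 0, 0, 0, 0] : V) ∈ Om X :=
  ⟨_, wd_mem hP ha hb [2, 0, 0, 3, 2, 3, 1, 2, 3, 2, 3], .inl (by rw [ev_eq]; decide +kernel)⟩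

end Cfsg.Agent.C3X
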